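import Cfsg.Agent.InertTwo.Setting

/-!
# The central extension by the corestriction of a bilinear cocycle

For `φ₁, φ₂ : P → 𝔽_p` the cochain `∑_{i ∈ G/P} φ₁ (h(g, g'i)) φ₂ (h(g', i))` is a cocycle, and its
commutator pairing on `P` is `[G : P]` times the determinant of `(φ₁, φ₂)`.
-/

set_option autoImplicit false
set_option linter.unusedSectionVars false

noncomputable section

namespace Cfsg.Agent.InertTwo

open scoped Classical

universe u

variable {p : ℕ} {G : Type u} [Group G] [Finite G] [Fact p.Prime]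

local instance instCocycle1 : Fintype G := Fintype.ofFinite G

namespace Core

variable (K : Core p G)

local instance instCocycle2 : Fintype (G ⧸ K.P) := Fintype.ofFinite _

def s (i : G ⧸ K.P) : G := i.out

theorem s_smul_mem (g : G) (i : G ⧸ K.P) : (K.s (g • i))⁻¹ * g * K.s i ∈ K.P := by
  have h : ((K.s (g • i) : G) : G ⧸ K.P) = ((g * K.s i : G) : G ⧸ K.P) := by
    show ((g • i).out : G ⧸ K.P) = ((g * i.out : G) : G ⧸ K.P)
    rw [QuotientGroup.out_eq']
    exact (MulAction.Quotient.mk_smul_out K.P g i).symm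
  rw [mul_assoc]
  exact QuotientGroup.eq.1 h

def h (g : G) (i : G ⧸ K.P) : K.P := ⟨(K.s (g • i))⁻¹ * g * K.s i, K.s_smul_mem g i⟩

theorem h_mul (g g' : G) (i : G ⧸ K.P) : K.h (g * g') i = K.h g (g' • i) * K.h g' i := by
  apply Subtype.ext
  simp only [h, Subgroup.coe_mul, mul_smul]
  group

theorem h_one (i : G ⧸ K.P) : K.h 1 i = 1 := by
  apply Subtype.ext
  simp [h]

theorem φ₁_one : K.φ₁ 1 = 0 := by simpa using K.φ₁_mul 1 1

theorem φ₂_one : K.φ₂ 1 = 0 := by simpa using K.φ₂_mul 1 1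

/-- The cocycle. -/
def coc (g g' : G) : ZMod p := ∑ i : G ⧸ K.P, K.φ₁ (K.h g (g' • i)) * K.φ₂ (K.h g' i)

theorem coc_assoc (g g' g'' : G) :
    K.coc g g' + K.coc (g * g') g'' = K.coc g' g'' + K.coc g (g' * g'') := by
  have e : K.coc g g' = ∑ i : G ⧸ K.P,
      K.φ₁ (K.h g (g' • (g'' • i))) * K.φ₂ (K.h g' (g'' • i)) :=
    (Fintype.sum_equiv (MulAction.toPerm g'') _ _ (fun i => by simp)).symm
  rw [e]
  simp only [coc, ← Finset.sum_add_distrib]
  refine Finset.sum_congr rfl fun i _ => ?_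
  rw [K.h_mul g g', K.φ₁_mul, K.h_mul g' g'', K.φ₂_mul, mul_smul]
  ring

theorem coc_one_left (g : G) : K.coc 1 g = 0 := by simp [coc, K.h_one, K.φ₁_one]

theorem coc_one_right (g : G) : K.coc g 1 = 0 := by simp [coc, K.h_one, K.φ₂_one]

/-- The base point of the `P`-orbit of a coset. -/
def base (i : G ⧸ K.P) : G ⧸ K.P :=
  (Quotient.mk (MulAction.orbitRel K.P (G ⧸ K.P)) i).out

theorem exists_base (i : G ⧸ K.P) : ∃ a : K.P, (a : G) • K.base i = i := by
  have : MulAction.orbitRel K.P (G ⧸ K.P) (K.base i) i := Quotient.exact (Quotient.out_eq _)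
  obtain ⟨a, ha⟩ := this
  refine ⟨a⁻¹, ?_⟩
  have ha' : (a : G) • i = K.base i := ha
  rw [← ha', Subgroup.coe_inv, inv_smul_smul]

theorem base_smul (a : K.P) (i : G ⧸ K.P) : K.base ((a : G) • i) = K.base i := by
  unfold base
  congr 1
  exact Quotient.sound ⟨a, rfl⟩

/-- The sign of the transfer on an orbit. -/
theorem exists_sign (j : G ⧸ K.P) : ∃ ε : ℤ, (ε = 1 ∨ ε = -1) ∧
    ∀ q : K.P, (q : G) • j = j → K.h q j = q ^ ε := by
  let Q : Subgroup G := K.P ⊓ MulAction.stabilizer G j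
  have hfix : ∀ q ∈ Q, q • j = j := fun q hq => hq.2
  have hmem : ∀ q ∈ Q, (K.s j)⁻¹ * q * ((K.s j)⁻¹)⁻¹ ∈ K.P := by
    intro q hq
    rw [inv_inv]
    have := K.s_smul_mem q j
    rwa [hfix q hq] at this
  rcases K.uniform_sign Q inf_le_left (K.s j)⁻¹ hmem with h | h
  · refine ⟨1, Or.inl rfl, fun q hq => Subtype.ext ?_⟩
    have := h q ⟨q.2, hq⟩
    rw [inv_inv] at this
    simp [Core.h, hq, this]
  · refine ⟨-1, Or.inr rfl, fun q hq => Subtype.ext ?_⟩
    have := h q ⟨q.2, hq⟩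
    rw [inv_inv] at this
    simp [Core.h, hq, this]

def sgn (i : G ⧸ K.P) : ℤ := (K.exists_sign (K.base i)).choose

def up (i : G ⧸ K.P) : K.P := (K.exists_base i).choose

theorem up_spec (i : G ⧸ K.P) : (K.up i : G) • K.base i = i := (K.exists_base i).choose_spec

theorem sgn_sq (i : G ⧸ K.P) : ((K.sgn i : ℤ) : ZMod p) * (K.sgn i : ZMod p) = 1 := by
  rcases (K.exists_sign (K.base i)).choose_spec.1 with h | h <;> rw [sgn, h] <;> simp

theorem φ_zpow_sign {φ : K.P → ZMod p} (hφ : ∀ a b : K.P, φ (a * b) = φ a + φ b) (q : K.P)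
    {ε : ℤ} (hε : ε = 1 ∨ ε = -1) : φ (q ^ ε) = (ε : ZMod p) * φ q := by
  rcases hε with rfl | rfl
  · simp
  · have h1 : φ 1 = 0 := by simpa using hφ 1 1
    have := hφ q⁻¹ q
    rw [inv_mul_cancel, h1] at this
    rw [zpow_neg_one]
    push_cast
    linear_combination -this

/-- On each orbit the cochain `h` differs from a homomorphism by a coboundary. -/
theorem h_eq {φ : K.P → ZMod p} (hφ : ∀ a b : K.P, φ (a * b) = φ a + φ b) :
    ∃ D : G ⧸ K.P → ZMod p, ∀ (a : K.P) (i : G ⧸ K.P),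
      φ (K.h a i) = (K.sgn i : ZMod p) * φ a + (D ((a : G) • i) - D i) := by
  refine ⟨fun i => φ (K.h (K.up i) (K.base i)) - (K.sgn i : ZMod p) * φ (K.up i), fun a i => ?_⟩
  set j := K.base i with hj
  set b := K.up i with hb
  set c := K.up ((a : G) • i) with hc
  have hsa : K.sgn ((a : G) • i) = K.sgn i := by
    unfold sgn
    congr 1
    · funext ε
      rw [K.base_smul]
  have hcb : (c : G) • j = (a : G) • i := by rw [hj, ← K.base_smul a i]; exact K.up_spec _
  have hbj : (b : G) • j = i := K.up_spec i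
  set q : K.P := c⁻¹ * (a * b) with hq
  have hqj : (q : G) • j = j := by
    rw [hq]
    simp only [Subgroup.coe_mul, Subgroup.coe_inv, mul_smul]
    rw [hbj, ← hcb, inv_smul_smul]
  obtain ⟨hε, hεq⟩ := (K.exists_sign j).choose_spec
  have e1 : K.h ((a : G) * b) j = K.h c j * K.h q j := by
    have : ((a : G) * b) = (c : G) * (q : G) := by rw [hq]; simp
    rw [this, K.h_mul, hqj]
  rw [K.h_mul, hbj, hεq q hqj] at e1
  have e2 := congrArg φ e1
  rw [hφ, hφ, φ_zpow_sign K hφ q hε] at e2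
  have e3 : φ q = φ a + φ b - φ c := by
    have h0 : c * q = a * b := by rw [hq, mul_inv_cancel_left]
    have := congrArg φ h0
    rw [hφ c q, hφ a b] at this
    linear_combination this
  have hs : (K.exists_sign j).choose = K.sgn i := rfl
  simp only [K.base_smul, hsa, ← hj, ← hb, ← hc]
  rw [hs, e3] at e2
  linear_combination e2

/-- The commutator pairing of the cocycle on `P`. -/
theorem pairing (a b : K.P) :
    K.coc a b - K.coc b a
      = (K.P.index : ZMod p) * (K.φ₁ a * K.φ₂ b - K.φ₁ b * K.φ₂ a) := by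
  obtain ⟨D₁, h₁⟩ := K.h_eq K.φ₁_mul
  obtain ⟨D₂, h₂⟩ := K.h_eq K.φ₂_mul
  have hab : ∀ i : G ⧸ K.P, (b : G) • ((a : G) • i) = (a : G) • ((b : G) • i) := fun i => by
    rw [← mul_smul, ← mul_smul, K.comm _ b.2 _ a.2]
  have hsgn : ∀ (c : K.P) (i : G ⧸ K.P), K.sgn ((c : G) • i) = K.sgn i := by
    intro c i
    unfold sgn
    congr 1
    · funext ε
      rw [K.base_smul]
  have sA : ∀ (c : K.P) (F : G ⧸ K.P → ZMod p),
      ∑ i, F ((c : G) • i) = ∑ i, F i := fun c F =>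
    Fintype.sum_equiv (MulAction.toPerm (c : G)) _ _ (fun i => by simp)
  have sS : ∀ (c : K.P) (F : G ⧸ K.P → ZMod p),
      ∑ i, (K.sgn i : ZMod p) * F ((c : G) • i) = ∑ i, (K.sgn i : ZMod p) * F i := fun c F => by
    rw [← sA c (fun i => (K.sgn i : ZMod p) * F i)]
    exact Finset.sum_congr rfl fun i _ => by rw [hsgn]
  simp only [coc, h₁, h₂, hsgn, hab]
  rw [← Finset.sum_sub_distrib, show (K.P.index : ZMod p) = ∑ i : G ⧸ K.P, (1 : ZMod p) by
    simp [Subgroup.index, Nat.card_eq_fintype_card], Finset.sum_mul]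
  set A1 := K.φ₁ a; set A2 := K.φ₂ a; set B1 := K.φ₁ b; set B2 := K.φ₂ b
  set e : G ⧸ K.P → ZMod p := fun i => (K.sgn i : ZMod p) with he
  set x : G ⧸ K.P → G ⧸ K.P := fun i => (a : G) • i with hx
  set y : G ⧸ K.P → G ⧸ K.P := fun i => (b : G) • i with hy
  have sA1 := sA a; have sB1 := sA b; have sAS := sS a; have sBS := sS b
  have key : ∀ i, (e i * A1 + (D₁ (x (y i)) - D₁ (y i))) * (e i * B2 + (D₂ (y i) - D₂ i))
      - (e i * B1 + (D₁ (x (y i)) - D₁ (x i))) * (e i * A2 + (D₂ (x i) - D₂ i))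
      - 1 * (A1 * B2 - B1 * A2)
      = A1 * (e i * D₂ (y i) - e i * D₂ i) + B2 * (e i * D₁ (x (y i)) - e i * D₁ (y i))
        - B1 * (e i * D₂ (x i) - e i * D₂ i) - A2 * (e i * D₁ (x (y i)) - e i * D₁ (x i))
        + (D₁ (x (y i)) * D₂ (y i) - D₁ (x i) * D₂ i)
        + (D₁ (y i) * D₂ i - D₁ (x (y i)) * D₂ (x i))
        + (D₁ (x i) * D₂ (x i) - D₁ (y i) * D₂ (y i)) := by
    intro i
    linear_combination (A1 * B2 - B1 * A2) * K.sgn_sq i
  rw [← sub_eq_zero, ← Finset.sum_sub_distrib, Finset.sum_congr rfl fun i _ => key i]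
  simp only [Finset.sum_add_distrib, Finset.sum_sub_distrib, ← Finset.mul_sum]
  have r1 : ∑ i, e i * D₂ (y i) = ∑ i, e i * D₂ i := sBS D₂
  have r2 : ∑ i, e i * D₂ (x i) = ∑ i, e i * D₂ i := sAS D₂
  have r3 : ∑ i, e i * D₁ (x i) = ∑ i, e i * D₁ i := sAS D₁
  have r4 : ∑ i, e i * D₁ (y i) = ∑ i, e i * D₁ i := sBS D₁
  have r5 : ∑ i, e i * D₁ (x (y i)) = ∑ i, e i * D₁ i :=
    (sBS (fun i => D₁ (x i))).trans r3
  have r6 : ∑ i, D₁ (x (y i)) * D₂ (y i) = ∑ i, D₁ (x i) * D₂ i :=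
    sB1 (fun i => D₁ (x i) * D₂ i)
  have r7 : ∑ i, D₁ (x (y i)) * D₂ (x i) = ∑ i, D₁ (y i) * D₂ i := by
    have := sA1 (fun i => D₁ (y i) * D₂ i)
    simpa only [hx, hy, hab] using this
  have r8 : ∑ i, D₁ (x i) * D₂ (x i) = ∑ i, D₁ (y i) * D₂ (y i) :=
    (sA1 (fun i => D₁ i * D₂ i)).trans (sB1 (fun i => D₁ i * D₂ i)).symm
  rw [r1, r2, r3, r4, r5, r6, r7, r8]
  ring

end Core

/-- The central extension of `G` by `ZMod p`. -/
structure Ext (K : Core p G) where
  z : ZMod p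
  g : G

namespace Ext

variable {K : Core p G}

@[ext] theorem ext' {a b : Ext K} (h : a.z = b.z) (h' : a.g = b.g) : a = b := by
  cases a; cases b; cases h; cases h'; rfl

instance : Mul (Ext K) := ⟨fun a b => ⟨a.z + b.z + K.coc a.g b.g, a.g * b.g⟩⟩
instance : One (Ext K) := ⟨⟨0, 1⟩⟩
instance : Inv (Ext K) := ⟨fun a => ⟨-a.z - K.coc a.g⁻¹ a.g, a.g⁻¹⟩⟩

@[simp] theorem mul_z (a b : Ext K) : (a * b).z = a.z + b.z + K.coc a.g b.g := rfl
@[simp] theorem mul_g (a b : Ext K) : (a * b).g = a.g * b.g := rfl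
@[simp] theorem one_z : (1 : Ext K).z = 0 := rfl
@[simp] theorem one_g : (1 : Ext K).g = 1 := rfl
@[simp] theorem inv_g (a : Ext K) : (a⁻¹).g = a.g⁻¹ := rfl
@[simp] theorem inv_z (a : Ext K) : (a⁻¹).z = -a.z - K.coc a.g⁻¹ a.g := rfl

instance : Group (Ext K) :=
  Group.ofLeftAxioms
    (fun a b c => by
      ext
      · simp only [mul_z, mul_g]
        linear_combination K.coc_assoc a.g b.g c.g
      · simp [mul_assoc])
    (fun a => by ext <;> simp [K.coc_one_left])
    (fun a => by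
      ext
      · simp only [mul_z, inv_z, inv_g, one_z]
        ring
      · simp)

/-- The projection onto `G`. -/
def proj (K : Core p G) : Ext K →* G where
  toFun a := a.g
  map_one' := rfl
  map_mul' _ _ := rfl

@[simp] theorem proj_apply (a : Ext K) : proj K a = a.g := rfl

theorem proj_surjective : Function.Surjective (proj K) := fun g => ⟨⟨0, g⟩, rfl⟩

def equivProd (K : Core p G) : Ext K ≃ ZMod p × G where
  toFun a := (a.z, a.g)
  invFun a := ⟨a.1, a.2⟩
  left_inv _ := rfl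
  right_inv _ := rfl

instance : Finite (Ext K) := Finite.of_equiv _ (equivProd K).symm

theorem card_ext : Nat.card (Ext K) = p * Nat.card G := by
  rw [Nat.card_congr (equivProd K), Nat.card_prod, Nat.card_zmod]

/-- The central elements over the identity. -/
def incl (K : Core p G) (k : ZMod p) : Ext K := ⟨k, 1⟩

theorem incl_mul (k : ZMod p) (a : Ext K) : incl K k * a = ⟨k + a.z, a.g⟩ := by
  ext <;> simp [incl, K.coc_one_left]

theorem mul_incl (k : ZMod p) (a : Ext K) : a * incl K k = ⟨k + a.z, a.g⟩ := by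
  ext
  · simp [incl, K.coc_one_right, add_comm]
  · simp [incl]

theorem incl_comm (k : ZMod p) (a : Ext K) : incl K k * a = a * incl K k := by
  rw [incl_mul, mul_incl]

theorem incl_add (k l : ZMod p) : incl K (k + l) = incl K k * incl K l := by
  rw [incl_mul]; rfl

theorem eq_incl_of_g_eq_one {a : Ext K} (h : a.g = 1) : a = incl K a.z := by
  ext <;> simp [incl, h]

theorem commutator_eq {a b : Ext K} (h : a.g * b.g = b.g * a.g) :
    a * b = incl K (K.coc a.g b.g - K.coc b.g a.g) * (b * a) := by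
  rw [incl_mul]
  ext
  · simp only [mul_z]; ring
  · simp [h]

theorem commutator_eq_of_mem {a b : Ext K} (ha : a.g ∈ K.P) (hb : b.g ∈ K.P) :
    a * b = incl K ((K.P.index : ZMod p) * (K.φ₁ ⟨a.g, ha⟩ * K.φ₂ ⟨b.g, hb⟩
      - K.φ₁ ⟨b.g, hb⟩ * K.φ₂ ⟨a.g, ha⟩)) * (b * a) := by
  rw [commutator_eq (K.comm _ ha _ hb), ← K.pairing ⟨a.g, ha⟩ ⟨b.g, hb⟩]

end Ext

end Cfsg.Agent.InertTwo
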