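import Cfsg.Agent.CharDeep.Section
import Cfsg.Agent.CharInd.GenChar
import Cfsg.Agent.Char.Kernel
import Cfsg.Agent.Lib.Element

/-!
# Two criteria for generalised characters

A class function of the `p`-part which is a generalised character on a Sylow subgroup, and the
twisted lift of a generalised character vanishing on `p`-singular elements.
-/

set_option autoImplicit false

noncomputable section

namespace Cfsg.Agent.InertTwo

open scoped ComplexConjugate Classical

universe u

variable {G : Type u} [Group G] [Finite G]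

local instance instGenChar1 : Fintype G := Fintype.ofFinite G

def genGroup (G : Type u) [Group G] [Finite G] : AddSubgroup (G → ℂ) where
  carrier := {f | Cfsg.IsGeneralizedCharacter G f}
  zero_mem' := Char.isGeneralizedCharacter_zero
  add_mem' := fun ha hb => Char.isGeneralizedCharacter_add ha hb
  neg_mem' := fun ha => Char.isGeneralizedCharacter_neg ha

/-- Brauer's characterisation, as membership of restrictions to elementary subgroups. -/
theorem genChar_of_elementary {θ : G → ℂ} (hθ : Cfsg.IsClassFunction G θ)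
    (h : ∀ (l : ℕ) (E : Subgroup G), l.Prime → Cfsg.IsElementary l E →
      Cfsg.IsGeneralizedCharacter E (fun e : E => θ e)) : Cfsg.IsGeneralizedCharacter G θ :=
  CharDeep.mem_of_forall_elementary hθ (genGroup G) fun l E φ hl hE hφ => by
    haveI : Fintype E := Fintype.ofFinite E
    exact CharInd.genChar_indFun E (Char.isGeneralizedCharacter_mul
      (Char.isGeneralizedCharacter_of_isCharacter hφ) (h l E hl hE))

variable {p : ℕ} [Fact p.Prime]

theorem orderOf_dvd_sylow {g : G} {k : ℕ} (hk : orderOf g = p ^ k) :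
    orderOf g ∣ p ^ (Nat.card G).factorization p := by
  rw [hk]
  exact Nat.pow_dvd_pow p ((Nat.Prime.pow_dvd_iff_le_factorization Fact.out Nat.card_pos.ne').1
    (hk ▸ orderOf_dvd_natCard g))

/-- On an elementary subgroup the `p`-part is a homomorphism. -/
theorem exists_pPart_hom {l : ℕ} (hl : l.Prime) (E : Subgroup G) (hE : Cfsg.IsElementary l E) :
    ∃ V : Subgroup G, IsPGroup p V ∧ ∃ π : E →* V, ∀ e : E, (π e : G) = Element.pPart p (e : G) := by
  have hp : p.Prime := Fact.out
  have hN : Nat.card G = (Nat.card G / p ^ (Nat.card G).factorization p)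
      * p ^ (Nat.card G).factorization p :=
    (Nat.div_mul_cancel (Nat.ordProj_dvd _ p)).symm
  have hcop : Nat.Coprime (Nat.card G / p ^ (Nat.card G).factorization p)
      (p ^ (Nat.card G).factorization p) :=
    (Nat.coprime_ordCompl hp Nat.card_pos.ne').symm.pow_right _
  obtain ⟨V, -, hV, π, hπ⟩ := CharDeep.exists_sectionHom hN hcop hl E hE
  obtain ⟨j, -, hj⟩ := (Nat.dvd_prime_pow hp).1 hV
  refine ⟨V, IsPGroup.of_card hj, π, fun e => ?_⟩
  rw [hπ]
  have hk := Element.orderOf_pPart_eq_pow hp (e : G)
  refine (CharDeep.eq_pow_sectionExp hN hcop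
    ((Element.commute_pPart_pComplPart p (e : G)).eq ▸ (Element.pPart_mul_pComplPart p (e : G)).symm)
    (Element.commute_pPart_pComplPart p (e : G)).symm
    ((Element.coprime_orderOf_pComplPart hp (e : G)).pow_right _) ?_).symm
  exact Nat.Coprime.coprime_dvd_left (orderOf_dvd_sylow hk) hcop.symm

/-- On an elementary subgroup the `p'`-part is a homomorphism. -/
theorem exists_pComplPart_hom {l : ℕ} (hl : l.Prime) (E : Subgroup G)
    (hE : Cfsg.IsElementary l E) :
    ∃ σ : E →* E, ∀ e : E, (σ e : G) = Element.pComplPart p (e : G) := by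
  have hp : p.Prime := Fact.out
  have hN : Nat.card G = p ^ (Nat.card G).factorization p
      * (Nat.card G / p ^ (Nat.card G).factorization p) :=
    (Nat.mul_div_cancel' (Nat.ordProj_dvd _ p)).symm
  have hcop : Nat.Coprime (p ^ (Nat.card G).factorization p)
      (Nat.card G / p ^ (Nat.card G).factorization p) :=
    (Nat.coprime_ordCompl hp Nat.card_pos.ne').pow_left _
  obtain ⟨V, -, -, π, hπ⟩ := CharDeep.exists_sectionHom hN hcop hl E hE
  have hval : ∀ e : E, (π e : G) = Element.pComplPart p (e : G) := by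
    intro e
    rw [hπ]
    have hk := Element.orderOf_pPart_eq_pow hp (e : G)
    refine (CharDeep.eq_pow_sectionExp hN hcop (Element.pPart_mul_pComplPart p (e : G)).symm
      (Element.commute_pPart_pComplPart p (e : G)) ?_
      ((Element.coprime_orderOf_pComplPart hp (e : G)).pow_right _)).symm
    exact Nat.Coprime.coprime_dvd_left (orderOf_dvd_sylow hk) hcop
  have hmem : ∀ e : E, (π e : G) ∈ E := fun e => by
    rw [hval]
    obtain ⟨j, hj⟩ := Element.pComplPart_mem_zpowers p (e : G)
    exact hj ▸ E.zpow_mem e.2 j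
  exact ⟨(V.subtype.comp π).codRestrict E hmem, fun e => hval e⟩

/-- A class function of the `p`-part is a generalised character if its restriction to a Sylow
`p`-subgroup is one. -/
theorem genChar_of_pPart (S : Sylow p G) {θ : G → ℂ} (hθ : Cfsg.IsClassFunction G θ)
    (hdep : ∀ g, θ g = θ (Element.pPart p g))
    (hS : Cfsg.IsGeneralizedCharacter (S : Subgroup G) (fun s => θ s)) :
    Cfsg.IsGeneralizedCharacter G θ := by
  refine genChar_of_elementary hθ fun l E hl hE => ?_
  obtain ⟨V, hV, π, hπ⟩ := exists_pPart_hom (p := p) hl E hE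
  obtain ⟨T, hT⟩ := hV.exists_le_sylow
  obtain ⟨r, hr⟩ := MulAction.exists_smul_eq G T S
  have hmem : ∀ v : V, r * (v : G) * r⁻¹ ∈ (S : Subgroup G) := fun v => by
    rw [← hr]
    exact ⟨v, hT v.2, rfl⟩
  let c : V →* (S : Subgroup G) := ((MulAut.conj r).toMonoidHom.comp V.subtype).codRestrict _ hmem
  have h2 := Char.isGeneralizedCharacter_comp hS (c.comp π)
  have e : (fun e : E => θ e) = (fun s : (S : Subgroup G) => θ s) ∘ (c.comp π) := by
    funext e
    show θ e = θ (r * (π e : G) * r⁻¹)
    rw [hθ, hπ, ← hdep]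
  rw [e]
  exact h2

theorem sum_hom_eq {Z : Type*} [Group Z] [Fintype Z] (f : Z →* ℂ) :
    ∑ z : Z, f z = 0 ∨ ∑ z : Z, f z = Fintype.card Z := by
  rcases em (f = 1) with h | h
  · exact Or.inr (by simp [h])
  · refine Or.inl ?_
    obtain ⟨a, ha⟩ : ∃ a, f a ≠ 1 := by
      by_contra hc
      push Not at hc
      exact h (MonoidHom.ext hc)
    have e : f a * ∑ z : Z, f z = ∑ z : Z, f z := by
      rw [Finset.mul_sum]
      exact Fintype.sum_equiv (Equiv.mulLeft a) _ _ (fun z => (map_mul f a z).symm)
    exact (mul_eq_zero.1 (show (f a - 1) * ∑ z : Z, f z = 0 by rw [sub_mul, e]; ring)).resolve_left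
      (sub_ne_zero.2 ha)

variable {H : Type u} [Group H] [Finite H]

/-- The twisted lift along a central `p`-extension of a generalised character vanishing on the
`p`-singular elements. -/
theorem genChar_lift (π : H →* G) (hker : IsPGroup p π.ker) (hcen : π.ker ≤ Subgroup.center H)
    (lam : π.ker →* ℂ) (D : G → ℂ) (hD : Cfsg.IsGeneralizedCharacter G D)
    (hsing : ∀ g, p ∣ orderOf g → D g = 0) (Dh : H → ℂ)
    (hin : ∀ (h : H) (hh : Element.pPart p h ∈ π.ker),
      Dh h = lam ⟨Element.pPart p h, hh⟩ * D (π h))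
    (hout : ∀ h : H, Element.pPart p h ∉ π.ker → Dh h = 0) :
    Cfsg.IsGeneralizedCharacter H Dh := by
  have hp : p.Prime := Fact.out
  have hDc := Char.isGeneralizedCharacter_isClassFunction hD
  have hzero : ∀ h : H, Element.pPart p h ∉ π.ker → D (π h) = 0 := by
    intro h hh
    apply hsing
    by_contra hreg
    apply hh
    rw [MonoidHom.mem_ker, (Element.map_pPart hp π h).1]
    exact (Element.pPart_eq_one hp (hp.coprime_iff_not_dvd.2 hreg).symm).1
  have hcl : Cfsg.IsClassFunction H Dh := by
    intro a b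
    have e : Element.pPart p (b * a * b⁻¹) = b * Element.pPart p a * b⁻¹ :=
      (Element.pPart_conj hp b a).1
    by_cases ha : Element.pPart p a ∈ π.ker
    · have hc : b * Element.pPart p a * b⁻¹ = Element.pPart p a := by
        rw [Subgroup.mem_center_iff.1 (hcen ha) b, mul_inv_cancel_right]
      have ha' : Element.pPart p (b * a * b⁻¹) ∈ π.ker := by rw [e, hc]; exact ha
      rw [hin _ ha', hin _ ha, map_mul, map_mul, map_inv, hDc]
      congr 2
      exact Subtype.ext (e.trans hc)
    · rw [hout _ ha, hout]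
      rw [e]
      intro h
      apply ha
      rw [MonoidHom.mem_ker] at h ⊢
      simp only [map_mul, map_inv] at h
      exact conj_eq_one_iff.1 h
  refine genChar_of_elementary hcl fun l E hl hE => ?_
  haveI : Fintype E := Fintype.ofFinite E
  obtain ⟨σ, hσ⟩ := exists_pComplPart_hom (p := p) hl E hE
  refine Char.isGeneralizedCharacter_iff_classInner_int.2
    ⟨fun a b => hcl (a : H) (b : H), fun μ => ?_⟩
  obtain ⟨n, hn⟩ := Char.classInner_generalized_int
    (Char.isGeneralizedCharacter_restrict (Char.isGeneralizedCharacter_comp hD π) E)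
    (Char.isGeneralizedCharacter_comp (Char.isGeneralizedCharacter_of_irr μ.2) σ)
  -- the kernel inside `E`
  let Z : Subgroup E := π.ker.subgroupOf E
  let incZ : Z →* π.ker := (E.subtype.comp Z.subtype).codRestrict _ (fun z => z.2)
  have hZc : ∀ z : Z, (z : E) ∈ Subgroup.center E := fun z => Subgroup.mem_center_iff.2 fun e =>
    Subtype.ext (Subgroup.mem_center_iff.1 (hcen z.2) (e : H))
  have hμ1 : (μ : E → ℂ) 1 ≠ 0 := by
    obtain ⟨d, hd, hd1⟩ := Char.irr_one_pos μ.2
    rw [hd1]; exact Nat.cast_ne_zero.2 (by omega)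
  have hscal : ∀ (z : Z) (x : E),
      (μ : E → ℂ) ((z : E) * x) = (μ : E → ℂ) z / (μ : E → ℂ) 1 * (μ : E → ℂ) x := fun z x => by
    obtain ⟨w, -, hw1, hwx⟩ := Char.irr_mul_center μ.2 (hZc z)
    rw [hwx, hw1, mul_div_assoc, div_self hμ1, mul_one]
  let f : Z →* ℂ :=
    { toFun := fun z => lam (incZ z) * conj ((μ : E → ℂ) z / (μ : E → ℂ) 1)
      map_one' := by simp [div_self hμ1]
      map_mul' := fun a b => by
        rw [map_mul, map_mul, Subgroup.coe_mul, hscal a b, mul_div_assoc, map_mul]
        ring }
  -- the parts of an element of the support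
  let zp : (e : E) → Element.pPart p (e : H) ∈ π.ker → Z := fun e he =>
    ⟨⟨Element.pPart p (e : H), by
      obtain ⟨j, hj⟩ := Element.pPart_mem_zpowers p (e : H)
      exact hj ▸ E.zpow_mem e.2 j⟩, he⟩
  have key : ∀ (e : E) (he : Element.pPart p (e : H) ∈ π.ker),
      Dh e * conj ((μ : E → ℂ) e)
        = f (zp e he) * (D (π (e : H)) * conj ((μ : E → ℂ) (σ e))) := by
    intro e he
    have h1 : e = (zp e he : E) * σ e := Subtype.ext (by
      rw [Subgroup.coe_mul, hσ]
      exact (Element.pPart_mul_pComplPart p (e : H)).symm)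
    rw [hin _ he]
    have h2 : (μ : E → ℂ) e = (μ : E → ℂ) (zp e he : E) / (μ : E → ℂ) 1 * (μ : E → ℂ) (σ e) :=
      (congrArg (μ : E → ℂ) h1).trans (hscal _ _)
    rw [h2, map_mul]
    show lam ⟨_, he⟩ * _ * _ = lam (incZ (zp e he)) * _ * _
    rw [show incZ (zp e he) = ⟨Element.pPart p (e : H), he⟩ from rfl]
    ring
  -- `Z` permutes the support
  have hshift : ∀ (z : Z) (e : E), Element.pPart p (((z : E) * e : E) : H)
      = (z : H) * Element.pPart p (e : H)
      ∧ σ ((z : E) * e) = σ e := by
    intro z e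
    obtain ⟨k, hk⟩ := Element.orderOf_eq_pow_of_mem_isPGroup hker z.2
    have hzs : σ (z : E) = 1 := Subtype.ext (by
      rw [hσ]
      exact (Element.pPart_eq_self Fact.out hk).2)
    refine ⟨?_, by rw [map_mul, hzs, one_mul]⟩
    have h1 := Element.pPart_mul_pComplPart p (((z : E) * e : E) : H)
    rw [← hσ, map_mul, hzs, one_mul, hσ, Subgroup.coe_mul] at h1
    calc Element.pPart p ((z : H) * (e : H))
        = (z : H) * (e : H) * (Element.pComplPart p (e : H))⁻¹ := eq_mul_inv_of_mul_eq h1
      _ = (z : H) * Element.pPart p (e : H) := by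
          rw [mul_assoc]
          congr 1
          exact (eq_mul_inv_of_mul_eq (Element.pPart_mul_pComplPart p (e : H))).symm
  let F : E → ℂ := fun e => D (π (e : H)) * conj ((μ : E → ℂ) (σ e))
  have hFsh : ∀ (z : Z) (e : E), F ((z : E) * e) = F e := fun z e => by
    simp only [F, (hshift z e).2, Subgroup.coe_mul, map_mul]
    rw [show π (z : H) = 1 from z.2, one_mul]
  have hsum : ∑ e : E, Dh e * conj ((μ : E → ℂ) e)
      = (∑ z : Z, f z) / (Fintype.card Z : ℂ) * ∑ e : E, F e := by
    have hT : ∀ e : E, Dh e * conj ((μ : E → ℂ) e) =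
        if he : Element.pPart p (e : H) ∈ π.ker then f (zp e he) * F e else 0 := by
      intro e
      split_ifs with he
      · exact key e he
      · rw [hout _ he, zero_mul]
    simp only [hT]
    set T : E → ℂ := fun e =>
      if he : Element.pPart p (e : H) ∈ π.ker then f (zp e he) * F e else 0 with hTdef
    have hTsh : ∀ (z : Z) (e : E), T ((z : E) * e) = f z * T e := by
      intro z e
      simp only [T]
      have hz : Element.pPart p (((z : E) * e : E) : H) ∈ π.ker ↔
          Element.pPart p (e : H) ∈ π.ker := by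
        rw [(hshift z e).1]; exact Subgroup.mul_mem_cancel_left _ z.2
      by_cases he : Element.pPart p (e : H) ∈ π.ker
      · rw [dif_pos (hz.2 he), dif_pos he, hFsh, ← mul_assoc (f z)]
        congr 1
        rw [← map_mul f z]
        exact congrArg f (Subtype.ext (Subtype.ext (hshift z e).1))
      · rw [dif_neg (mt hz.1 he), dif_neg he, mul_zero]
    rcases sum_hom_eq f with h0 | h0
    · rw [h0, zero_div, zero_mul]
      obtain ⟨a, ha⟩ : ∃ a, f a ≠ 1 := by
        by_contra hc
        push Not at hc
        rw [Finset.sum_congr rfl fun z _ => hc z] at h0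
        simp [Fintype.card_ne_zero] at h0
      have e1 : f a * ∑ e : E, T e = ∑ e : E, T e := by
        rw [Finset.mul_sum]
        exact Fintype.sum_equiv (Equiv.mulLeft (a : E)) _ _ (fun e => (hTsh a e).symm)
      exact (mul_eq_zero.1 (show (f a - 1) * ∑ e : E, T e = 0 by
        rw [sub_mul, e1]; ring)).resolve_left (sub_ne_zero.2 ha)
    · have hall : ∀ z, f z = 1 := by
        intro z
        have := sum_hom_eq f
        by_contra hz
        have e1 : f z * ∑ x : Z, f x = ∑ x : Z, f x := by
          rw [Finset.mul_sum]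
          exact Fintype.sum_equiv (Equiv.mulLeft z) _ _ (fun x => (map_mul f z x).symm)
        rw [h0] at e1
        exact hz (mul_right_cancel₀ (Nat.cast_ne_zero.2 Fintype.card_ne_zero)
          (e1.trans (one_mul _).symm))
      rw [h0, div_self (Nat.cast_ne_zero.2 Fintype.card_ne_zero), one_mul]
      refine Finset.sum_congr rfl fun e _ => ?_
      simp only [T]
      split_ifs with he
      · rw [hall, one_mul]
      · simp only [F, hzero _ he, zero_mul]
  rw [Cfsg.classInner, hsum]
  have hn' : (Nat.card E : ℂ)⁻¹ * ∑ e : E, F e = n := hn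
  rcases sum_hom_eq f with h0 | h0
  · exact ⟨0, by rw [h0]; simp⟩
  · refine ⟨n, ?_⟩
    rw [h0, div_self (Nat.cast_ne_zero.2 Fintype.card_ne_zero), one_mul, hn']

end Cfsg.Agent.InertTwo
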