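import Cfsg.Agent.InertTwo.Sections
import Cfsg.Agent.Brauer.Sections
import Cfsg.Agent.Brauer.RegOrth
import Cfsg.Agent.BlkChar.PModular
import Cfsg.Agent.BlocksChar.ClassProd
import Cfsg.Agent.CharInd.Linear
import Cfsg.Agent.Block.Idempotent

/-!
# The non-exceptional character of the principal block

A signed irreducible character `Ψ ≠ ±1` equal to `1` on every `p`-singular element.
-/

set_option autoImplicit false
set_option linter.unusedSectionVars false

noncomputable section

namespace Cfsg.Agent.InertTwo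

open scoped ComplexConjugate Classical
open Cfsg (classInner IrrCharacter)

universe u

variable {ι : Type*} [Fintype ι]

/-- Integral vectors of norm two with mutual inner product one share a signed unit vector, as soon
as there are four of them. -/
theorem exists_common {S : Finset (ι → ℤ)} (hS : 4 ≤ S.card)
    (h2 : ∀ v ∈ S, ∑ i, v i * v i = 2)
    (h1 : ∀ v ∈ S, ∀ w ∈ S, v ≠ w → ∑ i, v i * w i = 1) :
    ∃ i, ∃ s : ℤ, (s = 1 ∨ s = -1) ∧ ∀ v ∈ S, v i = s := by
  have small : ∀ v ∈ S, ∀ i, v i = 0 ∨ v i = 1 ∨ v i = -1 := by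
    intro v hv i
    have := h2 v hv
    have hle : v i * v i ≤ 2 := this ▸ Finset.single_le_sum
      (fun j _ => mul_self_nonneg (v j)) (Finset.mem_univ i)
    have : -1 ≤ v i ∧ v i ≤ 1 := ⟨by nlinarith, by nlinarith⟩
    omega
  have split : ∀ v ∈ S, ∃ a b, a ≠ b ∧ v a ≠ 0 ∧ v b ≠ 0 ∧ ∀ i, i ≠ a → i ≠ b → v i = 0 := by
    intro v hv
    have hsq : ∀ i, v i * v i = if v i ≠ 0 then 1 else 0 := fun i => by
      rcases small v hv i with h | h | h <;> simp [h]
    have hc : ((Finset.univ.filter fun i => v i ≠ 0).card : ℤ) = 2 := by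
      rw [← h2 v hv, Finset.sum_congr rfl fun i _ => hsq i, Finset.sum_boole]
    obtain ⟨a, b, hab, hs⟩ := Finset.card_eq_two.1
      (by exact_mod_cast hc : (Finset.univ.filter fun i => v i ≠ 0).card = 2)
    have hm : ∀ i, v i ≠ 0 ↔ i = a ∨ i = b := fun i => by
      simpa using (Finset.ext_iff.1 hs i)
    exact ⟨a, b, hab, (hm a).2 (Or.inl rfl), (hm b).2 (Or.inr rfl),
      fun i ha hb => by by_contra h; rcases (hm i).1 h with e | e <;> contradiction⟩
  have two : ∀ v ∈ S, ∀ a b i : ι, a ≠ b → v a ≠ 0 → v b ≠ 0 → i ≠ a → i ≠ b → v i = 0 := by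
    intro v hv a b i hab ha hb hia hib
    obtain ⟨c, d, -, -, -, h0⟩ := split v hv
    have key : ∀ j, v j ≠ 0 → j = c ∨ j = d := fun j hj => by
      by_contra h
      push Not at h
      exact hj (h0 j h.1 h.2)
    by_contra hi
    rcases key a ha with r | r <;> rcases key b hb with r' | r' <;> rcases key i hi with r'' | r'' <;>
      first
        | exact hab (r.trans r'.symm)
        | exact hia (r''.trans r.symm)
        | exact hib (r''.trans r'.symm)
  obtain ⟨u, hu⟩ := Finset.card_pos.1 (show 0 < S.card by omega)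
  obtain ⟨a, b, hab, hua, hub, hu0⟩ := split u hu
  have signs : ∀ i, u i ≠ 0 → (u i = 1 ∨ u i = -1) := fun i h => (small u hu i).resolve_left h
  -- the other vectors contain exactly one of the two signed units of `u`
  have one : ∀ v ∈ S, v ≠ u → (v a = u a ∧ v b = 0) ∨ (v a = 0 ∧ v b = u b) := by
    intro v hv hne
    have e := h1 v hv u hu hne
    rw [Fintype.sum_eq_add a b hab fun i hi => by rw [hu0 i hi.1 hi.2, mul_zero]] at e
    rcases small v hv a with r | r | r <;> rcases small v hv b with q | q | q <;>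
      rcases signs a hua with x | x <;> rcases signs b hub with y | y <;>
        simp [r, q, x, y] at e ⊢
  by_cases hA : ∀ v ∈ S, v a = u a
  · exact ⟨a, u a, signs a hua, hA⟩
  by_cases hB : ∀ v ∈ S, v b = u b
  · exact ⟨b, u b, signs b hub, hB⟩
  exfalso
  push Not at hA hB
  obtain ⟨w, hw, hwa⟩ := hA
  obtain ⟨v, hv, hvb⟩ := hB
  have hvu : v ≠ u := fun h => hvb (by rw [h])
  have hwu : w ≠ u := fun h => hwa (by rw [h])
  obtain ⟨hva, hvb0⟩ := (one v hv hvu).resolve_right fun h => hvb h.2
  obtain ⟨hwa0, hwb⟩ := (one w hw hwu).resolve_left fun h => hwa h.1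
  obtain ⟨c, hca, hcb, hvc⟩ : ∃ c, c ≠ a ∧ c ≠ b ∧ v c ≠ 0 := by
    obtain ⟨c, d, hcd, hc, hd, -⟩ := split v hv
    by_cases h : c = a
    · exact ⟨d, fun e => hcd (h.trans e.symm), fun e => hd (e ▸ hvb0), hd⟩
    · exact ⟨c, h, fun e => hc (e ▸ hvb0), hc⟩
  have hva' : v a ≠ 0 := by rw [hva]; exact hua
  -- a vector containing `u b` is determined by `v`, and one containing `u a` by `w`
  have detB : ∀ z ∈ S, z ≠ u → z a = 0 →
      z b = u b ∧ z c = v c ∧ ∀ i, i ≠ b → i ≠ c → z i = 0 := by
    intro z hz hzu hza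
    have hzb : z b = u b :=
      ((one z hz hzu).resolve_left fun h => hua (h.1.symm.trans hza)).2
    have e := h1 z hz v hv fun h => hvb (by rw [← h, hzb])
    rw [Fintype.sum_eq_single c] at e
    · refine ⟨hzb, ?_, fun i hib hic => two z hz b c i hcb.symm (hzb ▸ hub)
        (fun h => by simp [h] at e) hib hic⟩
      rcases small z hz c with r | r | r <;> rcases small v hv c with q | q | q <;>
        simp [r, q] at e ⊢
    · intro i hic
      by_cases hia : i = a
      · rw [hia, hza, zero_mul]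
      · rw [two v hv a c i hca.symm hva' hvc hia hic, mul_zero]
  obtain ⟨-, hwc, -⟩ := detB w hw hwu hwa0
  have all : ∀ z ∈ S, z = u ∨ z = v ∨ z = w := by
    intro z hz
    by_cases hzu : z = u
    · exact Or.inl hzu
    rcases one z hz hzu with ⟨hza, hzb⟩ | ⟨hza, -⟩
    · refine Or.inr (Or.inl ?_)
      have hne : z ≠ w := fun h => hub (by rw [← hwb, ← h, hzb])
      have e := h1 z hz w hw hne
      obtain ⟨-, -, hw0⟩ := detB w hw hwu hwa0
      rw [Fintype.sum_eq_single c] at e
      · have hzc : z c = v c := by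
          rw [hwc] at e
          rcases small z hz c with r | r | r <;> rcases small v hv c with q | q | q <;>
            simp [r, q] at e ⊢
        funext i
        by_cases hia : i = a
        · rw [hia, hza, hva]
        by_cases hic : i = c
        · rw [hic, hzc]
        rw [two z hz a c i hca.symm (hza ▸ hua) (hzc ▸ hvc) hia hic,
          two v hv a c i hca.symm hva' hvc hia hic]
      · intro i hic
        by_cases hib : i = b
        · rw [hib, hzb, zero_mul]
        · rw [hw0 i hib hic, mul_zero]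
    · refine Or.inr (Or.inr ?_)
      obtain ⟨z1, z2, z3⟩ := detB z hz hzu hza
      obtain ⟨w1, w2, w3⟩ := detB w hw hwu hwa0
      funext i
      by_cases hib : i = b
      · rw [hib, z1, w1]
      by_cases hic : i = c
      · rw [hic, z2, w2]
      rw [z3 i hib hic, w3 i hib hic]
  have hsub : S ⊆ {u, v, w} := fun z hz => by simpa using all z hz
  have := (Finset.card_le_card hsub).trans Finset.card_le_three
  omega

variable {p : ℕ} {G : Type u} [Group G] [Finite G] [Fact p.Prime]

local instance instPsi1 : Fintype G := Fintype.ofFinite G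

namespace Core

variable (K : Core p G)

local instance instPsi2 : Fintype K.P := Fintype.ofFinite _

theorem nine_le : 9 ≤ Nat.card K.P := by
  have hp : p.Prime := Fact.out
  have h : Nat.card (ZMod p × ZMod p) ≤ Nat.card K.P :=
    Nat.card_le_card_of_surjective (fun a => (K.φ₁ a, K.φ₂ a)) fun cd => by
      obtain ⟨a, h1, h2⟩ := K.surj cd.1 cd.2
      exact ⟨a, Prod.ext h1 h2⟩
  rw [Nat.card_prod, Nat.card_zmod] at h
  have := hp.two_le
  have := K.odd
  have : 3 ≤ p := by omega
  nlinarith

theorem odd_card : Odd (Nat.card K.P) := by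
  obtain ⟨k, hk⟩ := IsPGroup.iff_card.1 K.isPGroup
  rw [hk]
  exact ((Fact.out : p.Prime).odd_of_ne_two K.odd).pow

theorem lin_mul (ξ : IrrCharacter K.P) (a b : K.P) :
    (ξ : K.P → ℂ) (a * b) = (ξ : K.P → ℂ) a * (ξ : K.P → ℂ) b :=
  BlocksChar.linear_mul (Char.isCharacter_of_irr ξ.2)
    (CharInd.irr_one_of_comm (fun a b => Subtype.ext (K.comm a a.2 b b.2)) ξ.2) a b

theorem conj_ne (ξ : IrrCharacter K.P) (hξ : ξ ≠ Char.trivialIrr K.P) :
    (fun x => conj ((ξ : K.P → ℂ) x)) ≠ (ξ : K.P → ℂ) := by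
  intro h
  apply hξ
  apply Subtype.ext
  funext x
  show _ = (1 : ℂ)
  have h1 := CharInd.irr_one_of_comm (fun a b => Subtype.ext (K.comm a a.2 b b.2)) ξ.2
  have hr : ∀ y, (ξ : K.P → ℂ) (y * y) = 1 := by
    intro y
    rw [K.lin_mul]
    nth_rw 2 [← congrFun h y]
    rw [← Char.irr_inv ξ.2, ← K.lin_mul, mul_inv_cancel, h1]
  obtain ⟨k, hk⟩ := K.odd_card
  have e : x ^ (k + 1) * x ^ (k + 1) = x := by
    rw [← pow_add, show k + 1 + (k + 1) = Nat.card K.P + 1 by omega, pow_succ, pow_card_eq_one',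
      one_mul]
  rw [← e, hr]

/-- `2 - ξ - ξ̄`. -/
def test (ξ : IrrCharacter K.P) : K.P → ℂ :=
  (2 : ℂ) • (fun _ => (1 : ℂ)) - (ξ : K.P → ℂ) - fun x => conj ((ξ : K.P → ℂ) x)

theorem test_apply (ξ : IrrCharacter K.P) (x : K.P) :
    K.test ξ x = 2 - (ξ : K.P → ℂ) x - conj ((ξ : K.P → ℂ) x) := by simp [test]

theorem test_even (ξ : IrrCharacter K.P) (x : K.P) : K.test ξ x⁻¹ = K.test ξ x := by
  rw [test_apply, test_apply, Char.irr_inv ξ.2, Complex.conj_conj]
  ring

theorem test_one (ξ : IrrCharacter K.P) : K.test ξ 1 = 0 := by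
  rw [test_apply, CharInd.irr_one_of_comm (fun a b => Subtype.ext (K.comm a a.2 b b.2)) ξ.2]
  simp; norm_num

theorem test_conj (ξ : IrrCharacter K.P) (x : K.P) : conj (K.test ξ x) = K.test ξ x := by
  simp [test_apply, map_ofNat]; ring

theorem test_gen (ξ : IrrCharacter K.P) : Cfsg.IsGeneralizedCharacter K.P (K.test ξ) := by
  have h : (2 : ℂ) • (fun _ : K.P => (1 : ℂ))
      = (fun _ : K.P => (1 : ℂ)) + fun _ => (1 : ℂ) := by funext x; simp; norm_num
  rw [test, h]
  exact Char.isGeneralizedCharacter_sub (Char.isGeneralizedCharacter_sub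
    (Char.isGeneralizedCharacter_add
      (Char.isGeneralizedCharacter_of_irr Char.isIrrCharacter_const_one)
      (Char.isGeneralizedCharacter_of_irr Char.isIrrCharacter_const_one))
    (Char.isGeneralizedCharacter_of_irr ξ.2))
    (Char.isGeneralizedCharacter_of_irr (Char.isIrrCharacter_conjFun ξ.2))

theorem test_inner (ξ μ : IrrCharacter K.P) (hξ : ξ ≠ Char.trivialIrr K.P)
    (hμ : μ ≠ Char.trivialIrr K.P) :
    classInner (K.test ξ) (fun _ => 1) = 2 ∧
    classInner (K.test ξ) (K.test μ) =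
      4 + (if (ξ : K.P → ℂ) = μ ∨ (ξ : K.P → ℂ) = (fun x => conj ((μ : K.P → ℂ) x))
        then 2 else 0) := by
  have o : Cfsg.IsIrrCharacter K.P (fun _ => 1) := Char.isIrrCharacter_const_one
  have cξ := Char.isIrrCharacter_conjFun ξ.2
  have cμ := Char.isIrrCharacter_conjFun μ.2
  have n1 : ∀ ν : IrrCharacter K.P, ν ≠ Char.trivialIrr K.P →
      (ν : K.P → ℂ) ≠ (fun _ => 1) ∧ (fun x => conj ((ν : K.P → ℂ) x)) ≠ fun _ => 1 := by
    intro ν hν
    refine ⟨fun h => hν (Subtype.ext h), fun h => hν (Subtype.ext (funext fun x => ?_))⟩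
    have := congrArg conj (congrFun h x)
    show _ = (1 : ℂ)
    simpa [Complex.conj_conj] using this
  obtain ⟨a1, a2⟩ := n1 ξ hξ
  obtain ⟨b1, b2⟩ := n1 μ hμ
  constructor
  · simp only [test, Char.classInner_sub_left, Char.classInner_smul_left,
      Char.classInner_irr_self o, Char.classInner_irr_ne ξ.2 o a1,
      Char.classInner_irr_ne cξ o a2]
    ring
  · simp only [test, Char.classInner_sub_left, Char.classInner_smul_left,
      Char.classInner_sub_right, Char.classInner_smul_right, Char.classInner_irr_self o,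
      Char.classInner_irr_ne o μ.2 b1.symm, Char.classInner_irr_ne o cμ b2.symm,
      Char.classInner_irr_ne ξ.2 o a1, Char.classInner_irr_ne cξ o a2,
      Char.classInner_irr ξ.2 μ.2, Char.classInner_irr ξ.2 cμ, Char.classInner_irr cξ μ.2,
      Char.classInner_irr cξ cμ]
    have e1 : ((fun x => conj ((ξ : K.P → ℂ) x)) = (μ : K.P → ℂ))
        ↔ (ξ : K.P → ℂ) = fun x => conj ((μ : K.P → ℂ) x) := by
      constructor <;> intro h <;> funext x <;>
        simpa [Complex.conj_conj] using congrArg conj (congrFun h x)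
    have e2 : ((fun x => conj ((ξ : K.P → ℂ) x)) = fun x => conj ((μ : K.P → ℂ) x))
        ↔ (ξ : K.P → ℂ) = μ := by
      refine ⟨fun h => funext fun x => ?_, fun h => by rw [h]⟩
      simpa using congrArg conj (congrFun h x)
    have excl : ¬ ((ξ : K.P → ℂ) = μ ∧ (ξ : K.P → ℂ) = fun x => conj ((μ : K.P → ℂ) x)) :=
      fun h => K.conj_ne μ hμ (h.2.symm.trans h.1)
    simp only [e1, e2]
    by_cases hA : (ξ : K.P → ℂ) = μ
    · have hB : ¬ (ξ : K.P → ℂ) = fun x => conj ((μ : K.P → ℂ) x) := fun h => excl ⟨hA, h⟩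
      simp only [if_pos hA, if_neg hB, if_pos (Or.inl hA : _ ∨ _), map_ofNat]; ring
    · by_cases hB : (ξ : K.P → ℂ) = fun x => conj ((μ : K.P → ℂ) x)
      · simp only [if_neg hA, if_pos hB, if_pos (Or.inr hB : _ ∨ _), map_ofNat]; ring
      · simp only [if_neg hA, if_neg hB, if_neg (not_or.2 ⟨hA, hB⟩), map_ofNat]; ring

/-- The even function on `G` attached to `ξ`, less the principal character. -/
def E (ξ : IrrCharacter K.P) : G → ℂ := K.lift (K.test ξ) - fun _ => (1 : ℂ)

theorem sum_lift_const (ξ : IrrCharacter K.P) (c : K.P → ℂ) {F : G → ℂ}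
    (hF : Cfsg.IsClassFunction G F)
    (h : ∀ x : K.P, x ≠ 1 → ∀ g : G, Element.pPart p g = (x : G) → F g = c x) :
    ∑ g : G, K.lift (K.test ξ) g * F g
      = (Nat.card G : ℂ) / (2 * Nat.card K.P) * ∑ x : K.P, K.test ξ x * c x := by
  rw [K.sum_lift_mul (K.test_even ξ) (K.test_one ξ) hF, Finset.mul_sum, Finset.mul_sum]
  refine Finset.sum_congr rfl fun x _ => ?_
  by_cases hx : x = 1
  · subst hx; simp [K.test_one]
  rw [K.fib_eq_of_const x.2 (fun e => hx (Subtype.ext e)) (h x hx)]
  have : (Nat.card (Subgroup.centralizer ({(x : G)} : Set G)) : ℂ) ≠ 0 :=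
    Nat.cast_ne_zero.2 Nat.card_pos.ne'
  field_simp

theorem inner_lift_one (ξ : IrrCharacter K.P) :
    classInner (K.lift (K.test ξ)) (fun _ => 1)
      = 1 / 2 * classInner (K.test ξ) (fun _ => 1) := by
  have h := K.sum_lift_const ξ (fun _ => 1) (F := fun _ => 1) (fun _ _ => rfl)
    (fun _ _ _ _ => rfl)
  simp only [mul_one] at h
  simp only [classInner, map_one, mul_one, h]
  have : (Nat.card G : ℂ) ≠ 0 := Nat.cast_ne_zero.2 Nat.card_pos.ne'
  field_simp

theorem inner_lift (ξ μ : IrrCharacter K.P) :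
    classInner (K.lift (K.test ξ)) (K.lift (K.test μ))
      = 1 / 2 * classInner (K.test ξ) (K.test μ) := by
  have hF : Cfsg.IsClassFunction G (fun g => conj (K.lift (K.test μ) g)) := fun g h => by
    show conj _ = _
    rw [K.lift_isClassFunction (K.test_even μ) g h]
  have h := K.sum_lift_const ξ (fun x => conj (K.test μ x)) hF fun x _ g hg => by
    rw [K.lift_eq (K.test_even μ) (r := 1) (x := x) (by rw [hg]; simp)]
  simp only [classInner, h]
  have : (Nat.card G : ℂ) ≠ 0 := Nat.cast_ne_zero.2 Nat.card_pos.ne'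
  field_simp

theorem E_facts (ξ μ : IrrCharacter K.P) (hξ : ξ ≠ Char.trivialIrr K.P)
    (hμ : μ ≠ Char.trivialIrr K.P) :
    classInner (K.E ξ) (fun _ => 1) = 0 ∧
    classInner (K.E ξ) (K.E μ) =
      1 + (if (ξ : K.P → ℂ) = μ ∨ (ξ : K.P → ℂ) = (fun x => conj ((μ : K.P → ℂ) x))
        then 1 else 0) := by
  have o : Cfsg.IsIrrCharacter G (fun _ => 1) := Char.isIrrCharacter_const_one
  have l1 : ∀ ν : IrrCharacter K.P, ν ≠ Char.trivialIrr K.P →
      classInner (K.lift (K.test ν)) (fun _ => 1) = 1 := fun ν hν => by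
    rw [K.inner_lift_one ν, (K.test_inner ν ν hν hν).1]; norm_num
  have l1' : classInner (fun _ : G => (1 : ℂ)) (K.lift (K.test μ)) = 1 := by
    rw [← Char.classInner_conj, l1 μ hμ, map_one]
  constructor
  · rw [E, Char.classInner_sub_left, l1 ξ hξ, Char.classInner_irr_self o, sub_self]
  · simp only [E, Char.classInner_sub_left, Char.classInner_sub_right, l1 ξ hξ, l1',
      Char.classInner_irr_self o, K.inner_lift ξ μ, (K.test_inner ξ μ hξ hμ).2]
    split_ifs <;> ring

theorem E_gen (ξ : IrrCharacter K.P) : Cfsg.IsGeneralizedCharacter G (K.E ξ) :=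
  Char.isGeneralizedCharacter_sub (K.lift_genChar (K.test_even ξ) (K.test_gen ξ))
    (Char.isGeneralizedCharacter_of_irr Char.isIrrCharacter_const_one)

/-- A signed irreducible character occurring in all the `E ξ`. -/
theorem exists_common_char :
    ∃ (χ : IrrCharacter G) (s : ℂ), (s = 1 ∨ s = -1) ∧ χ ≠ Char.trivialIrr G ∧
      ∀ ξ : IrrCharacter K.P, ξ ≠ Char.trivialIrr K.P →
        classInner (K.E ξ) (s • (χ : G → ℂ)) = 1 := by
  choose v hv using fun ξ : IrrCharacter K.P =>
    fun χ => Char.isGeneralizedCharacter_classInner_int (K.E_gen ξ) χ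
  let N := Finset.univ.filter fun ξ : IrrCharacter K.P => ξ ≠ Char.trivialIrr K.P
  have hdot : ∀ ξ μ : IrrCharacter K.P,
      classInner (K.E ξ) (K.E μ) = ((∑ χ, v ξ χ * v μ χ : ℤ) : ℂ) := by
    intro ξ μ
    rw [Char.classInner_eq_sum_mul_conj
      (Char.isGeneralizedCharacter_isClassFunction (K.E_gen ξ))]
    simp [hv]
  have hval : ∀ ξ ∈ N, ∀ μ ∈ N, ∑ χ, v ξ χ * v μ χ =
      1 + (if (ξ : K.P → ℂ) = μ ∨ (ξ : K.P → ℂ) = (fun x => conj ((μ : K.P → ℂ) x))
        then 1 else 0) := by
    intro ξ hξ μ hμ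
    have h := (K.E_facts ξ μ (Finset.mem_filter.1 hξ).2 (Finset.mem_filter.1 hμ).2).2
    rw [hdot] at h
    split_ifs at h ⊢ <;> exact_mod_cast h
  have hsame : ∀ ξ ∈ N, ∀ μ ∈ N, v ξ = v μ → (ξ : K.P → ℂ) = μ ∨
      (ξ : K.P → ℂ) = fun x => conj ((μ : K.P → ℂ) x) := by
    intro ξ hξ μ hμ e
    by_contra hne
    have h1 := hval ξ hξ μ hμ
    rw [if_neg hne, e, hval μ hμ μ hμ, if_pos (Or.inl rfl)] at h1
    norm_num at h1
  have hN : N.card = Nat.card K.P - 1 := by
    have h1 : Nat.card (IrrCharacter K.P) = Nat.card K.P := by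
      haveI : IsMulCommutative K.P := ⟨⟨fun a b => Subtype.ext (K.comm a a.2 b b.2)⟩⟩
      rw [Char.card_irr_eq_card_conjClasses]
      exact Nat.card_congr (Equiv.ofBijective ConjClasses.mk ⟨fun a b h => by
        obtain ⟨c, hc⟩ := isConj_iff.1 (ConjClasses.mk_eq_mk_iff_isConj.1 h)
        rw [← hc]; apply Subtype.ext; simp only [Subgroup.coe_mul, Subgroup.coe_inv]
        rw [K.comm c c.2 a a.2, mul_inv_cancel_right], ConjClasses.mk_surjective⟩).symm
    rw [show N = Finset.univ.erase (Char.trivialIrr K.P) by ext; simp [N],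
      Finset.card_erase_of_mem (Finset.mem_univ _), Finset.card_univ,
      ← Nat.card_eq_fintype_card, h1]
  have hS : 4 ≤ (N.image v).card := by
    have hb : N.card ≤ 2 * (N.image v).card := by
      refine Finset.card_le_mul_card_image _ 2 fun b hb => ?_
      obtain ⟨μ, hμ, rfl⟩ := Finset.mem_image.1 hb
      refine le_trans (Finset.card_le_card (t := {μ, ⟨_, Char.isIrrCharacter_conjFun μ.2⟩})
        fun ξ hξ => ?_) Finset.card_le_two
      obtain ⟨h1, h2⟩ := Finset.mem_filter.1 hξ
      rcases hsame ξ h1 μ hμ h2 with e | e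
      · simp [Subtype.ext e]
      · simp [Subtype.ext_iff, e]
    have := K.nine_le
    omega
  obtain ⟨χ, s, hs, hall⟩ := exists_common hS
    (fun w hw => by
      obtain ⟨ξ, hξ, rfl⟩ := Finset.mem_image.1 hw
      rw [hval ξ hξ ξ hξ, if_pos (Or.inl rfl)]; norm_num)
    (fun w hw w' hw' hne => by
      obtain ⟨ξ, hξ, rfl⟩ := Finset.mem_image.1 hw
      obtain ⟨μ, hμ, rfl⟩ := Finset.mem_image.1 hw'
      rw [hval ξ hξ μ hμ, if_neg, add_zero]
      intro h
      apply hne
      have h2 := hval ξ hξ μ hμ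
      rw [if_pos h] at h2
      have e : ∑ χ, (v ξ χ - v μ χ) * (v ξ χ - v μ χ) = 0 := by
        have a1 := hval ξ hξ ξ hξ
        have a2 := hval μ hμ μ hμ
        rw [if_pos (Or.inl rfl)] at a1 a2
        have : ∀ χ, (v ξ χ - v μ χ) * (v ξ χ - v μ χ)
            = v ξ χ * v ξ χ + v μ χ * v μ χ - 2 * (v ξ χ * v μ χ) := fun χ => by ring
        simp only [this, Finset.sum_sub_distrib, Finset.sum_add_distrib, ← Finset.mul_sum, a1, a2,
          h2]
        norm_num
      funext χ
      exact sub_eq_zero.1 (mul_self_eq_zero.1 ((Finset.sum_eq_zero_iff_of_nonneg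
        fun χ _ => mul_self_nonneg (v ξ χ - v μ χ)).1 e χ (Finset.mem_univ χ))))
  refine ⟨χ, (s : ℂ), by rcases hs with rfl | rfl <;> simp, ?_, fun ξ hξ => ?_⟩
  · intro hχ
    obtain ⟨ξ, hξ⟩ := Finset.card_pos.1 (show 0 < N.card by have := K.nine_le; omega)
    have h0 := (K.E_facts ξ ξ (Finset.mem_filter.1 hξ).2 (Finset.mem_filter.1 hξ).2).1
    have e : classInner (K.E ξ) (fun _ => 1) = (v ξ χ : ℂ) := by rw [← hv, hχ]; rfl
    rw [e, hall _ (Finset.mem_image_of_mem _ hξ)] at h0
    rcases hs with rfl | rfl <;> simp at h0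
  · have hm : ξ ∈ N := by simp [N, hξ]
    rw [Char.classInner_smul_right, map_intCast, hv, hall _ (Finset.mem_image_of_mem _ hm)]
    rcases hs with rfl | rfl <;> simp

include K in
/-- The signed irreducible character equal to `1` on the `p`-singular elements. -/
theorem exists_psi :
    ∃ (χ : IrrCharacter G) (s : ℂ), (s = 1 ∨ s = -1) ∧ χ ≠ Char.trivialIrr G ∧
      ∀ g : G, Element.pPart p g ≠ 1 → s * (χ : G → ℂ) g = 1 := by
  obtain ⟨χ, s, hs, hne, hE⟩ := K.exists_common_char
  refine ⟨χ, s, hs, hne, ?_⟩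
  have hsr : conj s = s ∧ s * s = 1 := by rcases hs with rfl | rfl <;> simp
  set F : G → ℂ := fun g => conj (s * (χ : G → ℂ) g) with hFdef
  have hF : Cfsg.IsClassFunction G F := fun g h => by
    show conj _ = conj _
    rw [Char.irr_isClassFunction χ.2 g h]
  have hχ1 : (χ : G → ℂ) ≠ fun _ => 1 := fun h => hne (Subtype.ext h)
  set c : K.P → ℂ := fun x => if x = 1 then 0 else
    (Nat.card K.P : ℂ) * (K.fib F x / Nat.card (Subgroup.centralizer ({(x : G)} : Set G))) with hc
  have hn : (Nat.card K.P : ℂ) ≠ 0 := Nat.cast_ne_zero.2 Nat.card_pos.ne'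
  have hG : (Nat.card G : ℂ) ≠ 0 := Nat.cast_ne_zero.2 Nat.card_pos.ne'
  have hceven : ∀ x, c x⁻¹ = c x := by
    intro x
    by_cases hx : x = 1
    · simp [hx]
    simp only [c, if_neg hx, if_neg (show x⁻¹ ≠ 1 from fun h => hx (inv_eq_one.1 h))]
    have e : ((x⁻¹ : K.P) : G) = K.t * (x : G) * K.t⁻¹ := (K.ht _ x.2).symm
    rw [e, K.fib_conj hF]
    congr 3
    rw [← e]
    exact Nat.card_congr (Equiv.subtypeEquivRight fun g => by
      simp only [Subgroup.mem_centralizer_singleton_iff, Subgroup.coe_inv]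
      exact ⟨fun h => (inv_inv (x : G) ▸ (show Commute g (x : G)⁻¹ from h).inv_right :
          Commute g (x : G)),
        fun h => (show Commute g (x : G) from h).inv_right⟩)
  have heq : ∀ ξ : IrrCharacter K.P, ξ ≠ Char.trivialIrr K.P →
      ∑ x : K.P, K.test ξ x * c x = 2 * Nat.card K.P := by
    intro ξ hξ
    have h1 : classInner (K.lift (K.test ξ)) (s • (χ : G → ℂ)) = 1 := by
      have := hE ξ hξ
      rw [E, Char.classInner_sub_left, Char.classInner_smul_right,
        Char.classInner_smul_right s (fun _ : G => (1 : ℂ)),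
        Char.classInner_irr_ne Char.isIrrCharacter_const_one χ.2 hχ1.symm, mul_zero,
        sub_zero] at this
      rw [Char.classInner_smul_right]; exact this
    have e : ∑ g : G, K.lift (K.test ξ) g * F g = (Nat.card G : ℂ) := by
      have := h1
      rw [classInner, inv_mul_eq_iff_eq_mul₀ hG, mul_one] at this
      exact this
    rw [K.sum_lift_mul (K.test_even ξ) (K.test_one ξ) hF] at e
    have : ∀ x : K.P, K.test ξ x * c x = (Nat.card K.P : ℂ) * (K.test ξ x *
        (K.fib F x / Nat.card (Subgroup.centralizer ({(x : G)} : Set G)))) := by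
      intro x
      by_cases hx : x = 1
      · subst hx; simp [c, K.test_one]
      simp only [c, if_neg hx]; ring
    simp only [this, ← Finset.mul_sum]
    have e' := mul_left_cancel₀ (div_ne_zero hG two_ne_zero)
      (e.trans (show (Nat.card G : ℂ) = (Nat.card G : ℂ) / 2 * 2 by ring))
    rw [e']; ring
  -- Fourier inversion
  set c' : K.P → ℂ := fun x => if x = 1 then (Nat.card K.P : ℂ) - ∑ y : K.P, c y else c x
    with hc'
  have hsum : ∑ x : K.P, c' x = Nat.card K.P := by
    have e1 : ∀ x : K.P, c' x = c x + if x = 1 then (Nat.card K.P : ℂ) - ∑ y : K.P, c y else 0 := by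
      intro x
      by_cases hx : x = 1
      · subst hx; simp [c', c]
      · simp [c', hx]
    simp only [e1, Finset.sum_add_distrib, Finset.sum_ite_eq', Finset.mem_univ, if_true]
    ring
  have hc1 : c' = fun _ => (1 : ℂ) := by
    refine Char.classFunction_ext_classInner (fun g h => ?_) (fun _ _ => rfl) fun ξ => ?_
    · rw [show h * g * h⁻¹ = g from Subtype.ext (by
        simp only [Subgroup.coe_mul, Subgroup.coe_inv]
        rw [K.comm h h.2 g g.2, mul_inv_cancel_right])]
    by_cases hξ : ξ = Char.trivialIrr K.P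
    · subst hξ
      show classInner c' (fun _ => 1) = classInner (fun _ => (1 : ℂ)) (fun _ => 1)
      rw [Char.classInner_irr_self Char.isIrrCharacter_const_one]
      simp only [classInner, map_one, mul_one, hsum]
      exact inv_mul_cancel₀ hn
    · rw [Char.classInner_irr_ne Char.isIrrCharacter_const_one ξ.2
        (fun h => hξ (Subtype.ext h.symm))]
      have h := heq ξ hξ
      have h' : ∀ x, K.test ξ x * c x = K.test ξ x * c' x := fun x => by
        by_cases hx : x = 1
        · subst hx; simp [K.test_one]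
        · simp [c', hx]
      simp only [h'] at h
      have hsym : ∑ x : K.P, (ξ : K.P → ℂ) x * c' x = ∑ x : K.P, conj ((ξ : K.P → ℂ) x) * c' x := by
        refine Fintype.sum_equiv (Equiv.inv K.P) _ _ fun x => ?_
        show _ = conj ((ξ : K.P → ℂ) x⁻¹) * c' x⁻¹
        rw [Char.irr_inv ξ.2, Complex.conj_conj]
        congr 1
        by_cases hx : x = 1
        · simp [hx]
        · simp [c', hx, hceven]
      simp only [test_apply, sub_mul, Finset.sum_sub_distrib, ← Finset.mul_sum, hsum, hsym] at h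
      rw [classInner, mul_eq_zero]
      right
      rw [Finset.sum_congr rfl fun x _ => mul_comm (c' x) _]
      linear_combination (-1 / 2 : ℂ) * h
  have hcx : ∀ x : K.P, x ≠ 1 → c x = 1 := fun x hx => by
    have := congrFun hc1 x
    simpa [c', hx] using this
  -- the principal block
  obtain ⟨M, hM⟩ := BlkChar.exists_isPModular p (Fact.out : p.Prime)
  haveI : M.IsPrime := hM.2.1.isPrime
  have hblock : χ ∈ Cfsg.principalBlock M G := by
    by_contra hnot
    have hB : Cfsg.IsPBlock M (Cfsg.principalBlock M G) := ⟨Char.trivialIrr G, rfl⟩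
    have h0 := Brauer.regSum_eq_zero_of_integral hM _ (Block.blockCoeff_memLocalRing hB)
      (χ := Char.trivialIrr G) (Block.sameBlock_refl _) hnot
    have hall : ∑ g : G, F g = 0 := by
      have := Char.classInner_irr_ne Char.isIrrCharacter_const_one χ.2 hχ1.symm
      rw [classInner, mul_eq_zero] at this
      have h2 := this.resolve_left (inv_ne_zero hG)
      simp only [one_mul] at h2
      simp [F, ← Finset.mul_sum, h2]
    have hreg : ∑ g ∈ Finset.univ.filter (fun g => ¬ Element.pPart p g ≠ 1), F g = 0 := by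
      rw [Brauer.regSum] at h0
      calc _ = conj s * ∑ g ∈ Finset.univ.filter (fun g : G => ¬ p ∣ orderOf g),
            (1 : ℂ) * conj ((χ : G → ℂ) g) := by
            rw [Finset.mul_sum]
            refine Finset.sum_congr ?_ fun g _ => by simp [F]
            ext g; simp [pPart_eq_one_iff]
        _ = 0 := by
            rw [show ∑ g ∈ Finset.univ.filter (fun g : G => ¬ p ∣ orderOf g),
              (1 : ℂ) * conj ((χ : G → ℂ) g) = 0 from h0, mul_zero]
    have hsing := Finset.sum_filter_add_sum_filter_not Finset.univ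
      (fun g => Element.pPart p g ≠ 1) F
    rw [hall, hreg, add_zero, K.sum_singular hF, mul_eq_zero] at hsing
    have h3 := hsing.resolve_left (div_ne_zero hG two_ne_zero)
    have h4 : ∑ x ∈ Finset.univ.filter (fun x : K.P => x ≠ 1), c x = 0 := by
      rw [← mul_zero (Nat.card K.P : ℂ), ← h3, Finset.mul_sum]
      exact Finset.sum_congr rfl fun x hx => by simp [c, (Finset.mem_filter.1 hx).2]
    rw [Finset.sum_congr rfl fun x hx => hcx x (Finset.mem_filter.1 hx).2, Finset.sum_const,
      nsmul_one, Nat.cast_eq_zero, Finset.card_eq_zero, Finset.filter_eq_empty_iff] at h4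
    have : Nontrivial K.P := by
      rw [← Finite.one_lt_card_iff_nontrivial]; have := K.nine_le; omega
    obtain ⟨x, hx⟩ := exists_ne (1 : K.P)
    exact h4 (Finset.mem_univ x) hx
  intro g hg
  obtain ⟨r, hr, hval⟩ := K.apply_rep (Char.irr_isClassFunction χ.2) g
  rw [← hval]
  set x := K.rep g with hx
  have hx1 : x ≠ 1 := K.rep_ne_one hg
  have hxG : (x : G) ≠ 1 := fun h => hx1 (Subtype.ext h)
  obtain ⟨V, hV, -⟩ := K.exists_compl x.2 hxG
  obtain ⟨k, hk⟩ := Element.orderOf_eq_pow_of_mem_isPGroup K.isPGroup x.2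
  have hVp : ¬ p ∣ Nat.card V := fun h => by
    obtain ⟨v, hv⟩ := exists_prime_orderOf_dvd_card' p h
    have := ((hV v).1 v.2).2
    rw [Subgroup.orderOf_coe, hv, Nat.coprime_self] at this
    exact (Fact.out : p.Prime).ne_one this
  have hconst : ∀ g', Element.pPart p g' = (x : G) → (χ : G → ℂ) g' = (χ : G → ℂ) x := by
    intro g' hg'
    have e : g' = (x : G) * Element.pComplPart p g' := by
      rw [← hg']; exact (Element.pPart_mul_pComplPart p g').symm
    have hv : Element.pComplPart p g' ∈ V := (hV _).2 ⟨by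
      rw [Subgroup.mem_centralizer_singleton_iff, ← hg']
      exact (Element.commute_pPart_pComplPart p g').symm,
      Element.coprime_orderOf_pComplPart Fact.out g'⟩
    rw [e]
    refine Brauer.principalBlock_apply_mul hM hk V (fun w hw => ((hV w).1 hw).1)
      (fun a ha w hw => (hV _).2 ⟨?_, ?_⟩) hVp hblock hv
    · exact Subgroup.mul_mem _ (Subgroup.mul_mem _ ha ((hV w).1 hw).1) (Subgroup.inv_mem _ ha)
    · rw [show a * w * a⁻¹ = MulAut.conj a w from rfl, MulEquiv.orderOf_eq]
      exact ((hV w).1 hw).2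
  rw [hconst _ hr]
  have hfib := K.fib_eq_of_const x.2 hxG (F := F) (c := F x)
    fun g' hg' => by simp only [F, hconst g' hg']
  have := hcx x hx1
  simp only [c, if_neg hx1, hfib] at this
  have hC : (Nat.card (Subgroup.centralizer ({(x : G)} : Set G)) : ℂ) ≠ 0 :=
    Nat.cast_ne_zero.2 Nat.card_pos.ne'
  field_simp at this
  have h2 := congrArg conj this
  simp only [F, map_one, Complex.conj_conj] at h2
  exact h2

end Core

end Cfsg.Agent.InertTwo
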