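import Cfsg.Agent.InertTwo.Twist
import Cfsg.Agent.InertTwo.Psi

/-!
# The identity between the two characters of the extension, and the structure theorem

The lift of `1 - Ψ` and the twisted lift of `1 + Ψ` to the extension both have norm two and
involve the same two irreducible characters; comparing class multiplication constants at an
involution shows that `Ψ` is linear.
-/

set_option autoImplicit false
set_option linter.unusedSectionVars false

noncomputable section

namespace Cfsg.Agent.InertTwo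

open scoped ComplexConjugate Classical
open Cfsg (classInner IrrCharacter)

universe u

variable {ι : Type*} [Fintype ι]

/-- Two orthogonal integral vectors of norm two congruent modulo two have the same support. -/
theorem two_supports {a b : ι → ℤ} (ha : ∑ i, a i * a i = 2) (hb : ∑ i, b i * b i = 2)
    (hab : ∑ i, a i * b i = 0) (hpar : ∀ i, (2 : ℤ) ∣ a i - b i) :
    ∃ i j : ι, i ≠ j ∧ (∀ k, k ≠ i → k ≠ j → a k = 0 ∧ b k = 0) ∧
      a i * a i = 1 ∧ b i * b i = 1 ∧ a j * a j = 1 ∧ b j * b j = 1 ∧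
      a i * b i + a j * b j = 0 := by
  have small : ∀ f : ι → ℤ, ∑ i, f i * f i = 2 → ∀ i, f i = 0 ∨ f i = 1 ∨ f i = -1 := by
    intro f hf i
    have hle : f i * f i ≤ 2 := hf ▸ Finset.single_le_sum
      (fun j _ => mul_self_nonneg (f j)) (Finset.mem_univ i)
    have h1 : -1 ≤ f i ∧ f i ≤ 1 := ⟨by nlinarith, by nlinarith⟩
    omega
  have sa := small a ha
  have sb := small b hb
  have hiff : ∀ k, a k = 0 ↔ b k = 0 := by
    intro k
    have := hpar k
    rcases sa k with h | h | h <;> rcases sb k with h' | h' | h' <;> rw [h, h'] at this ⊢ <;>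
      omega
  have hsq : ∀ i, a i * a i = if a i ≠ 0 then 1 else 0 := fun i => by
    rcases sa i with h | h | h <;> simp [h]
  have hc : ((Finset.univ.filter fun i => a i ≠ 0).card : ℤ) = 2 := by
    rw [← ha, Finset.sum_congr rfl fun i _ => hsq i, Finset.sum_boole]
  obtain ⟨i, j, hij, hs⟩ := Finset.card_eq_two.1
    (by exact_mod_cast hc : (Finset.univ.filter fun i => a i ≠ 0).card = 2)
  have hm : ∀ k, a k ≠ 0 ↔ k = i ∨ k = j := fun k => by simpa using (Finset.ext_iff.1 hs k)
  have h0 : ∀ k, k ≠ i → k ≠ j → a k = 0 := fun k hi hj => by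
    by_contra h
    rcases (hm k).1 h with e | e <;> contradiction
  have hai := (hm i).2 (Or.inl rfl)
  have haj := (hm j).2 (Or.inr rfl)
  have hbi : b i ≠ 0 := mt (hiff i).2 hai
  have hbj : b j ≠ 0 := mt (hiff j).2 haj
  refine ⟨i, j, hij, fun k hi hj => ⟨h0 k hi hj, (hiff k).1 (h0 k hi hj)⟩, ?_, ?_, ?_, ?_, ?_⟩
  · rcases sa i with h | h | h <;> simp_all
  · rcases sb i with h | h | h <;> simp_all
  · rcases sa j with h | h | h <;> simp_all
  · rcases sb j with h | h | h <;> simp_all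
  · rw [← hab, ← Finset.sum_pair hij (f := fun k => a k * b k)]
    refine Finset.sum_subset (Finset.subset_univ _) fun k _ hk => ?_
    simp only [Finset.mem_insert, Finset.mem_singleton, not_or] at hk
    rw [h0 k hk.1 hk.2, zero_mul]

theorem sum_conj_conj {H : Type*} [Group H] [Fintype H] (η : IrrCharacter H) (i : H) :
    ∑ r : H, ∑ r' : H, (η : H → ℂ) (r * i * r⁻¹ * (r' * i * r'⁻¹))
      = (Nat.card H : ℂ) ^ 2 * ((η : H → ℂ) i ^ 2 / (η : H → ℂ) 1) := by
  have h1 : ∀ r : H, ∑ r' : H, (η : H → ℂ) (r * i * r⁻¹ * (r' * i * r'⁻¹))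
      = (Nat.card H : ℂ) * (η : H → ℂ) i * (η : H → ℂ) i / (η : H → ℂ) 1 := fun r => by
    rw [BlocksChar.sum_conj_mul η.2, Char.irr_isClassFunction η.2 i r]
  rw [Finset.sum_congr rfl fun r _ => h1 r, Finset.sum_const, Finset.card_univ, nsmul_eq_mul,
    Nat.card_eq_fintype_card]
  ring

theorem sum_conj_conj_one {H : Type*} [Group H] [Fintype H] :
    ∑ _r : H, ∑ _r' : H, (1 : ℂ) = (Nat.card H : ℂ) ^ 2 := by
  simp [Nat.card_eq_fintype_card, sq]

variable {p : ℕ} {G : Type u} [Group G] [Finite G] [Fact p.Prime]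

local instance instIdentity1 : Fintype G := Fintype.ofFinite G

namespace Core

variable (K : Core p G)

local instance instIdentity2 : Fintype K.P := Fintype.ofFinite _
local instance instIdentity3 : Fintype (Ext K) := Fintype.ofFinite _

theorem sum_ext {M : Type*} [AddCommMonoid M] (f : G → M) :
    ∑ h : Ext K, f h.g = p • ∑ g : G, f g := by
  rw [Fintype.sum_equiv (Ext.equivProd K) (fun h => f h.g) (fun a => f a.2) (fun _ => rfl),
    Fintype.sum_prod_type]
  show ∑ _x : ZMod p, ∑ g : G, f g = _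
  rw [Finset.sum_const, Finset.card_univ, ZMod.card]

theorem sum_ext_complex (f : G → ℂ) : ∑ h : Ext K, f h.g = (p : ℂ) * ∑ g : G, f g := by
  rw [K.sum_ext, nsmul_eq_mul]

theorem supp_of_regular {g : G} (hg : Element.pPart p g = 1) : K.Supp g := by
  unfold Supp
  rw [K.rep_eq_one hg]
  exact ⟨K.φ₁_one, K.φ₂_one⟩

theorem supp_iff {g : G} {x : K.P} (h : Element.pPart p g = (x : G)) :
    K.Supp g ↔ x ∈ K.phi.ker := by
  have : K.Supp g ↔ K.rep g ∈ K.phi.ker := (K.mem_ker_phi _).symm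
  rw [this]
  rcases K.rep_eq_or_inv (g := g) (x := x) (r := 1) (by rw [h]; group) with e | e
  · rw [e]
  · rw [e, inv_mem_iff]

theorem supp_conj (g r : G) : K.Supp (r * g * r⁻¹) ↔ K.Supp g := by
  set r₀ := (K.exists_rep g).choose with hr₀
  have e : (r₀ * r⁻¹) * Element.pPart p (r * g * r⁻¹) * (r₀ * r⁻¹)⁻¹ = (K.rep g : G) := by
    rw [(Element.pPart_conj Fact.out r g).1]
    show _ = r₀ * Element.pPart p g * r₀⁻¹
    group
  have h1 : ∀ g : G, K.Supp g ↔ K.rep g ∈ K.phi.ker := fun g => (K.mem_ker_phi _).symm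
  rw [h1, h1]
  rcases K.rep_eq_or_inv e with f | f
  · rw [f]
  · rw [f, inv_mem_iff]

/-- The number of `p`-singular elements outside the support. -/
theorem card_not_supp :
    ∑ g : G, (if K.Supp g then (0 : ℂ) else 1)
      = (Nat.card G : ℂ) / 2 * (1 - 1 / ((p : ℂ) * p)) := by
  have hF : Cfsg.IsClassFunction G (fun g => if K.Supp g then (0 : ℂ) else 1) := fun g r => by
    simp only [K.supp_conj g r]
  have h1 : ∑ g : G, (if K.Supp g then (0 : ℂ) else 1)
      = ∑ g ∈ Finset.univ.filter (fun g => Element.pPart p g ≠ 1),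
          (if K.Supp g then (0 : ℂ) else 1) := by
    refine (Finset.sum_subset (Finset.subset_univ _) fun g _ hg => ?_).symm
    rw [Finset.mem_filter] at hg
    push Not at hg
    rw [if_pos (K.supp_of_regular (hg (Finset.mem_univ _)))]
  rw [h1, K.sum_singular_const hF (fun x => if x ∈ K.phi.ker then (0 : ℂ) else 1)
    (fun x _ g hg => by simp only [K.supp_iff hg])]
  have h2 : ∑ x ∈ Finset.univ.filter (fun x : K.P => x ≠ 1),
      (if x ∈ K.phi.ker then (0 : ℂ) else 1) = ∑ x : K.P, (1 - if x ∈ K.phi.ker then (1 : ℂ) else 0) := by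
    rw [Finset.sum_filter]
    refine Finset.sum_congr rfl fun x _ => ?_
    by_cases hx : x = 1
    · simp [hx, one_mem]
    · rw [if_pos hx]; split_ifs <;> simp
  rw [h2, Finset.sum_sub_distrib, Finset.sum_boole, Finset.sum_const, Finset.card_univ,
    nsmul_eq_mul, mul_one, ← Nat.card_eq_fintype_card]
  have h3 : ((Finset.univ.filter fun x : K.P => x ∈ K.phi.ker).card : ℂ)
      = (Nat.card K.P : ℂ) / ((p : ℂ) * p) := by
    rw [eq_div_iff (mul_ne_zero (Nat.cast_ne_zero.2 (Fact.out : p.Prime).ne_zero)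
      (Nat.cast_ne_zero.2 (Fact.out : p.Prime).ne_zero)), ← K.card_ker_phi,
      ← Fintype.card_subtype, ← Nat.card_eq_fintype_card]
    push_cast
    rfl
  rw [h3]
  have hP : (Nat.card K.P : ℂ) ≠ 0 := Nat.cast_ne_zero.2 Nat.card_pos.ne'
  field_simp

theorem lam_exists : ∃ lam : (Ext.proj K).ker →* ℂ,
    ∀ a : (Ext.proj K).ker, lam a = ZMod.stdAddChar (a : Ext K).z := by
  refine ⟨
    { toFun := fun a => ZMod.stdAddChar (a : Ext K).z
      map_one' := by
        show ZMod.stdAddChar (0 : ZMod p) = 1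
        exact AddChar.map_zero_eq_one _
      map_mul' := fun a b => ?_ }, fun a => rfl⟩
  have ha : (a : Ext K).g = 1 := a.2
  have hb : (b : Ext K).g = 1 := b.2
  show ZMod.stdAddChar ((a : Ext K) * b).z = _
  rw [Ext.mul_z, ha, hb, K.coc_one_left, add_zero, AddChar.map_add_eq_mul]

/-- The lift of `D` twisted by `Θ` is a generalised character. -/
theorem theta_mul_genChar {D : G → ℂ} (hD : Cfsg.IsGeneralizedCharacter G D)
    (hsing : ∀ g, Element.pPart p g ≠ 1 → D g = 0) :
    Cfsg.IsGeneralizedCharacter (Ext K) (fun h => K.theta h * D h.g) := by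
  obtain ⟨lam, hlam⟩ := K.lam_exists
  have hker : IsPGroup p (Ext.proj K).ker := fun a => ⟨1, by
    have ha := Ext.eq_incl_of_g_eq_one (K := K) (a := (a : Ext K)) a.2
    have hn : ∀ n : ℕ, (Ext.incl K (a : Ext K).z) ^ n = Ext.incl K ((n : ZMod p) * (a : Ext K).z) := by
      intro n
      induction n with
      | zero => simp only [pow_zero, Nat.cast_zero, zero_mul]; rfl
      | succ n ih => rw [pow_succ, ih, ← Ext.incl_add]; push_cast; ring_nf
    apply Subtype.ext
    rw [pow_one, Subgroup.coe_pow, ha, hn, ZMod.natCast_self, zero_mul]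
    rfl⟩
  have hcen : (Ext.proj K).ker ≤ Subgroup.center (Ext K) := fun a ha =>
    Subgroup.mem_center_iff.2 fun b => by
      rw [Ext.eq_incl_of_g_eq_one (K := K) (a := a) ha, Ext.incl_comm]
  refine genChar_lift (Ext.proj K) hker hcen lam D hD
    (fun g hg => hsing g fun h => (pPart_eq_one_iff g).1 h hg) _ (fun h hh => ?_) (fun h hh => ?_)
  · show K.theta h * D h.g = _
    rw [hlam, K.theta_of_ker hh]
    rfl
  · show K.theta h * D h.g = 0
    rw [hsing, mul_zero]
    rw [MonoidHom.mem_ker, (Element.map_pPart Fact.out (Ext.proj K) h).1] at hh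
    exact hh

/-- At a product of two involutions the twist is trivial. -/
theorem theta_mul_involutions {D : G → ℂ} (hsing : ∀ g, Element.pPart p g ≠ 1 → D g = 0)
    {a b : Ext K} (ha : a * a = 1) (hb : b * b = 1) :
    K.theta (a * b) * D (a * b).g = D (a * b).g := by
  by_cases hreg : Element.pPart p (a * b).g = 1
  · set h := a * b with hh
    suffices Element.pPart p h = 1 by rw [K.theta_regular this, one_mul]
    have hker : (Element.pPart p h).g = 1 :=
      ((Element.map_pPart Fact.out (Ext.proj K) h).1).trans hreg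
    have hc : a * Element.pPart p h * a⁻¹ = Element.pPart p h := by
      rw [Ext.eq_incl_of_g_eq_one hker, ← Ext.incl_comm, mul_inv_cancel_right]
    have hai : a⁻¹ = a := inv_eq_of_mul_eq_one_right ha
    have hbi : b⁻¹ = b := inv_eq_of_mul_eq_one_right hb
    have hinv : a * h * a⁻¹ = h⁻¹ := by
      rw [hai, hh, mul_inv_rev, hai, hbi, ← mul_assoc, ha, one_mul]
    have h1 : Element.pPart p h⁻¹ = (Element.pPart p h)⁻¹ := by
      have hk := Element.orderOf_pPart_eq_pow (p := p) Fact.out h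
      refine ((Element.eq_pPart (k := (orderOf h).factorization p) Fact.out
        ((Element.commute_pPart_pComplPart p h).inv_inv) ?_ ?_ ?_).1).symm
      · rw [(Element.commute_pPart_pComplPart p h).inv_inv.eq, ← mul_inv_rev,
          Element.pPart_mul_pComplPart]
      · rw [orderOf_inv, hk]
      · rw [orderOf_inv]; exact Element.coprime_orderOf_pComplPart Fact.out h
    have h2 : (Element.pPart p h)⁻¹ = Element.pPart p h := by
      rw [← h1, ← hinv, (Element.pPart_conj Fact.out a h).1, hc]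
    have hsq : Element.pPart p h ^ 2 = 1 := by
      rw [sq]; nth_rw 1 [← h2]; rw [inv_mul_cancel]
    have hord := Element.orderOf_pPart_eq_pow (p := p) Fact.out h
    have hdvd : orderOf (Element.pPart p h) ∣ 2 := orderOf_dvd_of_pow_eq_one hsq
    rcases (Nat.dvd_prime Nat.prime_two).1 hdvd with h3 | h3
    · exact orderOf_eq_one_iff.1 h3
    · exfalso
      rw [hord] at h3
      have hp : p.Prime := Fact.out
      have hodd : Odd (2 : ℕ) := h3 ▸ (hp.odd_of_ne_two K.odd).pow
      exact absurd hodd (by decide)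
  · rw [hsing _ hreg, mul_zero]

/-- An involution of `G` lifts to one of the extension. -/
theorem exists_lift_involution {i : G} (hi : i * i = 1) :
    ∃ a : Ext K, a.g = i ∧ a * a = 1 := by
  let a : Ext K := ⟨-((2 : ZMod p)⁻¹ * K.coc i i), i⟩
  refine ⟨a, rfl, Ext.ext' ?_ hi⟩
  show -((2 : ZMod p)⁻¹ * K.coc i i) + -((2 : ZMod p)⁻¹ * K.coc i i) + K.coc i i = 0
  have := mul_inv_cancel₀ K.two_ne_zero'
  linear_combination (-(K.coc i i)) * this

theorem inner_ext (f f' : Ext K → ℂ) (F : G → ℂ)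
    (h : ∀ a : Ext K, f a * conj (f' a) = F a.g) :
    classInner f f' = (Nat.card G : ℂ)⁻¹ * ∑ g : G, F g := by
  rw [classInner, Finset.sum_congr rfl fun a _ => h a, K.sum_ext_complex, Ext.card_ext,
    Nat.cast_mul]
  have hp : (p : ℂ) ≠ 0 := Nat.cast_ne_zero.2 (Fact.out : p.Prime).ne_zero
  field_simp

include K in
/-- The key identity: with `σ = Ψ 1` and `Σ = Ψ i` one has `(σ - Σ)² (σ - 1) = 0`. -/
theorem psi_values (χ : IrrCharacter G) (s : ℂ) (hs : s = 1 ∨ s = -1)
    (hne : χ ≠ Char.trivialIrr G)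
    (hsing : ∀ g : G, Element.pPart p g ≠ 1 → s * (χ : G → ℂ) g = 1)
    {i : G} (hi : i * i = 1) :
    s * (χ : G → ℂ) 1 = 1 ∨ (χ : G → ℂ) i = (χ : G → ℂ) 1 := by
  have hp : p.Prime := Fact.out
  have hp0 : (p : ℂ) ≠ 0 := Nat.cast_ne_zero.2 hp.ne_zero
  have hG : (Nat.card G : ℂ) ≠ 0 := Nat.cast_ne_zero.2 Nat.card_pos.ne'
  have hsr : conj s = s ∧ s * s = 1 := by rcases hs with rfl | rfl <;> simp
  have hs0 : s ≠ 0 := fun h => by rw [h] at hsr; simp at hsr
  obtain ⟨n, hn⟩ : ∃ n : ℤ, (n : ℂ) = s := by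
    rcases hs with rfl | rfl
    · exact ⟨1, by simp⟩
    · exact ⟨-1, by simp⟩
  have hχ1 : (χ : G → ℂ) ≠ fun _ => 1 := fun h => hne (Subtype.ext h)
  set one : G → ℂ := fun _ => 1 with hone
  set Ψ : G → ℂ := s • (χ : G → ℂ) with hΨ
  have hΨg : Cfsg.IsGeneralizedCharacter G Ψ := by
    have := Char.isGeneralizedCharacter_zsmul (Char.isGeneralizedCharacter_of_irr χ.2) n
    rw [hΨ, ← hn]
    convert this using 1
    funext g
    simp
  have honeg : Cfsg.IsGeneralizedCharacter G one :=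
    Char.isGeneralizedCharacter_of_irr Char.isIrrCharacter_const_one
  set D : G → ℂ := one - Ψ with hD
  have hDg : Cfsg.IsGeneralizedCharacter G D := Char.isGeneralizedCharacter_sub honeg hΨg
  have hDs : ∀ g, Element.pPart p g ≠ 1 → D g = 0 := fun g hg => by
    show 1 - s * (χ : G → ℂ) g = 0
    rw [hsing g hg, sub_self]
  -- the inner products on `G`
  have i11 : classInner one one = 1 := Char.classInner_irr_self Char.isIrrCharacter_const_one
  have i12 : classInner one Ψ = 0 := by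
    rw [hΨ, Char.classInner_smul_right,
      Char.classInner_irr_ne Char.isIrrCharacter_const_one χ.2 hχ1.symm, mul_zero]
  have i21 : classInner Ψ one = 0 := by rw [← Char.classInner_conj, i12, map_zero]
  have i22 : classInner Ψ Ψ = 1 := by
    rw [hΨ, Char.classInner_smul_right, Char.classInner_smul_left,
      Char.classInner_irr_self χ.2, mul_one, hsr.1, hsr.2]
  have n1 : classInner D D = 2 := by
    rw [hD, Char.classInner_sub_left, Char.classInner_sub_right, Char.classInner_sub_right,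
      i11, i12, i21, i22]
    norm_num
  have n2 : classInner (one + Ψ) D = 0 := by
    rw [hD, Char.classInner_add_left, Char.classInner_sub_right, Char.classInner_sub_right,
      i11, i12, i21, i22]
    norm_num
  have n3 : classInner (one + Ψ) (one + Ψ) = 2 := by
    rw [Char.classInner_add_left, Char.classInner_add_right, Char.classInner_add_right,
      i11, i12, i21, i22]
    norm_num
  -- the two generalised characters of the extension
  set Dh : Ext K → ℂ := fun h => K.theta h * D h.g with hDh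
  set W : Ext K → ℂ := fun h => (p : ℂ) * K.theta h * (one + Ψ) h.g with hW
  have hDhg : Cfsg.IsGeneralizedCharacter (Ext K) Dh := K.theta_mul_genChar hDg hDs
  have hWg : Cfsg.IsGeneralizedCharacter (Ext K) W :=
    Char.isGeneralizedCharacter_mul K.theta_genChar
      (Char.isGeneralizedCharacter_comp (Char.isGeneralizedCharacter_add honeg hΨg) (Ext.proj K))
  have hDsupp : ∀ g, ¬ K.Supp g → D g = 0 := fun g hg =>
    hDs g fun h => hg (K.supp_of_regular h)
  have m1 : classInner Dh Dh = 2 := by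
    rw [K.inner_ext Dh Dh (fun g => D g * conj (D g)) fun a => by
      simp only [Dh, map_mul]
      rw [mul_mul_mul_comm, K.theta_mul_conj]
      split_ifs with h
      · rw [one_mul]
      · rw [hDsupp _ h, zero_mul, zero_mul]]
    exact n1
  have m2 : classInner W Dh = 0 := by
    rw [K.inner_ext W Dh (fun g => (p : ℂ) * ((one + Ψ) g * conj (D g))) fun a => by
      simp only [W, Dh, map_mul]
      rw [mul_mul_mul_comm, mul_assoc (p : ℂ) (K.theta a), K.theta_mul_conj]
      split_ifs with h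
      · rw [mul_one]
        try ring
      · rw [hDsupp _ h, map_zero]; ring, ← Finset.mul_sum, ← mul_assoc, mul_comm _ (p : ℂ),
      mul_assoc]
    show (p : ℂ) * classInner (one + Ψ) D = 0
    rw [n2, mul_zero]
  have m3 : classInner W W = 2 := by
    rw [K.inner_ext W W (fun g => (p : ℂ) * p *
        ((one + Ψ) g * conj ((one + Ψ) g) - 4 * if K.Supp g then (0 : ℂ) else 1)) fun a => by
      simp only [W, map_mul, map_natCast]
      rw [mul_mul_mul_comm, mul_mul_mul_comm (p : ℂ), K.theta_mul_conj]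
      split_ifs with h
      · ring
      · have hsg : Element.pPart p a.g ≠ 1 := fun e => h (K.supp_of_regular e)
        have : (one + Ψ) a.g = 2 := by
          show 1 + s * (χ : G → ℂ) a.g = 2
          rw [hsing _ hsg]; norm_num
        rw [this, map_ofNat]; ring, ← Finset.mul_sum, Finset.sum_sub_distrib, ← Finset.mul_sum,
      K.card_not_supp]
    have e : ∑ g : G, (one + Ψ) g * conj ((one + Ψ) g) = (Nat.card G : ℂ) * 2 := by
      rw [Char.sum_mul_conj_eq_card_mul_classInner, n3]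
    rw [e]
    field_simp
    ring
  -- coefficients
  choose a ha using fun η : IrrCharacter (Ext K) => Char.isGeneralizedCharacter_classInner_int hDhg η
  choose b hb using fun η : IrrCharacter (Ext K) => Char.isGeneralizedCharacter_classInner_int hWg η
  choose c hc using fun η : IrrCharacter (Ext K) =>
    Char.isGeneralizedCharacter_classInner_int K.theta_genChar η
  have hDc := Char.isGeneralizedCharacter_isClassFunction hDhg
  have hWc := Char.isGeneralizedCharacter_isClassFunction hWg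
  have sa : ∑ η, a η * a η = 2 := by
    have := Char.classInner_eq_sum_mul_conj (b := Dh) hDc
    simp [ha, m1] at this
    exact_mod_cast this.symm
  have sb : ∑ η, b η * b η = 2 := by
    have := Char.classInner_eq_sum_mul_conj (b := W) hWc
    simp [hb, m3] at this
    exact_mod_cast this.symm
  have sab : ∑ η, a η * b η = 0 := by
    have := Char.classInner_eq_sum_mul_conj (b := Dh) hWc
    simp [ha, hb, m2] at this
    rw [Finset.sum_congr rfl fun η _ => mul_comm (a η) (b η)]
    exact_mod_cast this.symm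
  have hsum : (fun h : Ext K => (p : ℂ) * K.theta h) + (fun h : Ext K => (p : ℂ) * K.theta h)
      = W + (p : ℂ) • Dh := by
    funext h
    simp only [Pi.add_apply, Pi.smul_apply, smul_eq_mul, W, Dh, hD, Pi.sub_apply, hone]
    ring
  have hpar : ∀ η, (2 : ℤ) ∣ a η - b η := by
    intro η
    have h1 := congrArg (fun f => classInner f (η : Ext K → ℂ)) hsum
    simp only [Char.classInner_add_left, Char.classInner_smul_left, ha, hb, hc] at h1
    have h2 : c η + c η = b η + (p : ℤ) * a η := by exact_mod_cast h1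
    obtain ⟨k, hk⟩ := hp.odd_of_ne_two K.odd
    rw [hk] at h2
    push_cast at h2
    exact ⟨a η + k * a η - c η, by linear_combination h2⟩
  obtain ⟨η₁, η₂, hne12, hz, ha1, hb1, ha2, hb2, habz⟩ := two_supports sa sb sab hpar
  have expand : ∀ (f : Ext K → ℂ), Cfsg.IsClassFunction (Ext K) f → ∀ v : IrrCharacter (Ext K) → ℤ,
      (∀ η : IrrCharacter (Ext K), classInner f (η : Ext K → ℂ) = v η) → (∀ k, k ≠ η₁ → k ≠ η₂ → v k = 0) →
      ∀ h, f h = (v η₁ : ℂ) * (η₁ : Ext K → ℂ) h + (v η₂ : ℂ) * (η₂ : Ext K → ℂ) h := by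
    intro f hf v hv hv0 h
    conv_lhs => rw [Char.eq_sum_classInner_smul hf]
    rw [Finset.sum_apply]
    rw [← Finset.sum_subset (Finset.subset_univ {η₁, η₂}) fun k _ hk => by
      simp only [Finset.mem_insert, Finset.mem_singleton, not_or] at hk
      simp [hv, hv0 k hk.1 hk.2], Finset.sum_pair hne12]
    simp [hv]
  have eD := expand Dh hDc a ha fun k h1 h2 => (hz k h1 h2).1
  have eW := expand W hWc b hb fun k h1 h2 => (hz k h1 h2).2
  -- the involution
  obtain ⟨ih, hig, hih⟩ := K.exists_lift_involution hi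
  have hT : ∑ r : Ext K, ∑ r' : Ext K, Dh (r * ih * r⁻¹ * (r' * ih * r'⁻¹))
      = (p : ℂ) ^ 2 * ((Nat.card G : ℂ) ^ 2
        * (1 - s * ((χ : G → ℂ) i ^ 2 / (χ : G → ℂ) 1))) := by
    have h1 : ∀ r r' : Ext K, Dh (r * ih * r⁻¹ * (r' * ih * r'⁻¹))
        = D (r.g * i * r.g⁻¹ * (r'.g * i * r'.g⁻¹)) := fun r r' => by
      have e : ∀ r : Ext K, r * ih * r⁻¹ * (r * ih * r⁻¹) = 1 := fun r => by
        rw [show r * ih * r⁻¹ * (r * ih * r⁻¹) = r * (ih * ih) * r⁻¹ by group, hih]; group
      refine (K.theta_mul_involutions hDs (e r) (e r')).trans ?_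
      simp only [Ext.mul_g, Ext.inv_g, hig]
    simp only [h1]
    rw [Finset.sum_congr rfl fun r _ => K.sum_ext_complex
      (fun g => D (r.g * i * r.g⁻¹ * (g * i * g⁻¹))),
      K.sum_ext_complex (fun g => (p : ℂ) * ∑ g' : G, D (g * i * g⁻¹ * (g' * i * g'⁻¹))),
      ← Finset.mul_sum, ← mul_assoc, ← sq]
    congr 1
    simp only [hD, Pi.sub_apply, hone, hΨ, Pi.smul_apply, smul_eq_mul, Finset.sum_sub_distrib,
      ← Finset.mul_sum]
    rw [sum_conj_conj_one, sum_conj_conj χ i]
    ring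
  have hT' : ∑ r : Ext K, ∑ r' : Ext K, Dh (r * ih * r⁻¹ * (r' * ih * r'⁻¹))
      = (Nat.card (Ext K) : ℂ) ^ 2 *
        ((a η₁ : ℂ) * ((η₁ : Ext K → ℂ) ih ^ 2 / (η₁ : Ext K → ℂ) 1)
          + (a η₂ : ℂ) * ((η₂ : Ext K → ℂ) ih ^ 2 / (η₂ : Ext K → ℂ) 1)) := by
    simp only [eD, Finset.sum_add_distrib, ← Finset.mul_sum]
    rw [sum_conj_conj η₁ ih, sum_conj_conj η₂ ih]
    ring
  rw [hT, Ext.card_ext, Nat.cast_mul, mul_pow, mul_assoc] at hT'
  have key := mul_left_cancel₀ (pow_ne_zero 2 hG) (mul_left_cancel₀ (pow_ne_zero 2 hp0) hT')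
  -- values
  have hb2' : b η₂ = -(a η₁ * b η₁ * a η₂) := by
    linear_combination a η₂ * habz - b η₂ * ha2
  set e : ℂ := ((a η₁ * b η₁ : ℤ) : ℂ) with he
  have he2 : e * e = 1 := by
    rw [he, ← Int.cast_mul, mul_mul_mul_comm, ha1, hb1]; simp
  have split : ∀ h, Dh h + e * W h = 2 * ((a η₁ : ℂ) * (η₁ : Ext K → ℂ) h)
      ∧ Dh h - e * W h = 2 * ((a η₂ : ℂ) * (η₂ : Ext K → ℂ) h) := by
    intro h
    have u1 : e * (b η₁ : ℂ) = (a η₁ : ℂ) := by
      rw [he, ← Int.cast_mul, mul_assoc, hb1, mul_one]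
    have u2 : e * (b η₂ : ℂ) = -(a η₂ : ℂ) := by
      rw [he, ← Int.cast_mul, hb2', show a η₁ * b η₁ * -(a η₁ * b η₁ * a η₂)
        = -((a η₁ * a η₁) * (b η₁ * b η₁) * a η₂) by ring, ha1, hb1]
      simp
    rw [eD, eW]
    constructor
    · linear_combination (η₁ : Ext K → ℂ) h * u1 + (η₂ : Ext K → ℂ) h * u2
    · linear_combination (-(η₁ : Ext K → ℂ) h) * u1 - (η₂ : Ext K → ℂ) h * u2
  set S := s * (χ : G → ℂ) i with hS
  set σ := s * (χ : G → ℂ) 1 with hσ
  have hpc : ∀ a : Ext K, a * a = 1 → Element.pPart p a = 1 := by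
    intro a ha
    refine (Element.pPart_eq_one Fact.out ?_).1
    have hd : orderOf a ∣ 2 := orderOf_dvd_of_pow_eq_one (by rw [sq]; exact ha)
    exact Nat.Coprime.coprime_dvd_left hd
      ((Nat.coprime_primes Nat.prime_two hp).2 fun h => K.odd h.symm)
  have t1 : K.theta 1 = 1 := K.theta_regular (hpc 1 (one_mul 1))
  have ti : K.theta ih = 1 := K.theta_regular (hpc ih hih)
  have v1 : Dh 1 = 1 - σ ∧ W 1 = (p : ℂ) * (1 + σ) := by
    constructor
    · show K.theta 1 * (1 - s * (χ : G → ℂ) 1) = _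
      rw [t1, one_mul]
    · show (p : ℂ) * K.theta 1 * (1 + s * (χ : G → ℂ) 1) = _
      rw [t1, mul_one]
  have vi : Dh ih = 1 - S ∧ W ih = (p : ℂ) * (1 + S) := by
    constructor
    · show K.theta ih * (1 - s * (χ : G → ℂ) ih.g) = _
      rw [ti, one_mul, hig]
    · show (p : ℂ) * K.theta ih * (1 + s * (χ : G → ℂ) ih.g) = _
      rw [ti, mul_one, hig]
  have nz : ∀ (η : IrrCharacter (Ext K)) (m : ℤ), m * m = 1 →
      (2 : ℂ) * ((m : ℂ) * (η : Ext K → ℂ) 1) ≠ 0 := by
    intro η m hm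
    obtain ⟨d, hd, hd1⟩ := Char.irr_one_pos η.2
    refine mul_ne_zero two_ne_zero (mul_ne_zero ?_ ?_)
    · exact Int.cast_ne_zero.2 fun h => by simp [h] at hm
    · rw [hd1]; exact Nat.cast_ne_zero.2 (by omega)
  have sq_div : ∀ (η : IrrCharacter (Ext K)) (m : ℤ), m * m = 1 →
      (m : ℂ) * ((η : Ext K → ℂ) ih ^ 2 / (η : Ext K → ℂ) 1)
        = (2 * ((m : ℂ) * (η : Ext K → ℂ) ih)) ^ 2
          / (2 * (2 * ((m : ℂ) * (η : Ext K → ℂ) 1))) := by
    intro η m hm
    have hm0 : (m : ℂ) ≠ 0 := Int.cast_ne_zero.2 fun h => by simp [h] at hm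
    field_simp
  rw [sq_div η₁ _ ha1, sq_div η₂ _ ha2, ← (split ih).1, ← (split ih).2, ← (split 1).1,
    ← (split 1).2, vi.1, vi.2, v1.1, v1.2] at key
  have d1 : (1 - σ) + e * ((p : ℂ) * (1 + σ)) ≠ 0 := by
    have := nz η₁ _ ha1
    rwa [← (split 1).1, v1.1, v1.2] at this
  have d2 : (1 - σ) - e * ((p : ℂ) * (1 + σ)) ≠ 0 := by
    have := nz η₂ _ ha2
    rwa [← (split 1).2, v1.1, v1.2] at this
  have hσ0 : σ ≠ 0 := by
    obtain ⟨d, hd, hd1⟩ := Char.irr_one_pos χ.2
    exact mul_ne_zero hs0 (by rw [hd1]; exact Nat.cast_ne_zero.2 (by omega))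
  have hχS : s * ((χ : G → ℂ) i ^ 2 / (χ : G → ℂ) 1) = S ^ 2 / σ := by
    rw [hS, hσ]; field_simp
  rw [hχS] at key
  rw [div_add_div _ _ (mul_ne_zero two_ne_zero d1) (mul_ne_zero two_ne_zero d2), sub_div' hσ0,
    div_eq_div_iff hσ0 (mul_ne_zero (mul_ne_zero two_ne_zero d1) (mul_ne_zero two_ne_zero d2))]
    at key
  have fin : (σ - S) ^ 2 * (σ - 1) * ((p : ℂ) * p - 1) = 0 := by
    linear_combination (-1 / 4 : ℂ) * key
      - ((σ - S ^ 2) * ((p : ℂ) * (1 + σ)) ^ 2
        + σ * ((1 - σ) * ((p : ℂ) * (1 + S)) ^ 2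
          - 2 * (1 - S) * ((p : ℂ) * (1 + S)) * ((p : ℂ) * (1 + σ)))) * he2
  have hpp : (p : ℂ) * p - 1 ≠ 0 := by
    rw [sub_ne_zero]
    have : p * p ≠ 1 := by nlinarith [hp.two_le]
    exact_mod_cast this
  rcases mul_eq_zero.1 ((mul_eq_zero.1 fin).resolve_right hpp) with h | h
  · right
    have h' : s * ((χ : G → ℂ) 1 - (χ : G → ℂ) i) = 0 := by
      rw [mul_sub]; exact pow_eq_zero_iff two_ne_zero |>.1 h
    exact (sub_eq_zero.1 ((mul_eq_zero.1 h').resolve_left hs0)).symm
  · exact Or.inl (sub_eq_zero.1 h)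

/-- **The structure theorem.** Without normal subgroups of order prime to `p`, `P` is normal. -/
theorem normal (hcore : ∀ V : Subgroup G, V.Normal → ¬ p ∣ Nat.card V → V = ⊥) :
    K.P.Normal := by
  have hp : p.Prime := Fact.out
  obtain ⟨χ, s, hs, hne, hsing⟩ := K.exists_psi
  obtain ⟨x₀, hx₀, hx₀1⟩ : ∃ x : G, x ∈ K.P ∧ x ≠ 1 := by
    obtain ⟨a, ha1, -⟩ := K.surj 1 0
    refine ⟨a, a.2, fun h => one_ne_zero (α := ZMod p) ?_⟩
    rw [← ha1, show a = 1 from Subtype.ext h, K.φ₁_one]
  have hx₀p : Element.pPart p x₀ = x₀ := by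
    obtain ⟨k, hk⟩ := Element.orderOf_eq_pow_of_mem_isPGroup K.isPGroup hx₀
    exact (Element.pPart_eq_self hp hk).1
  -- an involution
  obtain ⟨i, hi, hi1⟩ : ∃ i : G, i * i = 1 ∧ i ≠ 1 := by
    have hdvd : 2 ∣ Nat.card G := by
      refine dvd_trans ?_ (orderOf_dvd_natCard K.t)
      by_contra hodd
      obtain ⟨m, hm⟩ := Nat.odd_iff.2 (Nat.two_dvd_ne_zero.1 hodd)
      apply K.sq_ne_one hx₀ hx₀1
      have h2 : Commute (K.t * K.t) x₀ := by
        show K.t * K.t * x₀ = x₀ * (K.t * K.t)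
        calc K.t * K.t * x₀ = K.t * (K.t * x₀ * K.t⁻¹) * K.t⁻¹ * (K.t * K.t) := by group
          _ = _ := by rw [K.ht x₀ hx₀, K.ht _ (inv_mem hx₀), inv_inv]
      have h3 : Commute K.t x₀ := by
        have e : K.t = (K.t * K.t) ^ (m + 1) := by
          rw [← sq, ← pow_mul, show 2 * (m + 1) = orderOf K.t + 1 by omega, pow_succ,
            pow_orderOf_eq_one, one_mul]
        rw [e]; exact h2.pow_left _
      rw [← K.ht x₀ hx₀, h3.eq, mul_inv_cancel_right]
    obtain ⟨i, hi⟩ := exists_prime_orderOf_dvd_card' (G := G) 2 hdvd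
    refine ⟨i, ?_, fun h => by simp [h] at hi⟩
    rw [← sq, ← hi, pow_orderOf_eq_one]
  obtain ⟨d, hd, hd1⟩ := Char.irr_one_pos χ.2
  have hchar := Char.isCharacter_of_irr χ.2
  obtain ⟨L, hLn, hL⟩ := Char.isCharacter_exists_kernel hchar
  haveI := hLn
  have hσ : s * (χ : G → ℂ) 1 = 1 := by
    rcases K.psi_values χ s hs hne hsing hi with h | h
    · exact h
    by_contra hσ
    have hLp : ¬ p ∣ Nat.card L := by
      intro hdvd
      obtain ⟨y, hy⟩ := exists_prime_orderOf_dvd_card' (G := L) p hdvd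
      have hy' : orderOf (y : G) = p ^ 1 := by rw [Subgroup.orderOf_coe, hy, pow_one]
      apply hσ
      rw [← (hL _).1 y.2]
      refine hsing _ ?_
      rw [(Element.pPart_eq_self hp hy').1]
      intro h1
      rw [h1, orderOf_one, pow_one] at hy'
      exact hp.ne_one hy'.symm
    have := hcore L hLn hLp
    exact hi1 (by simpa [this] using (hL i).2 h)
  have hs1 : s = 1 ∧ d = 1 := by
    rw [hd1] at hσ
    rcases hs with rfl | rfl
    · exact ⟨rfl, by simpa using hσ⟩
    · exfalso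
      have h0 : ((d : ℤ) + 1 : ℂ) = 0 := by push_cast; linear_combination -hσ
      have h1 : (d : ℤ) + 1 = 0 := by exact_mod_cast h0
      omega
  obtain ⟨rfl, rfl⟩ := hs1
  have h1 : (χ : G → ℂ) 1 = 1 := by simpa using hd1
  have hsing' : ∀ g, Element.pPart p g ≠ 1 → g ∈ L := fun g hg =>
    (hL g).2 (by rw [h1, ← one_mul ((χ : G → ℂ) g), hsing g hg])
  have hPL : K.P ≤ L := by
    intro x hx
    by_cases hx1 : x = 1
    · rw [hx1]; exact one_mem L
    refine hsing' x ?_
    obtain ⟨k, hk⟩ := Element.orderOf_eq_pow_of_mem_isPGroup K.isPGroup hx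
    rwa [(Element.pPart_eq_self hp hk).1]
  have hCL : ∀ c : G, Commute c x₀ → c ∈ L := by
    intro c hc
    by_cases hc1 : Element.pPart p c = 1
    · have hcp : (orderOf c).Coprime p :=
        (hp.coprime_iff_not_dvd.2 ((pPart_eq_one_iff c).1 hc1)).symm
      have : x₀ * c ∈ L := hsing' _ (by
        rw [K.pPart_mul_of hx₀ (Subgroup.mem_centralizer_singleton_iff.2 hc.eq) hcp]
        exact hx₀1)
      exact (Subgroup.mul_mem_cancel_left _ (hPL hx₀)).1 this
    · exact hsing' c hc1
  have hLne : L ≠ ⊤ := by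
    intro h
    apply hne
    refine Subtype.ext (funext fun g => ?_)
    show (χ : G → ℂ) g = 1
    rw [(hL g).1 (h ▸ Subgroup.mem_top g), h1]
  have htc : ∀ n ∈ Subgroup.normalizer (K.P : Set G), (∀ x ∈ K.P, n * x * n⁻¹ = x⁻¹) →
      n ∈ L → K.t ∈ L := by
    intro n _ hn hnL
    have : K.t⁻¹ * n ∈ L := by
      refine hCL _ ?_
      show K.t⁻¹ * n * x₀ = x₀ * (K.t⁻¹ * n)
      calc K.t⁻¹ * n * x₀ = K.t⁻¹ * (n * x₀ * n⁻¹) * n := by group
        _ = K.t⁻¹ * (K.t * x₀ * K.t⁻¹) * n := by rw [hn x₀ hx₀, K.ht x₀ hx₀]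
        _ = _ := by group
    have h2 := L.mul_mem hnL (L.inv_mem this)
    simpa [mul_inv_rev] using h2
  have htL : K.t ∉ L := by
    intro ht
    apply hLne
    rw [eq_top_iff]
    intro g _
    have hF : Subgroup.normalizer ((K.sylow : Subgroup G) : Set G) ⊔ L = ⊤ :=
      Sylow.normalizer_sup_eq_top' K.sylow (N := L) (K.sylow_eq ▸ hPL)
    have hNL : Subgroup.normalizer ((K.sylow : Subgroup G) : Set G) ≤ L := by
      intro n hn
      rw [K.sylow_eq] at hn
      rcases K.pm n hn with h | h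
      · exact hCL n (by
          show n * x₀ = x₀ * n
          calc n * x₀ = n * x₀ * n⁻¹ * n := by group
            _ = _ := by rw [h x₀ hx₀])
      · have : K.t⁻¹ * n ∈ L := by
          refine hCL _ ?_
          show K.t⁻¹ * n * x₀ = x₀ * (K.t⁻¹ * n)
          calc K.t⁻¹ * n * x₀ = K.t⁻¹ * (n * x₀ * n⁻¹) * n := by group
            _ = K.t⁻¹ * (K.t * x₀ * K.t⁻¹) * n := by rw [h x₀ hx₀, K.ht x₀ hx₀]
            _ = _ := by group
        have h2 := L.mul_mem ht this
        simpa using h2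
    rw [sup_eq_right.2 hNL] at hF
    rw [hF]; exact Subgroup.mem_top g
  -- Burnside in `L`
  let S : Sylow p L := K.sylow.subtype (K.sylow_eq ▸ hPL)
  have hS : ∀ w : L, w ∈ (S : Subgroup L) ↔ (w : G) ∈ K.P := fun w => by
    simp [S, Sylow.coe_subtype, Subgroup.mem_subgroupOf, ← K.sylow_eq]
  have hN : Subgroup.normalizer ((S : Subgroup L) : Set L)
      ≤ Subgroup.centralizer ((S : Subgroup L) : Set L) := by
    intro g hg
    have hg' : (g : G) ∈ Subgroup.normalizer (K.P : Set G) := by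
      refine Subgroup.mem_normalizer_iff.2 fun a => ⟨fun ha => ?_, fun ha => ?_⟩
      · exact (hS _).1 ((Subgroup.mem_normalizer_iff.1 hg ⟨a, hPL ha⟩).1 ((hS _).2 ha))
      · have haL : a ∈ L := by
          have h1 := L.mul_mem (L.mul_mem (L.inv_mem g.2) (hPL ha)) g.2
          simpa [mul_assoc] using h1
        exact (hS ⟨a, haL⟩).1 ((Subgroup.mem_normalizer_iff.1 hg ⟨a, haL⟩).2 ((hS _).2 ha))
    rcases K.pm g hg' with h | h
    · refine Subgroup.mem_centralizer_iff.2 fun a ha => Subtype.ext ?_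
      simp only [Subgroup.coe_mul]
      calc (a : G) * g = ((g : G) * a * (g : G)⁻¹) * g := by rw [h a ((hS a).1 ha)]
        _ = g * a := by group
    · exact absurd (htc g hg' h g.2) htL
  obtain ⟨V, hVn, hVc⟩ := (Transfer.hasNormalPComplement_iff_exists S).1
    (Transfer.hasNormalPComplement_of_normalizer_le_centralizer S hN)
  haveI := hVn
  have hmemV := Transfer.mem_normal_p_complement_iff S V hVc
  have hVG : (V.map L.subtype).Normal := by
    refine ⟨fun v hv g => ?_⟩
    obtain ⟨w, hw, rfl⟩ := hv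
    refine ⟨⟨g * w * g⁻¹, hLn.conj_mem _ w.2 g⟩, (hmemV _).2 ?_, rfl⟩
    have : orderOf (g * (w : G) * g⁻¹) = orderOf (w : G) := (MulAut.conj g).orderOf_eq (w : G)
    rw [Subgroup.orderOf_mk, this, Subgroup.orderOf_coe]
    exact (hmemV w).1 hw
  have hVb : V.map L.subtype = ⊥ := by
    refine hcore _ hVG fun hdvd => ?_
    obtain ⟨y, hy⟩ := exists_prime_orderOf_dvd_card' (G := (V.map L.subtype : Subgroup G)) p hdvd
    obtain ⟨w, hw, hwy⟩ := y.2
    have h2 := (hmemV w).1 hw
    rw [← Subgroup.orderOf_coe w, show (w : G) = (y : G) from hwy, Subgroup.orderOf_coe, hy] at h2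
    exact hp.ne_one ((Nat.coprime_self p).1 h2)
  rw [Subgroup.map_eq_bot_iff_of_injective _ L.subtype_injective] at hVb
  have hLP : L = K.P := by
    refine le_antisymm (fun g hg => ?_) hPL
    have htop := hVc.sup_eq_top
    rw [hVb, bot_sup_eq] at htop
    exact (hS ⟨g, hg⟩).1 (htop ▸ Subgroup.mem_top _)
  exact hLP ▸ hLn

end Core

end Cfsg.Agent.InertTwo
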