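import Cfsg.Agent.InertTwo.Identity
import Cfsg.Agent.PSolv.Cores
import Cfsg.Agent.Lib.PLength
import Cfsg.Agent.Transfer.Residual
import Mathlib.GroupTheory.FiniteAbelian.Basic

/-!
# Reduction to trivial `p'`-core
-/

set_option autoImplicit false
set_option linter.unusedSectionVars false

namespace Cfsg.Agent.InertTwo

universe u

variable {G : Type u} [Group G] [Finite G] {p : ℕ} [Fact p.Prime]

/-- A noncyclic abelian `p`-group has two independent coordinates modulo `p`. -/
theorem exists_coordinates {A : Type u} [CommGroup A] [Finite A] (hA : IsPGroup p A)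
    (hnc : ¬ IsCyclic A) : ∃ f₁ f₂ : A → ZMod p, (∀ a b, f₁ (a * b) = f₁ a + f₁ b) ∧
      (∀ a b, f₂ (a * b) = f₂ a + f₂ b) ∧ ∀ c d, ∃ a, f₁ a = c ∧ f₂ a = d := by
  classical
  have hp : p.Prime := Fact.out
  obtain ⟨ι, _, n, hn, ⟨e⟩⟩ := CommGroup.equiv_prod_multiplicative_zmod_of_finite A
  have hdvd : ∀ i, p ∣ n i := by
    intro i
    have hci : Nat.card (Multiplicative (ZMod (n i))) = n i := by
      rw [Nat.card_congr Multiplicative.toAdd, Nat.card_zmod]
    have h1 : n i ∣ Nat.card A := by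
      rw [Nat.card_congr e.toEquiv, Nat.card_pi, ← hci]
      exact Finset.dvd_prod_of_mem _ (Finset.mem_univ i)
    obtain ⟨k, hk⟩ := IsPGroup.iff_card.1 hA
    rw [hk] at h1
    obtain ⟨j, -, hj⟩ := (Nat.dvd_prime_pow hp).1 h1
    rcases Nat.eq_zero_or_pos j with rfl | hj0
    · have := hn i; simp [hj] at this
    · exact hj ▸ dvd_pow_self p hj0.ne'
  obtain ⟨i, j, hij⟩ : ∃ i j : ι, i ≠ j := by
    by_contra h
    push Not at h
    haveI : Subsingleton ι := ⟨h⟩
    apply hnc
    rcases isEmpty_or_nonempty ι with he | ⟨⟨i⟩⟩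
    · haveI := e.toEquiv.subsingleton
      exact isCyclic_of_subsingleton
    · haveI : ∀ i, IsCyclic (Multiplicative (ZMod (n i))) := fun i => inferInstance
      letI : Unique ι := uniqueOfSubsingleton i
      exact ((e.trans (MulEquiv.piUnique fun i => Multiplicative (ZMod (n i)))).isCyclic).2
        inferInstance
  refine ⟨fun a => ZMod.castHom (hdvd i) (ZMod p) (e a i).toAdd,
    fun a => ZMod.castHom (hdvd j) (ZMod p) (e a j).toAdd, fun a b => by
      simp only [map_mul, Pi.mul_apply, toAdd_mul, map_add], fun a b => by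
      simp only [map_mul, Pi.mul_apply, toAdd_mul, map_add],
    fun c d => ?_⟩
  obtain ⟨c', hc⟩ := ZMod.castHom_surjective (hdvd i) c
  obtain ⟨d', hd⟩ := ZMod.castHom_surjective (hdvd j) d
  refine ⟨e.symm (Function.update (Function.update 1 i (Multiplicative.ofAdd c')) j
    (Multiplicative.ofAdd d')), ?_, ?_⟩
  · simp [hij, hc]
  · simp [hd]

/-- The case in which the non-central element of the normaliser fixes a non-identity element. -/
theorem pResidual_ne_top_of_fixed (P : Sylow p G)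
    (hab : IsMulCommutative (P : Subgroup G)) {x : G} (hx : x ∈ (P : Subgroup G)) (hx1 : x ≠ 1)
    (hfix : ∀ n ∈ Subgroup.normalizer ((P : Subgroup G) : Set G), n * x * n⁻¹ = x) :
    Cfsg.pResidual p G ≠ ⊤ := by
  intro htop
  letI : CommGroup (P : Subgroup G) :=
    { (inferInstance : Group (P : Subgroup G)) with mul_comm := hab.is_comm.comm }
  set f := MonoidHom.transfer (MonoidHom.id (P : Subgroup G)) with hf
  have key : ∀ (k : ℕ) (g₀ : G), g₀⁻¹ * x ^ k * g₀ ∈ (P : Subgroup G) →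
      g₀⁻¹ * x ^ k * g₀ = x ^ k := by
    intro k g₀ hg₀
    obtain ⟨n, hn, he⟩ := Transfer.controlsFusion_normalizer_of_abelian P hab (x ^ k)
      ((P : Subgroup G).pow_mem hx k) g₀⁻¹ (by rwa [inv_inv])
    rw [inv_inv] at he
    rw [← he]
    show n * x ^ k * n⁻¹ = x ^ k
    rw [← conj_pow, hfix n hn]
  have h1 : f x = 1 := by
    have := Transfer.pResidual_le_ker P.2 f
    rw [htop] at this
    exact this (Subgroup.mem_top x)
  rw [hf, MonoidHom.transfer_eq_pow _ x key] at h1
  have h2 : x ^ (P : Subgroup G).index = 1 := by simpa using congrArg Subtype.val h1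
  obtain ⟨k, hk⟩ := Element.orderOf_eq_pow_of_mem_isPGroup P.2 hx
  have h3 : orderOf x ∣ (P : Subgroup G).index := orderOf_dvd_of_pow_eq_one h2
  rw [hk] at h3
  rcases Nat.eq_zero_or_pos k with rfl | hk0
  · exact hx1 (orderOf_eq_one_iff.1 (by rw [hk, pow_zero]))
  · exact P.not_dvd_index ((dvd_pow_self p hk0.ne').trans h3)

/-- The inverting case. -/
theorem pLengthLE_of_inverting (hp : p ≠ 2) (P : Sylow p G)
    (hab : IsMulCommutative (P : Subgroup G)) (hnc : ¬ IsCyclic (P : Subgroup G))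
    (hpm : ∀ n ∈ Subgroup.normalizer ((P : Subgroup G) : Set G),
      (∀ x ∈ (P : Subgroup G), n * x * n⁻¹ = x) ∨ ∀ x ∈ (P : Subgroup G), n * x * n⁻¹ = x⁻¹)
    (t : G) (ht : ∀ x ∈ (P : Subgroup G), t * x * t⁻¹ = x⁻¹) :
    Cfsg.PLengthLE p 1 G := by
  classical
  have hpp : p.Prime := Fact.out
  set N := Cfsg.pPrimeCore p G with hN
  haveI hNn : N.Normal := inferInstance
  have hNc : (Nat.card N).Coprime p := PSolv.coprime_card_pPrimeCore p G
  set π := QuotientGroup.mk' N with hπ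
  have hsurj : Function.Surjective π := QuotientGroup.mk'_surjective N
  set S : Sylow p (G ⧸ N) := P.mapSurjective hsurj with hS
  have hSmem : ∀ y, y ∈ (S : Subgroup (G ⧸ N)) ↔ ∃ x ∈ (P : Subgroup G), π x = y := fun y => Iff.rfl
  have hcomm : ∀ a ∈ (S : Subgroup (G ⧸ N)), ∀ b ∈ (S : Subgroup (G ⧸ N)), a * b = b * a := by
    intro a ha b hb
    obtain ⟨x, hx, rfl⟩ := (hSmem a).1 ha
    obtain ⟨y, hy, rfl⟩ := (hSmem b).1 hb
    rw [← map_mul, ← map_mul]
    exact congrArg π (congrArg Subtype.val (hab.is_comm.comm (⟨x, hx⟩ : (P : Subgroup G)) ⟨y, hy⟩))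
  have hpm' : ∀ g ∈ Subgroup.normalizer ((S : Subgroup (G ⧸ N)) : Set (G ⧸ N)),
      (∀ y ∈ (S : Subgroup (G ⧸ N)), g * y * g⁻¹ = y) ∨
        ∀ y ∈ (S : Subgroup (G ⧸ N)), g * y * g⁻¹ = y⁻¹ := by
    intro g hg
    obtain ⟨n, rfl⟩ := hsurj g
    set H := ((S : Subgroup (G ⧸ N))).comap π with hH
    have hPH : (P : Subgroup G) ≤ H := fun x hx => ⟨x, hx, rfl⟩
    set Q : Sylow p G := n • P with hQ
    have hQH : (Q : Subgroup G) ≤ H := by
      rintro _ ⟨x, hx, rfl⟩
      show π (n * x * n⁻¹) ∈ (S : Subgroup (G ⧸ N))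
      rw [map_mul, map_mul, map_inv]
      exact (Subgroup.mem_normalizer_iff.1 hg (π x)).1 ⟨x, hx, rfl⟩
    obtain ⟨h, hh⟩ := MulAction.exists_smul_eq H (Q.subtype hQH) (P.subtype hPH)
    rw [Sylow.smul_subtype] at hh
    have hh' : (h : G) • Q = P := Sylow.subtype_injective hh
    have hm : (h : G) * n ∈ Subgroup.normalizer ((P : Subgroup G) : Set G) :=
      Sylow.smul_eq_iff_mem_normalizer.1 (by rw [mul_smul, ← hQ]; exact hh')
    have hh1 : π (h : G) ∈ (S : Subgroup (G ⧸ N)) := h.2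
    have act : ∀ x ∈ (P : Subgroup G), π n * π x * (π n)⁻¹
        = (π h)⁻¹ * π ((h : G) * n * x * ((h : G) * n)⁻¹) * π h := fun x _ => by
      simp only [map_mul, map_inv]; group
    rcases hpm _ hm with e | e
    · left
      intro y hy
      obtain ⟨x, hx, rfl⟩ := (hSmem y).1 hy
      rw [act x hx, e x hx, mul_assoc, hcomm _ ((hSmem _).2 ⟨x, hx, rfl⟩) _ hh1,
        inv_mul_cancel_left]
    · right
      intro y hy
      obtain ⟨x, hx, rfl⟩ := (hSmem y).1 hy
      rw [act x hx, e x hx, map_inv, mul_assoc,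
        hcomm _ (inv_mem ((hSmem _).2 ⟨x, hx, rfl⟩)) _ hh1, inv_mul_cancel_left]
  have ht' : ∀ y ∈ (S : Subgroup (G ⧸ N)), π t * y * (π t)⁻¹ = y⁻¹ := by
    intro y hy
    obtain ⟨x, hx, rfl⟩ := (hSmem y).1 hy
    rw [← map_inv, ← map_mul, ← map_mul, ht x hx, map_inv]
  have hinj : Function.Injective (π.comp (P : Subgroup G).subtype) := by
    rw [injective_iff_map_eq_one]
    intro x hx
    have hxN : (x : G) ∈ N := (QuotientGroup.eq_one_iff _).1 hx
    obtain ⟨k, hk⟩ := Element.orderOf_eq_pow_of_mem_isPGroup P.2 x.2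
    have : orderOf (x : G) = 1 := by
      rcases Nat.eq_zero_or_pos k with rfl | hk0
      · rw [hk, pow_zero]
      · exfalso
        have h1 : (p ^ k).Coprime p :=
          hNc.coprime_dvd_left (hk ▸ Subgroup.orderOf_dvd_natCard _ hxN)
        rw [Nat.coprime_pow_left_iff hk0, Nat.coprime_self] at h1
        exact hpp.ne_one h1
    exact Subtype.ext (orderOf_eq_one_iff.1 this)
  letI : CommGroup (S : Subgroup (G ⧸ N)) :=
    { (inferInstance : Group (S : Subgroup (G ⧸ N))) with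
      mul_comm := fun a b => Subtype.ext (hcomm a a.2 b b.2) }
  have hnc' : ¬ IsCyclic (S : Subgroup (G ⧸ N)) := by
    intro hc
    apply hnc
    let φ : (P : Subgroup G) →* (S : Subgroup (G ⧸ N)) :=
      (π.comp (P : Subgroup G).subtype).codRestrict _ (fun x => ⟨x, x.2, rfl⟩)
    exact isCyclic_of_injective φ fun a b hab => hinj (congrArg Subtype.val hab)
  obtain ⟨f₁, f₂, hf₁, hf₂, hf⟩ := exists_coordinates S.2 hnc'
  let K : Core p (G ⧸ N) :=
    { P := S
      sylow := S
      sylow_eq := rfl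
      comm := hcomm
      pm := hpm'
      t := π t
      ht := ht'
      φ₁ := f₁
      φ₂ := f₂
      φ₁_mul := hf₁
      φ₂_mul := hf₂
      surj := hf
      odd := hp }
  have hnorm : (S : Subgroup (G ⧸ N)).Normal := K.normal fun V hV hVp => by
    have hle : V ≤ Cfsg.pPrimeCore p (G ⧸ N) :=
      le_sSup ⟨hV, (hpp.coprime_iff_not_dvd.2 hVp).symm⟩
    rwa [PSolv.pPrimeCore_quotient_eq_bot, le_bot_iff] at hle
  haveI := hnorm
  have h1 : Cfsg.PLengthLE p (1 + 0) (G ⧸ N) :=
    PLength.pLengthLE_add (S : Subgroup (G ⧸ N)) (PLength.pLengthLE_of_isPGroup S.2)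
      (PLength.pLengthLE_zero_of_coprime (by
        rw [← Subgroup.index_eq_card]
        exact (hpp.coprime_iff_not_dvd.2 S.not_dvd_index).symm))
  exact PLength.pLengthLE_add N (PLength.pLengthLE_zero_of_coprime hNc) h1

end Cfsg.Agent.InertTwo
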