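import Cfsg.Agent.InertTwo.Setting
import Cfsg.Agent.InertTwo.GenChar
import Cfsg.Agent.Transfer.Frobenius

/-!
# The sections of the non-identity elements of `P`
-/

set_option autoImplicit false
set_option linter.unusedSectionVars false

noncomputable section

namespace Cfsg.Agent.InertTwo

open scoped ComplexConjugate Classical

universe u

variable {p : ℕ} {G : Type u} [Group G] [Finite G] [Fact p.Prime]

local instance instSections1 : Fintype G := Fintype.ofFinite G

theorem pPart_eq_one_iff (g : G) : Element.pPart p g = 1 ↔ ¬ p ∣ orderOf g := by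
  have hp : p.Prime := Fact.out
  refine ⟨fun h => ?_, fun h => (Element.pPart_eq_one hp (hp.coprime_iff_not_dvd.2 h).symm).1⟩
  have h1 := Element.pPart_mul_pComplPart p g
  rw [h, one_mul] at h1
  rw [← h1]
  exact hp.coprime_iff_not_dvd.1 (Element.coprime_orderOf_pComplPart hp g).symm

namespace Core

variable (K : Core p G)

local instance instSections2 : Fintype K.P := Fintype.ofFinite _

theorem exists_rep (g : G) : ∃ r : G, r * Element.pPart p g * r⁻¹ ∈ K.P :=
  K.mem_P_of_p_element (Element.orderOf_pPart_eq_pow Fact.out g)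

/-- A representative in `P` of the class of the `p`-part. -/
def rep (g : G) : K.P := ⟨_, (K.exists_rep g).choose_spec⟩

/-- The elements of order prime to `p` in the centraliser of `x ∈ P#` form a subgroup. -/
theorem exists_compl {x : G} (hx : x ∈ K.P) (hx1 : x ≠ 1) :
    ∃ V : Subgroup G, (∀ v, v ∈ V ↔
        v ∈ Subgroup.centralizer ({x} : Set G) ∧ (orderOf v).Coprime p) ∧
      Nat.card V * Nat.card K.P = Nat.card (Subgroup.centralizer ({x} : Set G)) := by
  set C := Subgroup.centralizer ({x} : Set G) with hC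
  have hPC : K.P ≤ C := fun a ha =>
    Subgroup.mem_centralizer_singleton_iff.2 (K.comm a ha x hx)
  let S : Sylow p C := K.sylow.subtype (K.sylow_eq ▸ hPC)
  have hS : ∀ w : C, w ∈ (S : Subgroup C) ↔ (w : G) ∈ K.P := fun w => by
    simp [S, Sylow.coe_subtype, Subgroup.mem_subgroupOf, ← K.sylow_eq]
  have hN : Subgroup.normalizer ((S : Subgroup C) : Set C)
      ≤ Subgroup.centralizer ((S : Subgroup C) : Set C) := by
    intro g hg
    have hg' : (g : G) ∈ Subgroup.normalizer (K.P : Set G) := by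
      refine Subgroup.mem_normalizer_iff.2 fun a => ⟨fun ha => ?_, fun ha => ?_⟩
      · exact (hS _).1 ((Subgroup.mem_normalizer_iff.1 hg ⟨a, hPC ha⟩).1 ((hS _).2 ha))
      · have haC : a ∈ C := by
          have h1 := C.mul_mem (C.mul_mem (C.inv_mem g.2) (hPC ha)) g.2
          simpa [mul_assoc] using h1
        exact (hS ⟨a, haC⟩).1 ((Subgroup.mem_normalizer_iff.1 hg ⟨a, haC⟩).2 ((hS _).2 ha))
    rcases K.pm g hg' with h | h
    · refine Subgroup.mem_centralizer_iff.2 fun a ha => Subtype.ext ?_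
      have := h a ((hS a).1 ha)
      simp only [Subgroup.coe_mul]
      calc (a : G) * g = ((g : G) * a * (g : G)⁻¹) * g := by rw [this]
        _ = g * a := by group
    · exfalso
      apply K.sq_ne_one hx hx1
      rw [← h x hx, Subgroup.mem_centralizer_singleton_iff.1 g.2, mul_inv_cancel_right]
  have hc := Transfer.hasNormalPComplement_of_normalizer_le_centralizer S hN
  obtain ⟨N, hNn, hNc⟩ := (Transfer.hasNormalPComplement_iff_exists S).1 hc
  haveI := hNn
  refine ⟨N.map C.subtype, fun v => ⟨?_, fun hv => ?_⟩, ?_⟩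
  · rintro ⟨w, hw, rfl⟩
    refine ⟨w.2, ?_⟩
    show (orderOf (w : G)).Coprime p
    rw [Subgroup.orderOf_coe]
    exact (Transfer.mem_normal_p_complement_iff S N hNc w).1 hw
  · refine ⟨⟨v, hv.1⟩, (Transfer.mem_normal_p_complement_iff S N hNc _).2 ?_, rfl⟩
    rw [Subgroup.orderOf_mk]; exact hv.2
  · rw [Subgroup.card_map_of_injective C.subtype_injective, ← hNc.card_mul]
    congr 1
    rw [show (S : Subgroup C) = K.P.subgroupOf C from SetLike.ext fun w => hS w,
      Nat.card_congr (Subgroup.subgroupOfEquivOfLe hPC).toEquiv]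

theorem pPart_mul_of {x v : G} (hx : x ∈ K.P) (hv : v ∈ Subgroup.centralizer ({x} : Set G))
    (hvp : (orderOf v).Coprime p) : Element.pPart p (x * v) = x := by
  obtain ⟨k, hk⟩ := Element.orderOf_eq_pow_of_mem_isPGroup K.isPGroup hx
  exact (Element.eq_pPart Fact.out
    (Subgroup.mem_centralizer_singleton_iff.1 hv).symm rfl hk hvp).1.symm

/-- The sum of `F` over the elements with `p`-part `x`. -/
def fib (_K : Core p G) (F : G → ℂ) (x : G) : ℂ :=
  ∑ g ∈ Finset.univ.filter (fun g => Element.pPart p g = x), F g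

theorem fib_conj {F : G → ℂ} (hF : Cfsg.IsClassFunction G F) (r x : G) :
    K.fib F (r * x * r⁻¹) = K.fib F x := by
  refine (Finset.sum_equiv (MulAut.conj r).toEquiv (fun g => ?_) fun g _ => (hF g r).symm).symm
  simp only [Finset.mem_filter, Finset.mem_univ, true_and]
  show _ ↔ Element.pPart p (r * g * r⁻¹) = r * x * r⁻¹
  rw [(Element.pPart_conj Fact.out r g).1]
  constructor
  · rintro rfl; rfl
  · intro h; exact mul_left_cancel (mul_right_cancel h)

theorem card_conj_eq (x y : G) (h : ∃ r : G, r * x * r⁻¹ = y) :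
    (Finset.univ.filter fun r : G => r * x * r⁻¹ = y).card
      = Nat.card (Subgroup.centralizer ({x} : Set G)) := by
  obtain ⟨r₀, hr₀⟩ := h
  rw [Nat.card_eq_fintype_card, ← Finset.card_univ]
  refine Finset.card_bij (fun r hr => ⟨r₀⁻¹ * r, ?_⟩) (fun r hr => Finset.mem_univ _)
    (fun a _ b _ hab => mul_left_cancel (congrArg Subtype.val hab)) fun w _ => ⟨r₀ * w, ?_, ?_⟩
  · rw [Finset.mem_filter] at hr
    rw [Subgroup.mem_centralizer_singleton_iff]
    have e : r * x = y * r := by rw [← hr.2]; group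
    have e0 : r₀⁻¹ * y = x * r₀⁻¹ := by rw [← hr₀]; group
    rw [mul_assoc, e, ← mul_assoc, e0, mul_assoc]
  · simp only [Finset.mem_filter, Finset.mem_univ, true_and]
    have hw := Subgroup.mem_centralizer_singleton_iff.1 w.2
    rw [show r₀ * (w : G) * x * (r₀ * (w : G))⁻¹
      = r₀ * ((w : G) * x) * (w : G)⁻¹ * r₀⁻¹ by group, hw, ← hr₀]
    group
  · exact Subtype.ext (by simp)

/-- Sums over the `p`-singular elements. -/
theorem sum_singular {F : G → ℂ} (hF : Cfsg.IsClassFunction G F) :
    ∑ g ∈ Finset.univ.filter (fun g => Element.pPart p g ≠ 1), F g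
      = (Nat.card G : ℂ) / 2 * ∑ x ∈ Finset.univ.filter (fun x : K.P => x ≠ 1),
          K.fib F x / Nat.card (Subgroup.centralizer ({(x : G)} : Set G)) := by
  set T := Finset.univ.filter (fun x : K.P => x ≠ 1) with hT
  set U := Finset.univ.filter (fun v : G => v ≠ 1 ∧ ∃ k, orderOf v = p ^ k) with hU
  set cc : G → ℂ := fun v => (Nat.card (Subgroup.centralizer ({v} : Set G)) : ℂ) with hcc
  have hcc0 : ∀ v, cc v ≠ 0 := fun v => Nat.cast_ne_zero.2 Nat.card_pos.ne'
  have hccc : ∀ r v : G, cc (r * v * r⁻¹) = cc v := by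
    intro r v
    simp only [cc]
    rw [← card_conj_eq (r * v * r⁻¹) (r * v * r⁻¹) ⟨1, by simp⟩,
      ← card_conj_eq v v ⟨1, by simp⟩]
    norm_cast
    refine (Finset.card_equiv (MulAut.conj r).toEquiv fun g => ?_).symm
    simp only [Finset.mem_filter, Finset.mem_univ, true_and]
    show _ ↔ r * g * r⁻¹ * (r * v * r⁻¹) * (r * g * r⁻¹)⁻¹ = r * v * r⁻¹
    rw [show r * g * r⁻¹ * (r * v * r⁻¹) * (r * g * r⁻¹)⁻¹ = r * (g * v * g⁻¹) * r⁻¹ by group]
    constructor
    · intro h; rw [h]
    · intro h; exact mul_left_cancel (mul_right_cancel h)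
  have h1 : ∑ g ∈ Finset.univ.filter (fun g => Element.pPart p g ≠ 1), F g
      = ∑ v ∈ U, K.fib F v := by
    rw [← Finset.sum_fiberwise_of_maps_to (s := Finset.univ.filter
      (fun g => Element.pPart p g ≠ 1)) (t := U) (g := fun g => Element.pPart p g)]
    · refine Finset.sum_congr rfl fun v hv => Finset.sum_congr ?_ fun _ _ => rfl
      rw [hU, Finset.mem_filter] at hv
      ext g
      simp only [Finset.mem_filter, Finset.mem_univ, true_and]
      exact ⟨fun h => h.2, fun h => ⟨h ▸ hv.2.1, h⟩⟩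
    · intro g hg
      rw [Finset.mem_filter] at hg
      simp only [hU, Finset.mem_filter, Finset.mem_univ, true_and]
      exact ⟨hg.2, _, Element.orderOf_pPart_eq_pow Fact.out g⟩
  have h2 : ∀ v ∈ U, (∑ x ∈ T,
      ((Finset.univ.filter fun r : G => r * (x : G) * r⁻¹ = v).card : ℂ)) = 2 * cc v := by
    intro v hv
    rw [hU, Finset.mem_filter] at hv
    obtain ⟨k, hk⟩ := hv.2.2
    obtain ⟨r, hr⟩ := K.mem_P_of_p_element hk
    set x : K.P := ⟨_, hr⟩ with hx
    have hx1 : (x : G) ≠ 1 := fun h => hv.2.1 (conj_eq_one_iff.1 h)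
    have hval : r⁻¹ * (x : G) * (r⁻¹)⁻¹ = v := by rw [hx]; group
    have hne : x⁻¹ ≠ x := fun h => K.sq_ne_one x.2 hx1 (congrArg Subtype.val h)
    have hsub : ({x, x⁻¹} : Finset K.P) ⊆ T := by
      intro y hy
      simp only [Finset.mem_insert, Finset.mem_singleton] at hy
      rw [hT, Finset.mem_filter]
      refine ⟨Finset.mem_univ _, ?_⟩
      rcases hy with rfl | rfl
      · exact fun h => hx1 (congrArg Subtype.val h)
      · exact fun h => hx1 (congrArg Subtype.val (inv_eq_one.1 h))
    rw [← Finset.sum_subset hsub]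
    · rw [Finset.sum_pair hne.symm, two_mul]
      congr 1
      · rw [card_conj_eq _ _ ⟨r⁻¹, hval⟩, ← hval, hccc]
      · have hinv : ∃ w : G, w * ((x⁻¹ : K.P) : G) * w⁻¹ = v :=
          ⟨r⁻¹ * K.t, by
            rw [← hval, Subgroup.coe_inv]
            rw [show r⁻¹ * K.t * (x : G)⁻¹ * (r⁻¹ * K.t)⁻¹
              = r⁻¹ * (K.t * (x : G)⁻¹ * K.t⁻¹) * r⁻¹⁻¹ by group,
              K.ht _ (inv_mem x.2), inv_inv]⟩
        obtain ⟨w, hw⟩ := hinv
        rw [card_conj_eq _ _ ⟨w, hw⟩, ← hw, hccc]
    · intro y _ hy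
      rw [Nat.cast_eq_zero, Finset.card_eq_zero, Finset.filter_eq_empty_iff]
      intro w _ hw
      apply hy
      simp only [Finset.mem_insert, Finset.mem_singleton]
      have : (r * w) * (y : G) * (r * w)⁻¹ = (x : G) := by
        rw [hx]; show _ = r * v * r⁻¹; rw [← hw]; group
      rcases K.eq_or_inv y.2 x.2 this with e | e
      · exact Or.inl (Subtype.ext e.symm)
      · exact Or.inr (Subtype.ext (by rw [Subgroup.coe_inv, e, inv_inv]))
  have h3 : ∀ x ∈ T, ∑ v ∈ U, ((Finset.univ.filter fun r : G => r * (x : G) * r⁻¹ = v).card : ℂ)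
      * (K.fib F v / cc v) = (Nat.card G : ℂ) * (K.fib F x / cc x) := by
    intro x hx
    rw [hT, Finset.mem_filter] at hx
    have : ∑ r : G, (K.fib F (r * (x : G) * r⁻¹) / cc (r * (x : G) * r⁻¹))
        = (Nat.card G : ℂ) * (K.fib F x / cc x) := by
      simp only [K.fib_conj hF, hccc, Finset.sum_const, Finset.card_univ, nsmul_eq_mul,
        Nat.card_eq_fintype_card]
    rw [← this, ← Finset.sum_fiberwise_of_maps_to (s := (Finset.univ : Finset G)) (t := U)
      (g := fun r : G => r * (x : G) * r⁻¹)]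
    · refine Finset.sum_congr rfl fun v _ => ?_
      rw [← nsmul_eq_mul, ← Finset.sum_const]
      exact Finset.sum_congr rfl fun r hr => by rw [(Finset.mem_filter.1 hr).2]
    · intro r _
      simp only [hU, Finset.mem_filter, Finset.mem_univ, true_and]
      obtain ⟨k, hk⟩ := Element.orderOf_eq_pow_of_mem_isPGroup K.isPGroup x.2
      refine ⟨fun h => hx.2 (Subtype.ext (conj_eq_one_iff.1 h)), k, ?_⟩
      rw [← hk]
      exact (MulAut.conj r).orderOf_eq (x : G)
  rw [h1, Finset.mul_sum]
  have h4 : (2 : ℂ) * ∑ v ∈ U, K.fib F v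
      = (2 : ℂ) * ∑ x ∈ T, (Nat.card G : ℂ) / 2 * (K.fib F x / cc x) := by
    rw [Finset.mul_sum, Finset.mul_sum]
    calc ∑ v ∈ U, 2 * K.fib F v
        = ∑ v ∈ U, ∑ x ∈ T, ((Finset.univ.filter fun r : G => r * (x : G) * r⁻¹ = v).card : ℂ)
            * (K.fib F v / cc v) := by
          refine Finset.sum_congr rfl fun v hv => ?_
          rw [← Finset.sum_mul, h2 v hv]
          field_simp [hcc0 v]
      _ = ∑ x ∈ T, (Nat.card G : ℂ) * (K.fib F x / cc x) := by
          rw [Finset.sum_comm]
          exact Finset.sum_congr rfl h3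
      _ = _ := Finset.sum_congr rfl fun x _ => by ring
  exact mul_left_cancel₀ two_ne_zero h4

theorem fib_eq_of_const {x : G} (hx : x ∈ K.P) (hx1 : x ≠ 1) {F : G → ℂ} {c : ℂ}
    (h : ∀ g, Element.pPart p g = x → F g = c) :
    K.fib F x = c * (Nat.card (Subgroup.centralizer ({x} : Set G)) : ℂ) / (Nat.card K.P : ℂ) := by
  obtain ⟨V, hV, hcard⟩ := K.exists_compl hx hx1
  rw [fib, Finset.sum_congr rfl fun g hg => h g (Finset.mem_filter.1 hg).2, Finset.sum_const,
    nsmul_eq_mul, ← hcard, Nat.cast_mul, ← mul_assoc,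
    mul_div_cancel_right₀ _ (Nat.cast_ne_zero.2 Nat.card_pos.ne'), mul_comm c]
  congr 2
  rw [Nat.card_eq_fintype_card, ← Finset.card_univ]
  refine Finset.card_bij (fun g hg => ⟨x⁻¹ * g, (hV _).2 ?_⟩) (fun g hg => Finset.mem_univ _)
    (fun a _ b _ hab => mul_left_cancel (congrArg Subtype.val hab)) fun w _ => ⟨x * w, ?_, ?_⟩
  · rw [Finset.mem_filter] at hg
    have e : x⁻¹ * g = Element.pComplPart p g := by
      rw [← hg.2]
      nth_rw 2 [← Element.pPart_mul_pComplPart p g]
      group
    refine ⟨?_, e ▸ Element.coprime_orderOf_pComplPart Fact.out g⟩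
    rw [e, Subgroup.mem_centralizer_singleton_iff, ← hg.2]
    exact (Element.commute_pPart_pComplPart p g).symm
  · simp only [Finset.mem_filter, Finset.mem_univ, true_and]
    exact K.pPart_mul_of hx ((hV _).1 w.2).1 ((hV _).1 w.2).2
  · exact Subtype.ext (by simp)

/-- Sums over the `p`-singular elements of a function constant on sections. -/
theorem sum_singular_const {F : G → ℂ} (hF : Cfsg.IsClassFunction G F) (c : K.P → ℂ)
    (h : ∀ x : K.P, x ≠ 1 → ∀ g : G, Element.pPart p g = (x : G) → F g = c x) :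
    ∑ g ∈ Finset.univ.filter (fun g => Element.pPart p g ≠ 1), F g
      = (Nat.card G : ℂ) / (2 * Nat.card K.P)
        * ∑ x ∈ Finset.univ.filter (fun x : K.P => x ≠ 1), c x := by
  rw [K.sum_singular hF, Finset.mul_sum, Finset.mul_sum]
  refine Finset.sum_congr rfl fun x hx => ?_
  rw [Finset.mem_filter] at hx
  rw [K.fib_eq_of_const x.2 (fun e => hx.2 (Subtype.ext e)) (h x hx.2)]
  have : (Nat.card (Subgroup.centralizer ({(x : G)} : Set G)) : ℂ) ≠ 0 :=
    Nat.cast_ne_zero.2 Nat.card_pos.ne'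
  field_simp

theorem apply_rep {F : G → ℂ} (hF : Cfsg.IsClassFunction G F) (g : G) :
    ∃ r : G, Element.pPart p (r * g * r⁻¹) = K.rep g ∧ F (r * g * r⁻¹) = F g :=
  ⟨(K.exists_rep g).choose, (Element.pPart_conj Fact.out _ g).1, hF _ _⟩

theorem rep_eq_or_inv {g : G} {x : K.P} {r : G} (h : r * Element.pPart p g * r⁻¹ = x) :
    K.rep g = x ∨ K.rep g = x⁻¹ := by
  set r₀ := (K.exists_rep g).choose
  have e : (r₀ * r⁻¹) * (x : G) * (r₀ * r⁻¹)⁻¹ = K.rep g := by
    rw [← h]; show _ = r₀ * _ * r₀⁻¹; group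
  rcases K.eq_or_inv x.2 (K.rep g).2 e with e' | e'
  · exact Or.inl (Subtype.ext e')
  · exact Or.inr (Subtype.ext e')

theorem rep_eq_one {g : G} (hg : Element.pPart p g = 1) : K.rep g = 1 :=
  Subtype.ext (by simp [rep, hg])

theorem rep_ne_one {g : G} (hg : Element.pPart p g ≠ 1) : K.rep g ≠ 1 :=
  fun h => hg (conj_eq_one_iff.1 (congrArg Subtype.val h))

/-- The lift to `G` of an even function on `P`. -/
def lift (a : K.P → ℂ) : G → ℂ := fun g => a (K.rep g)

theorem lift_eq {a : K.P → ℂ} (heven : ∀ x, a x⁻¹ = a x) {g : G} {x : K.P} {r : G}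
    (h : r * Element.pPart p g * r⁻¹ = x) : K.lift a g = a x := by
  rcases K.rep_eq_or_inv h with e | e <;> simp [lift, e, heven]

theorem lift_isClassFunction {a : K.P → ℂ} (heven : ∀ x, a x⁻¹ = a x) :
    Cfsg.IsClassFunction G (K.lift a) := by
  intro g s
  refine K.lift_eq heven (r := (K.exists_rep g).choose * s⁻¹) ?_
  rw [(Element.pPart_conj Fact.out s g).1]
  show _ = (K.exists_rep g).choose * Element.pPart p g * (K.exists_rep g).choose⁻¹
  group

theorem lift_genChar {a : K.P → ℂ} (heven : ∀ x, a x⁻¹ = a x)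
    (ha : Cfsg.IsGeneralizedCharacter K.P a) : Cfsg.IsGeneralizedCharacter G (K.lift a) := by
  refine genChar_of_pPart K.sylow (K.lift_isClassFunction heven) (fun g => ?_) ?_
  · refine K.lift_eq heven (r := (K.exists_rep (Element.pPart p g)).choose) ?_
    have h2 : Element.pPart p (Element.pPart p g) = Element.pPart p g :=
      (Element.pPart_eq_self Fact.out (Element.orderOf_pPart_eq_pow Fact.out g)).1
    show _ = (K.exists_rep (Element.pPart p g)).choose * _ * _
    exact congrArg (fun z => (K.exists_rep (Element.pPart p g)).choose * z *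
      ((K.exists_rep (Element.pPart p g)).choose)⁻¹) h2.symm
  · let i : (K.sylow : Subgroup G) →* K.P :=
      (K.sylow : Subgroup G).subtype.codRestrict K.P (fun s => K.sylow_eq ▸ s.2)
    have e : (fun s : (K.sylow : Subgroup G) => K.lift a s) = a ∘ i := by
      funext s
      refine K.lift_eq heven (r := 1) ?_
      obtain ⟨k, hk⟩ := Element.orderOf_eq_pow_of_mem_isPGroup K.sylow.2 s.2
      rw [(Element.pPart_eq_self Fact.out hk).1]
      simp [i]
    rw [e]
    exact Char.isGeneralizedCharacter_comp ha i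

theorem sum_lift_mul {a : K.P → ℂ} (heven : ∀ x, a x⁻¹ = a x) (ha1 : a 1 = 0) {F : G → ℂ}
    (hF : Cfsg.IsClassFunction G F) :
    ∑ g : G, K.lift a g * F g = (Nat.card G : ℂ) / 2 *
      ∑ x : K.P, a x * (K.fib F x / Nat.card (Subgroup.centralizer ({(x : G)} : Set G))) := by
  have hc : Cfsg.IsClassFunction G (fun g => K.lift a g * F g) := fun g h => by
    show K.lift a _ * F _ = _
    rw [K.lift_isClassFunction heven g h, hF g h]
  rw [← Finset.sum_filter_add_sum_filter_not Finset.univ (fun g => Element.pPart p g ≠ 1),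
    K.sum_singular hc]
  rw [Finset.sum_eq_zero (s := Finset.univ.filter fun g => ¬ Element.pPart p g ≠ 1), add_zero]
  · congr 1
    rw [Finset.sum_filter_of_ne]
    · refine Finset.sum_congr rfl fun x _ => ?_
      rw [← mul_div_assoc, fib, fib, Finset.mul_sum]
      congr 1
      refine Finset.sum_congr rfl fun g hg => ?_
      rw [K.lift_eq heven (r := 1) (x := x) (by rw [(Finset.mem_filter.1 hg).2]; simp)]
    · intro x _ hx h1
      apply hx
      rw [div_eq_zero_iff]
      left
      refine Finset.sum_eq_zero fun g hg => ?_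
      rw [K.lift_eq heven (r := 1) (x := x) (by rw [(Finset.mem_filter.1 hg).2]; simp), h1, ha1,
        zero_mul]
  · intro g hg
    rw [Finset.mem_filter, not_not] at hg
    rw [lift, K.rep_eq_one hg.2, ha1, zero_mul]

end Core

end Cfsg.Agent.InertTwo
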