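import Cfsg.Agent.Transfer.Fusion
import Cfsg.Agent.Lib.Element

/-!
# Abelian Sylow subgroups of inertial index two: the setting

`P` is an abelian Sylow `p`-subgroup, every element of `N(P)` centralises or inverts `P`, the
element `t` inverts `P`, and `φ₁, φ₂` map `P` onto two coordinates.
-/

set_option autoImplicit false

namespace Cfsg.Agent.InertTwo

universe u

structure Core (p : ℕ) (G : Type u) [Group G] where
  P : Subgroup G
  sylow : Sylow p G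
  sylow_eq : (sylow : Subgroup G) = P
  comm : ∀ a ∈ P, ∀ b ∈ P, a * b = b * a
  pm : ∀ g ∈ Subgroup.normalizer (P : Set G),
    (∀ x ∈ P, g * x * g⁻¹ = x) ∨ ∀ x ∈ P, g * x * g⁻¹ = x⁻¹
  t : G
  ht : ∀ x ∈ P, t * x * t⁻¹ = x⁻¹
  φ₁ : P → ZMod p
  φ₂ : P → ZMod p
  φ₁_mul : ∀ a b : P, φ₁ (a * b) = φ₁ a + φ₁ b
  φ₂_mul : ∀ a b : P, φ₂ (a * b) = φ₂ a + φ₂ b
  surj : ∀ c d : ZMod p, ∃ a : P, φ₁ a = c ∧ φ₂ a = d
  odd : p ≠ 2

variable {p : ℕ} {G : Type u} [Group G] [Finite G] [Fact p.Prime] (K : Core p G)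

namespace Core

theorem isPGroup : IsPGroup p K.P := K.sylow_eq ▸ K.sylow.2

theorem not_dvd_index : ¬ p ∣ K.P.index := K.sylow_eq ▸ K.sylow.not_dvd_index

theorem sq_ne_one {x : G} (hx : x ∈ K.P) (hx1 : x ≠ 1) : x⁻¹ ≠ x := by
  intro h
  have h2 : x ^ 2 = 1 := by rw [sq]; nth_rw 1 [← h]; group
  have hdvd : orderOf x ∣ 2 := orderOf_dvd_of_pow_eq_one h2
  obtain ⟨k, hk⟩ := Element.orderOf_eq_pow_of_mem_isPGroup K.isPGroup hx
  have hp : p.Prime := Fact.out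
  rcases (Nat.dvd_prime Nat.prime_two).1 hdvd with h1 | h1
  · exact hx1 (orderOf_eq_one_iff.1 h1)
  · rw [hk] at h1
    rcases Nat.eq_zero_or_pos k with rfl | hk0
    · simp at h1
    · have : p ∣ 2 := h1 ▸ dvd_pow_self p hk0.ne'
      exact K.odd ((Nat.prime_dvd_prime_iff_eq hp Nat.prime_two).1 this)

theorem mem_P_of_p_element {g : G} {k : ℕ} (hg : orderOf g = p ^ k) :
    ∃ r : G, r * g * r⁻¹ ∈ K.P := by
  obtain ⟨S, hS⟩ := Element.exists_sylow_mem hg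
  obtain ⟨r, hr⟩ := MulAction.exists_smul_eq G S K.sylow
  refine ⟨r, ?_⟩
  rw [← K.sylow_eq, ← hr]
  exact ⟨g, hS, rfl⟩

/-- Two elements of `P` conjugate in `G` are equal or inverse. -/
theorem eq_or_inv {x y : G} (hx : x ∈ K.P) (hy : y ∈ K.P) {g : G} (h : g * x * g⁻¹ = y) :
    y = x ∨ y = x⁻¹ := by
  have hcomm : IsMulCommutative (K.sylow : Subgroup G) :=
    ⟨⟨fun a b => Subtype.ext (K.comm a (K.sylow_eq ▸ a.2) b (K.sylow_eq ▸ b.2))⟩⟩
  obtain ⟨n, hn, he⟩ := Transfer.controlsFusion_normalizer_of_abelian K.sylow hcomm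
    x (K.sylow_eq.symm ▸ hx) g (by rw [h, K.sylow_eq]; exact hy)
  rw [K.sylow_eq] at hn
  rw [h] at he
  rcases K.pm n hn with h' | h'
  · left; rw [← h' x hx, he]
  · right; rw [← h' x hx, he]

/-- Conjugation between subsets of `P` is a power `±1`, uniformly. -/
theorem uniform_sign (Q : Subgroup G) (hQ : Q ≤ K.P) (g : G)
    (hg : ∀ q ∈ Q, g * q * g⁻¹ ∈ K.P) :
    (∀ q ∈ Q, g * q * g⁻¹ = q) ∨ ∀ q ∈ Q, g * q * g⁻¹ = q⁻¹ := by
  by_cases h1 : ∀ q ∈ Q, g * q * g⁻¹ = q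
  · exact Or.inl h1
  · right
    push Not at h1
    obtain ⟨a, ha, hane⟩ := h1
    have hai : g * a * g⁻¹ = a⁻¹ :=
      (K.eq_or_inv (hQ ha) (hg a ha) rfl).resolve_left hane
    intro q hq
    rcases K.eq_or_inv (hQ hq) (hg q hq) rfl with e | e
    · by_cases hq1 : q = 1
      · simp [hq1]
      exfalso
      have haq : g * (a * q) * g⁻¹ = a⁻¹ * q := by
        rw [show g * (a * q) * g⁻¹ = (g * a * g⁻¹) * (g * q * g⁻¹) by group, hai, e]
      rcases K.eq_or_inv (hQ (mul_mem ha hq)) (hg _ (mul_mem ha hq)) rfl with f | f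
      · rw [haq] at f
        exact hane (by rw [hai, mul_right_cancel f])
      · rw [haq, mul_inv_rev, K.comm q⁻¹ (inv_mem (hQ hq)) a⁻¹ (inv_mem (hQ ha))] at f
        exact K.sq_ne_one (hQ hq) hq1 (mul_left_cancel f).symm
    · exact e

theorem exists_neg_iff {x : G} (hx : x ∈ K.P) : ∃ g : G, g * x * g⁻¹ = x⁻¹ := ⟨K.t, K.ht x hx⟩

end Core

end Cfsg.Agent.InertTwo
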