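import Cfsg.Agent.InertTwo.Cocycle
import Cfsg.Agent.InertTwo.Sections
import Mathlib.Analysis.SpecialFunctions.Complex.CircleAddChar

/-!
# The twisted function on the extension

`Θ` is supported on the elements whose `p`-part is conjugate into the radical `R` of the pairing;
`p • Θ` is a generalised character.
-/

set_option autoImplicit false
set_option linter.unusedSectionVars false

noncomputable section

namespace Cfsg.Agent.InertTwo

open scoped ComplexConjugate Classical
open Cfsg (classInner IrrCharacter)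

universe u

variable {p : ℕ} {G : Type u} [Group G] [Finite G] [Fact p.Prime]

local instance instTwist1 : Fintype G := Fintype.ofFinite G

namespace Core

variable (K : Core p G)

local instance instTwist2 : Fintype K.P := Fintype.ofFinite _
local instance instTwist3 : Fintype (Ext K) := Fintype.ofFinite _

include K in
theorem two_ne_zero' : (2 : ZMod p) ≠ 0 := by
  intro h
  have h2 : ((2 : ℕ) : ZMod p) = 0 := by exact_mod_cast h
  exact K.odd ((Nat.prime_dvd_prime_iff_eq Fact.out Nat.prime_two).1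
    ((ZMod.natCast_eq_zero_iff _ _).1 h2))

/-- The pair of coordinates as a homomorphism. -/
def phi : K.P →* Multiplicative (ZMod p × ZMod p) where
  toFun a := Multiplicative.ofAdd (K.φ₁ a, K.φ₂ a)
  map_one' := by rw [K.φ₁_one, K.φ₂_one]; rfl
  map_mul' a b := by rw [K.φ₁_mul, K.φ₂_mul]; rfl

theorem mem_ker_phi (a : K.P) : a ∈ K.phi.ker ↔ K.φ₁ a = 0 ∧ K.φ₂ a = 0 := by
  rw [MonoidHom.mem_ker]
  show Multiplicative.ofAdd (K.φ₁ a, K.φ₂ a) = 1 ↔ _
  rw [ofAdd_eq_one, Prod.mk_eq_zero]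

theorem phi_surjective : Function.Surjective K.phi := fun c => by
  obtain ⟨a, h1, h2⟩ := K.surj c.toAdd.1 c.toAdd.2
  exact ⟨a, Multiplicative.toAdd.injective (Prod.ext h1 h2)⟩

theorem card_ker_phi : Nat.card K.phi.ker * (p * p) = Nat.card K.P := by
  rw [← K.phi.ker.card_mul_index, Subgroup.index_ker,
    MonoidHom.range_eq_top.2 K.phi_surjective, Subgroup.card_top,
    Nat.card_congr Multiplicative.toAdd, Nat.card_prod, Nat.card_zmod]

/-- The preimage of `P` in the extension. -/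
def Phat : Subgroup (Ext K) := K.P.comap (Ext.proj K)

/-- The radical. -/
def R : Subgroup (Ext K) := (K.phi.ker.map K.P.subtype).comap (Ext.proj K)

theorem mem_R {a : Ext K} : a ∈ K.R ↔ ∃ h : a.g ∈ K.P, K.φ₁ ⟨a.g, h⟩ = 0 ∧ K.φ₂ ⟨a.g, h⟩ = 0 := by
  constructor
  · rintro ⟨b, hb, he⟩
    have he' : (b : G) = a.g := he
    exact ⟨he' ▸ b.2, by
      have e : (⟨a.g, he' ▸ b.2⟩ : K.P) = b := Subtype.ext he'.symm
      rw [e]; exact (K.mem_ker_phi b).1 hb⟩
  · rintro ⟨h, h'⟩
    exact ⟨⟨a.g, h⟩, (K.mem_ker_phi _).2 h', rfl⟩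

theorem R_le : K.R ≤ K.Phat := fun a ha => ((K.mem_R).1 ha).1

theorem incl_mem_R (k : ZMod p) : Ext.incl K k ∈ K.R :=
  ⟨1, one_mem _, rfl⟩

theorem R_g {a : Ext K} (ha : a ∈ K.R) : a.g ∈ K.P := K.R_le ha

theorem R_commute {a b : Ext K} (ha : a ∈ K.R) (hb : b ∈ K.Phat) : a * b = b * a := by
  obtain ⟨h, h1, h2⟩ := (K.mem_R).1 ha
  rw [Ext.commutator_eq_of_mem h hb, h1, h2, mul_zero, zero_mul, sub_zero, mul_zero,
    Ext.incl_mul, zero_add]

/-- The lift of `t`. -/
def that : Ext K := ⟨0, K.t⟩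

theorem conj_that_mem {a : Ext K} (ha : a ∈ K.R) : K.that * a * K.that⁻¹ ∈ K.R := by
  have h : (K.that * a * K.that⁻¹).g = (a⁻¹).g := K.ht a.g (K.R_g ha)
  have := (K.mem_R).1 (inv_mem ha)
  rw [← h] at this
  exact (K.mem_R).2 this

/-- An element over the centraliser of the image of an element of `R` centralises it. -/
theorem commute_of_proj_commute {a b : Ext K} (ha : a ∈ K.R) (h : b.g * a.g = a.g * b.g) :
    b * a = a * b := by
  have hp : p.Prime := Fact.out
  set M := (Subgroup.centralizer ({a.g} : Set G)).comap (Ext.proj K) with hMdef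
  have key : ∀ v : Ext K, v ∈ M → v * a = Ext.incl K (K.coc v.g a.g - K.coc a.g v.g) * (a * v) :=
    fun v hv => Ext.commutator_eq (Subgroup.mem_centralizer_singleton_iff.1 hv)
  have hbM : b ∈ M := Subgroup.mem_centralizer_singleton_iff.2 h
  obtain ⟨i, hi⟩ := Element.pPart_mem_zpowers p b
  obtain ⟨j, hj⟩ := Element.pComplPart_mem_zpowers p b
  have huM : Element.pPart p b ∈ M := hi ▸ M.zpow_mem hbM i
  have hvM : Element.pComplPart p b ∈ M := hj ▸ M.zpow_mem hbM j
  have hv : Commute (Element.pComplPart p b) a := by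
    set v := Element.pComplPart p b with hv
    set k := K.coc v.g a.g - K.coc a.g v.g with hk
    have e : v * a * v⁻¹ = Ext.incl K k * a := by
      rw [key v hvM, mul_assoc, mul_assoc, mul_inv_cancel, mul_one]
    have e2 : ∀ n : ℕ, v ^ n * a * (v ^ n)⁻¹ = Ext.incl K ((n : ZMod p) * k) * a := by
      intro n
      induction n with
      | zero => simp [Ext.incl_mul]
      | succ n ih =>
        rw [pow_succ', show v * v ^ n * a * (v * v ^ n)⁻¹ = v * (v ^ n * a * (v ^ n)⁻¹) * v⁻¹ by group,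
          ih, ← mul_assoc v, ← Ext.incl_comm, mul_assoc (Ext.incl K _), mul_assoc (Ext.incl K _), e,
          ← mul_assoc, ← Ext.incl_add]
        congr 2
        push_cast; ring
    have e3 := e2 (orderOf v)
    rw [pow_orderOf_eq_one, one_mul, inv_one, mul_one, Ext.incl_mul] at e3
    have e4 : (orderOf v : ZMod p) * k = 0 := by
      have := congrArg Ext.z e3
      simp only at this
      linear_combination -this
    have hord : (orderOf v : ZMod p) ≠ 0 := by
      rw [Ne, ZMod.natCast_eq_zero_iff]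
      exact (Nat.Prime.coprime_iff_not_dvd hp).1 (Element.coprime_orderOf_pComplPart hp b).symm
    have hk0 : k = 0 := (mul_eq_zero.1 e4).resolve_left hord
    show v * a = a * v
    rw [key v hvM, ← hk, hk0, Ext.incl_mul, zero_add]
  have hu : Commute (Element.pPart p b) a := by
    set u := Element.pPart p b with hu
    have huC : u.g ∈ Subgroup.centralizer ({a.g} : Set G) := huM
    set C := Subgroup.centralizer ({a.g} : Set G) with hC
    have hPC : K.P ≤ C := fun x hx => Subgroup.mem_centralizer_singleton_iff.2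
      (K.comm x hx a.g (K.R_g ha))
    let S : Sylow p C := K.sylow.subtype (K.sylow_eq ▸ hPC)
    obtain ⟨k, hk⟩ := (Nat.dvd_prime_pow hp).1 (Element.orderOf_pPart_eq_pow hp b ▸
      orderOf_map_dvd (Ext.proj K) u)
    obtain ⟨T, hT⟩ := Element.exists_sylow_mem (g := (⟨u.g, huC⟩ : C)) (k := k)
      (by rw [Subgroup.orderOf_mk]; exact hk.2)
    obtain ⟨r, hr⟩ := MulAction.exists_smul_eq C T S
    have hr' : (r : G) * u.g * (r : G)⁻¹ ∈ K.P := by
      have : r * ⟨u.g, huC⟩ * r⁻¹ ∈ (S : Subgroup C) := by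
        rw [← hr]; exact ⟨_, hT, rfl⟩
      simpa [S, Sylow.coe_subtype, Subgroup.mem_subgroupOf, ← K.sylow_eq] using this
    set rh : Ext K := ⟨0, (r : G)⟩ with hrh
    have hrM : rh ∈ M := r.2
    have h1 : Commute (rh * u * rh⁻¹) a := (K.R_commute ha (b := rh * u * rh⁻¹) hr').symm
    have h2 : Commute (rh * u * rh⁻¹) (rh * a * rh⁻¹) := by
      have e : rh * a * rh⁻¹ = Ext.incl K (K.coc rh.g a.g - K.coc a.g rh.g) * a := by
        rw [key rh hrM, mul_assoc, mul_assoc, mul_inv_cancel, mul_one]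
      rw [e]
      exact Commute.mul_right (Ext.incl_comm _ _).symm h1
    show u * a = a * u
    calc u * a = rh⁻¹ * (rh * u * rh⁻¹ * (rh * a * rh⁻¹)) * rh := by group
      _ = rh⁻¹ * (rh * a * rh⁻¹ * (rh * u * rh⁻¹)) * rh := by rw [h2.eq]
      _ = a * u := by group
  have := hu.mul_left hv
  rwa [Element.pPart_mul_pComplPart] at this

/-- The character `ω̃` on `R`. -/
def omg (a : Ext K) : ℂ := ZMod.stdAddChar ((2 : ZMod p)⁻¹ * (a * (K.that * a * K.that⁻¹)).z)

theorem omg_mul {a b : Ext K} (ha : a ∈ K.R) (hb : b ∈ K.R) :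
    K.omg (a * b) = K.omg a * K.omg b := by
  unfold omg
  rw [← AddChar.map_add_eq_mul, ← mul_add]
  congr 2
  have e : a * b * (K.that * (a * b) * K.that⁻¹)
      = (a * (K.that * a * K.that⁻¹)) * (b * (K.that * b * K.that⁻¹)) := by
    set τa := K.that * a * K.that⁻¹ with hτa
    rw [show K.that * (a * b) * K.that⁻¹ = τa * (K.that * b * K.that⁻¹) by rw [hτa]; group]
    rw [mul_assoc a b, ← mul_assoc b τa, K.R_commute hb (K.R_le (K.conj_that_mem ha))]
    simp only [mul_assoc, hτa]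
  rw [e]
  have hg : ∀ c ∈ K.R, (c * (K.that * c * K.that⁻¹)).g = 1 := fun c hc => by
    show c.g * (K.t * c.g * K.t⁻¹) = 1
    rw [K.ht c.g (K.R_g hc), mul_inv_cancel]
  rw [Ext.mul_z, hg a ha, hg b hb, K.coc_one_left, add_zero]

theorem omg_incl (k : ZMod p) : K.omg (Ext.incl K k) = ZMod.stdAddChar k := by
  unfold omg
  rw [show K.that * Ext.incl K k * K.that⁻¹ = Ext.incl K k by
    rw [← Ext.incl_comm, mul_inv_cancel_right], ← Ext.incl_add]
  show ZMod.stdAddChar ((2 : ZMod p)⁻¹ * (k + k)) = _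
  rw [← two_mul, ← mul_assoc, inv_mul_cancel₀ K.two_ne_zero', one_mul]

theorem omg_one : K.omg 1 = 1 := by
  have h := K.omg_incl 0
  rw [AddChar.map_zero_eq_one] at h
  exact h

theorem omg_norm (a : Ext K) : K.omg a * conj (K.omg a) = 1 := by
  rw [omg, ZMod.stdAddChar_apply, Complex.mul_conj, Complex.normSq_eq_norm_sq, Circle.norm_coe]
  simp

theorem omg_conj {a b g : Ext K} (ha : a ∈ K.R) (hb : b ∈ K.R) (h : g * a * g⁻¹ = b) :
    K.omg b = K.omg a := by
  have hg : g.g * a.g * g.g⁻¹ = b.g := congrArg Ext.g h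
  rcases K.eq_or_inv (K.R_g ha) (K.R_g hb) hg with e | e
  · have := K.commute_of_proj_commute (b := g) ha (by
      calc g.g * a.g = g.g * a.g * g.g⁻¹ * g.g := by group
        _ = a.g * g.g := by rw [hg, e])
    rw [← h, this, mul_inv_cancel_right]
  · have h' : Commute (K.that⁻¹ * g) a := by
      refine K.commute_of_proj_commute ha ?_
      show K.t⁻¹ * g.g * a.g = a.g * (K.t⁻¹ * g.g)
      rw [mul_assoc, show g.g * a.g = (g.g * a.g * g.g⁻¹) * g.g by group, hg, e]
      have := K.ht a.g (K.R_g ha)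
      rw [← this]; group
    have hb' : b = K.that * a * K.that⁻¹ := by
      rw [← h, show g * a * g⁻¹ = K.that * ((K.that⁻¹ * g) * a * (K.that⁻¹ * g)⁻¹) * K.that⁻¹ by group,
        h'.eq, mul_inv_cancel_right]
    have ht2 : Commute (K.that * K.that) a := by
      refine K.commute_of_proj_commute ha ?_
      show K.t * K.t * a.g = a.g * (K.t * K.t)
      have h1 := K.ht _ (inv_mem (K.R_g ha))
      rw [inv_inv, ← K.ht a.g (K.R_g ha)] at h1
      calc K.t * K.t * a.g = K.t * (K.t * a.g * K.t⁻¹) * K.t⁻¹ * (K.t * K.t) := by group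
        _ = a.g * (K.t * K.t) := by rw [h1]
    unfold omg
    rw [hb', show K.that * (K.that * a * K.that⁻¹) * K.that⁻¹
        = (K.that * K.that) * a * (K.that * K.that)⁻¹ by group, ht2.eq, mul_inv_cancel_right,
      K.R_commute (K.conj_that_mem ha) (K.R_le ha)]

/-- The set where `Θ` lives, as a function on `G`. -/
def Supp (g : G) : Prop := K.φ₁ (K.rep g) = 0 ∧ K.φ₂ (K.rep g) = 0

theorem exists_iff_supp (h : Ext K) :
    (∃ r : Ext K, r * Element.pPart p h * r⁻¹ ∈ K.R) ↔ K.Supp h.g := by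
  have hpp : (Element.pPart p h).g = Element.pPart p h.g :=
    (Element.map_pPart Fact.out (Ext.proj K) h).1
  constructor
  · rintro ⟨r, hr⟩
    obtain ⟨hP, h1, h2⟩ := (K.mem_R).1 hr
    have e : r.g * Element.pPart p h.g * r.g⁻¹ = (r * Element.pPart p h * r⁻¹).g := by
      rw [← hpp]; rfl
    rcases K.rep_eq_or_inv (g := h.g) (x := ⟨_, hP⟩) (r := r.g) e with e' | e'
    · exact ⟨e' ▸ h1, e' ▸ h2⟩
    · have hk : (⟨_, hP⟩ : K.P) ∈ K.phi.ker := (K.mem_ker_phi _).2 ⟨h1, h2⟩
      exact (K.mem_ker_phi _).1 (e' ▸ inv_mem hk)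
  · intro hs
    set r0 := (K.exists_rep h.g).choose with hr0
    refine ⟨⟨0, r0⟩, (K.mem_R).2 ?_⟩
    have e : ((⟨0, r0⟩ : Ext K) * Element.pPart p h * (⟨0, r0⟩ : Ext K)⁻¹).g = (K.rep h.g : G) := by
      show r0 * (Element.pPart p h).g * r0⁻¹ = _
      rw [hpp]; rfl
    refine ⟨e ▸ (K.rep h.g).2, ?_⟩
    have e' : (⟨_, e ▸ (K.rep h.g).2⟩ : K.P) = K.rep h.g := Subtype.ext e
    rw [e']
    exact hs

def theta (h : Ext K) : ℂ :=
  if hh : ∃ r : Ext K, r * Element.pPart p h * r⁻¹ ∈ K.R then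
    K.omg (hh.choose * Element.pPart p h * hh.choose⁻¹) else 0

theorem theta_eq {h r : Ext K} (hr : r * Element.pPart p h * r⁻¹ ∈ K.R) :
    K.theta h = K.omg (r * Element.pPart p h * r⁻¹) := by
  rw [theta, dif_pos ⟨r, hr⟩]
  set r' := (⟨r, hr⟩ : ∃ r : Ext K, r * Element.pPart p h * r⁻¹ ∈ K.R).choose with hr'
  exact K.omg_conj hr (⟨r, hr⟩ : ∃ r : Ext K, r * Element.pPart p h * r⁻¹ ∈ K.R).choose_spec
    (g := r' * r⁻¹) (by group)

theorem theta_class : Cfsg.IsClassFunction (Ext K) K.theta := by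
  intro h s
  have e := (Element.pPart_conj (p := p) Fact.out s h).1
  by_cases hh : ∃ r : Ext K, r * Element.pPart p h * r⁻¹ ∈ K.R
  · obtain ⟨r, hr⟩ := hh
    have e2 : (r * s⁻¹) * Element.pPart p (s * h * s⁻¹) * (r * s⁻¹)⁻¹
        = r * Element.pPart p h * r⁻¹ := by rw [e]; group
    rw [K.theta_eq hr, K.theta_eq (r := r * s⁻¹) (by rw [e2]; exact hr), e2]
  · rw [theta, dif_neg, theta, dif_neg hh]
    rintro ⟨r, hr⟩
    apply hh
    refine ⟨r * s, ?_⟩
    rw [e] at hr
    rw [show r * s * Element.pPart p h * (r * s)⁻¹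
      = r * (s * Element.pPart p h * s⁻¹) * r⁻¹ by group]
    exact hr

theorem theta_mul_conj (h : Ext K) :
    K.theta h * conj (K.theta h) = if K.Supp h.g then 1 else 0 := by
  rw [theta]
  by_cases hh : ∃ r : Ext K, r * Element.pPart p h * r⁻¹ ∈ K.R
  · rw [dif_pos hh, if_pos ((K.exists_iff_supp h).1 hh), K.omg_norm]
  · rw [dif_neg hh, if_neg (mt (K.exists_iff_supp h).2 hh), zero_mul]

theorem theta_regular {h : Ext K} (hh : Element.pPart p h = 1) : K.theta h = 1 := by
  have := K.theta_eq (h := h) (r := 1) (by rw [hh]; simp [one_mem])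
  rw [this, hh]
  simp [K.omg_one]

theorem theta_of_ker {h : Ext K} (hh : Element.pPart p h ∈ (Ext.proj K).ker) :
    K.theta h = ZMod.stdAddChar (Element.pPart p h).z := by
  have he := Ext.eq_incl_of_g_eq_one (K := K) (a := Element.pPart p h) hh
  have hm : 1 * Element.pPart p h * (1 : Ext K)⁻¹ ∈ K.R := by
    rw [one_mul, inv_one, mul_one, he]; exact K.incl_mem_R _
  rw [K.theta_eq hm, one_mul, inv_one, mul_one]
  conv_lhs => rw [he]
  exact K.omg_incl _

theorem isPGroup_Phat : IsPGroup p K.Phat := by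
  refine IsPGroup.comap_of_ker_isPGroup K.isPGroup (Ext.proj K) ?_
  intro a
  refine ⟨1, Subtype.ext ?_⟩
  have ha := Ext.eq_incl_of_g_eq_one (K := K) (a := (a : Ext K)) a.2
  have hn : ∀ n : ℕ, (Ext.incl K (a : Ext K).z) ^ n = Ext.incl K ((n : ZMod p) * (a : Ext K).z) := by
    intro n
    induction n with
    | zero => simp only [pow_zero, Nat.cast_zero, zero_mul]; rfl
    | succ n ih => rw [pow_succ, ih, ← Ext.incl_add]; push_cast; ring_nf
  rw [pow_one, Subgroup.coe_pow, ha, hn, ZMod.natCast_self, zero_mul]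
  rfl

theorem not_dvd_index_Phat : ¬ p ∣ K.Phat.index := by
  rw [Phat, Subgroup.index_comap_of_surjective _ (Ext.proj_surjective)]
  exact K.not_dvd_index

/-- `p • Θ` is a generalised character. -/
theorem theta_genChar :
    Cfsg.IsGeneralizedCharacter (Ext K) (fun h => (p : ℂ) * K.theta h) := by
  have hp : p.Prime := Fact.out
  let S : Sylow p (Ext K) := K.isPGroup_Phat.toSylow K.not_dvd_index_Phat
  refine genChar_of_pPart S (fun g h => ?_) (fun g => ?_) ?_
  · show _ * K.theta _ = _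
    rw [K.theta_class g h]
  · congr 1
    have h2 : Element.pPart p (Element.pPart p g) = Element.pPart p g :=
      (Element.pPart_eq_self Fact.out (Element.orderOf_pPart_eq_pow Fact.out g)).1
    simp only [theta, h2]
  set T : Subgroup (Ext K) := (S : Subgroup (Ext K)) with hT
  have hTP : ∀ x : T, (x : Ext K).g ∈ K.P := fun x => x.2
  have hPT : ∀ x : Ext K, x.g ∈ K.P → x ∈ T := fun x hx => hx
  haveI : Fintype T := Fintype.ofFinite _
  have hval : ∀ s : T, K.theta (s : Ext K) = if (s : Ext K) ∈ K.R then K.omg s else 0 := by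
    intro s
    obtain ⟨k, hk⟩ := Element.orderOf_eq_pow_of_mem_isPGroup S.2 s.2
    have hs := (Element.pPart_eq_self hp hk).1
    split_ifs with hR
    · have hm : 1 * Element.pPart p (s : Ext K) * (1 : Ext K)⁻¹ ∈ K.R := by
        rw [hs, one_mul, inv_one, mul_one]; exact hR
      rw [K.theta_eq hm, hs, one_mul, inv_one, mul_one]
    · rw [theta, dif_neg]
      rintro ⟨r, hr⟩
      rw [hs] at hr
      apply hR
      obtain ⟨hP, h1, h2⟩ := (K.mem_R).1 hr
      refine (K.mem_R).2 ⟨hTP s, ?_⟩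
      have hsP : (s : Ext K).g ∈ K.P := hTP s
      rcases K.eq_or_inv hsP hP (g := r.g) rfl with e | e
      · have e' : (⟨_, hP⟩ : K.P) = ⟨_, hsP⟩ := Subtype.ext e
        rw [e'] at h1 h2; exact ⟨h1, h2⟩
      · have e' : (⟨_, hP⟩ : K.P) = (⟨_, hsP⟩ : K.P)⁻¹ := Subtype.ext e
        have hk' : (⟨_, hP⟩ : K.P) ∈ K.phi.ker := (K.mem_ker_phi _).2 ⟨h1, h2⟩
        rw [e', Subgroup.inv_mem_iff] at hk'
        exact (K.mem_ker_phi _).1 hk'
  refine Char.isGeneralizedCharacter_iff_classInner_int.2 ⟨fun a b => ?_, fun η => ?_⟩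
  · show _ * K.theta _ = _ * K.theta _
    rw [show ((b * a * b⁻¹ : T) : Ext K) = (b : Ext K) * a * (b : Ext K)⁻¹ from rfl, K.theta_class]
  let Z : Subgroup T := K.R.subgroupOf T
  have hη1 : (η : T → ℂ) 1 ≠ 0 := by
    obtain ⟨d, hd, hd1⟩ := Char.irr_one_pos η.2
    rw [hd1]; exact Nat.cast_ne_zero.2 (by omega)
  have hscal : ∀ (z : Z) (x : T),
      (η : T → ℂ) ((z : T) * x) = (η : T → ℂ) z / (η : T → ℂ) 1 * (η : T → ℂ) x := fun z x => by
    have hzc : (z : T) ∈ Subgroup.center T := Subgroup.mem_center_iff.2 fun e =>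
      Subtype.ext (K.R_commute z.2 (hTP e)).symm
    obtain ⟨w, -, hw1, hwx⟩ := Char.irr_mul_center η.2 hzc
    rw [hwx, hw1, mul_div_assoc, div_self hη1, mul_one]
  let f : Z →* ℂ :=
    { toFun := fun z => K.omg (z : T) * conj ((η : T → ℂ) z / (η : T → ℂ) 1)
      map_one' := by simp [div_self hη1, K.omg_one]
      map_mul' := fun a b => by
        rw [Subgroup.coe_mul, hscal a b, mul_div_assoc, map_mul, Subgroup.coe_mul]
        erw [K.omg_mul a.2 b.2]
        simp only [Subgroup.coe_subtype]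
        ring }
  have hsum : ∑ s : T, (p : ℂ) * K.theta (s : Ext K) * conj ((η : T → ℂ) s)
      = (p : ℂ) * conj ((η : T → ℂ) 1) * ∑ z : Z, f z := by
    rw [Finset.mul_sum]
    simp only [hval, mul_ite, mul_zero, ite_mul, zero_mul, ← Finset.sum_filter]
    symm
    refine Finset.sum_bij (fun z _ => (z : T)) (fun z _ => Finset.mem_filter.2 ⟨Finset.mem_univ _, z.2⟩)
      (fun a _ b _ h => Subtype.ext h)
      (fun s hs => ⟨⟨s, (Finset.mem_filter.1 hs).2⟩, Finset.mem_univ _, rfl⟩) fun z _ => ?_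
    show _ * _ * (K.omg _ * conj _) = _
    rw [map_div₀]
    field_simp [show conj ((η : T → ℂ) 1) ≠ 0 from (map_ne_zero _).2 hη1]
  rw [classInner, hsum]
  rcases sum_hom_eq f with h0 | h0
  · exact ⟨0, by rw [h0]; simp⟩
  have hf : ∀ z, f z = 1 := by
    intro z
    have e1 : f z * ∑ x : Z, f x = ∑ x : Z, f x := by
      rw [Finset.mul_sum]
      exact Fintype.sum_equiv (Equiv.mulLeft z) _ _ (fun x => (map_mul f z x).symm)
    rw [h0] at e1
    exact (mul_left_eq_self₀.1 e1).resolve_right (Nat.cast_ne_zero.2 Fintype.card_ne_zero)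
  have hvan : ∀ s : T, (s : Ext K) ∉ K.R → (η : T → ℂ) s = 0 := by
    intro s hs
    have hsP : (s : Ext K).g ∈ K.P := hTP s
    obtain ⟨b, hb⟩ : ∃ b : K.P, K.φ₁ b * K.φ₂ ⟨_, hsP⟩ - K.φ₁ ⟨_, hsP⟩ * K.φ₂ b ≠ 0 := by
      by_contra hall
      push Not at hall
      apply hs
      refine (K.mem_R).2 ⟨hsP, ?_⟩
      obtain ⟨a, a1, a2⟩ := K.surj 1 0
      obtain ⟨c, c1, c2⟩ := K.surj 0 1
      have r1 := hall a; have r2 := hall c
      rw [a1, a2] at r1; rw [c1, c2] at r2
      constructor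
      · linear_combination -r2
      · linear_combination r1
    let bh : T := ⟨⟨0, b⟩, hPT _ b.2⟩
    set k := (K.P.index : ZMod p) * (K.φ₁ b * K.φ₂ ⟨_, hsP⟩ - K.φ₁ ⟨_, hsP⟩ * K.φ₂ b) with hk
    have hk0 : k ≠ 0 := mul_ne_zero (by
      rw [Ne, ZMod.natCast_eq_zero_iff]; exact K.not_dvd_index) hb
    let zk : Z := ⟨⟨Ext.incl K k, hPT _ (K.R_g (K.incl_mem_R k))⟩, K.incl_mem_R k⟩
    have e : bh * s * bh⁻¹ = (zk : T) * s := by
      apply Subtype.ext
      show (⟨0, b⟩ : Ext K) * s * (⟨0, b⟩ : Ext K)⁻¹ = Ext.incl K k * s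
      rw [Ext.commutator_eq_of_mem (a := ⟨0, (b : G)⟩) b.2 hsP, ← hk, mul_assoc, mul_assoc,
        mul_inv_cancel, mul_one]
    have h1 := Char.irr_isClassFunction η.2 s bh
    rw [e, hscal] at h1
    have h2 := hf zk
    have h3 : K.omg (zk : T) * conj ((η : T → ℂ) zk / (η : T → ℂ) 1) = 1 := h2
    by_contra hne
    have h4 : (η : T → ℂ) zk / (η : T → ℂ) 1 = 1 :=
      (mul_left_eq_self₀.1 h1).resolve_right hne
    rw [h4, map_one, mul_one, K.omg_incl, ← AddChar.map_zero_eq_one (ZMod.stdAddChar (N := p))] at h3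
    exact hk0 (ZMod.injective_stdAddChar h3)
  -- the degree
  have hnorm := Char.classInner_irr_self η.2
  have hη1' : conj ((η : T → ℂ) 1) = (η : T → ℂ) 1 := by
    obtain ⟨d, -, hd1⟩ := Char.irr_one_pos η.2
    rw [hd1, map_natCast]
  have hcardZ : (Nat.card T : ℂ) = (p : ℂ) * p * Fintype.card Z := by
    have e1 : Nat.card K.R * (p * p) = Nat.card K.Phat := by
      have hc : ∀ H : Subgroup G, Nat.card (H.comap (Ext.proj K)) = p * Nat.card H := by
        intro H
        refine Nat.eq_of_mul_eq_mul_right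
          (Nat.pos_of_ne_zero (Subgroup.index_ne_zero_of_finite (H := H))) ?_
        conv_lhs => rw [← Subgroup.index_comap_of_surjective H (Ext.proj_surjective (K := K))]
        rw [Subgroup.card_mul_index, Ext.card_ext, ← H.card_mul_index, mul_assoc]
      rw [R, Phat, hc, hc, Subgroup.card_map_of_injective K.P.subtype_injective,
        ← K.card_ker_phi]
      ring
    have e2 : Nat.card Z = Nat.card K.R :=
      Nat.card_congr (Subgroup.subgroupOfEquivOfLe (fun x hx => hPT x (K.R_g hx))).toEquiv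
    rw [show Nat.card T = Nat.card K.Phat from rfl, ← e1, ← e2, Nat.card_eq_fintype_card]
    push_cast; ring
  have hsq : ∑ s : T, (η : T → ℂ) s * conj ((η : T → ℂ) s)
      = (η : T → ℂ) 1 * (η : T → ℂ) 1 * Fintype.card Z := by
    rw [← Finset.sum_filter_add_sum_filter_not Finset.univ (fun s : T => (s : Ext K) ∈ K.R),
      Finset.sum_eq_zero (s := Finset.univ.filter fun s : T => (s : Ext K) ∉ K.R)
        (fun s hs => by rw [hvan s (Finset.mem_filter.1 hs).2, zero_mul]), add_zero]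
    rw [show (η : T → ℂ) 1 * (η : T → ℂ) 1 * Fintype.card Z
      = ∑ _z : Z, (η : T → ℂ) 1 * (η : T → ℂ) 1 by simp; ring]
    symm
    refine Finset.sum_bij (fun z _ => (z : T)) (fun z _ => Finset.mem_filter.2 ⟨Finset.mem_univ _, z.2⟩)
      (fun a _ b _ h => Subtype.ext h)
      (fun s hs => ⟨⟨s, (Finset.mem_filter.1 hs).2⟩, Finset.mem_univ _, rfl⟩) fun z _ => ?_
    have h3 : K.omg (z : T) * conj ((η : T → ℂ) z / (η : T → ℂ) 1) = 1 := hf z
    rw [map_div₀, mul_div_assoc', div_eq_one_iff_eq ((map_ne_zero _).2 hη1), hη1'] at h3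
    have h4 : conj (K.omg (z : T)) * (η : T → ℂ) z = (η : T → ℂ) 1 := by
      have := congrArg conj h3
      rwa [map_mul, Complex.conj_conj, hη1'] at this
    calc (η : T → ℂ) 1 * (η : T → ℂ) 1
        = K.omg (z : T) * conj ((η : T → ℂ) (z : T)) * (conj (K.omg (z : T)) * (η : T → ℂ) (z : T)) := by
          rw [h3, h4]
      _ = _ := by
          linear_combination ((η : T → ℂ) (z : T) * conj ((η : T → ℂ) (z : T))) * K.omg_norm (z : T)
  rw [classInner, hsq, inv_mul_eq_iff_eq_mul₀ Char.card_ne_zero_complex, mul_one, hcardZ] at hnorm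
  obtain ⟨d, -, hd1⟩ := Char.irr_one_pos η.2
  have hd : d = p := by
    rw [hd1] at hnorm
    have h5 := mul_right_cancel₀ (Nat.cast_ne_zero.2 Fintype.card_ne_zero) hnorm
    have h6 : d * d = p * p := by exact_mod_cast h5
    exact Nat.mul_self_inj.1 h6
  refine ⟨1, ?_⟩
  rw [h0, hη1', hd1, hd, hcardZ, Int.cast_one]
  have : (p : ℂ) ≠ 0 := Nat.cast_ne_zero.2 hp.ne_zero
  have : ((Fintype.card Z : ℕ) : ℂ) ≠ 0 := Nat.cast_ne_zero.2 Fintype.card_ne_zero
  field_simp

end Core

end Cfsg.Agent.InertTwo
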